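import Mathlib

/-!
Binary affine groups: a group with `q + 1` reflections on a plane over `F_p` of order `q ^ 2` is
the group of norm-one semilinear maps of the field of order `q ^ 2`.
-/

set_option autoImplicit false

namespace CfsgLib.BinaryAffine

/-- `q + 1` divides `p ^ j - 1` only for `j = 0` or `j ≥ 2 m`. -/
theorem exp_eq {p m j : ℕ} (hp : 2 ≤ p) (hj : 1 ≤ j) (hj' : j ≤ 2 * m)
    (h : p ^ m + 1 ∣ p ^ j - 1) : j = 2 * m := by
  have hj1 : 2 ≤ p ^ j := le_trans hp (Nat.le_self_pow (by omega) p)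
  by_contra hne
  rcases le_or_gt j m with hjm | hjm
  · have := Nat.le_of_dvd (by omega) h
    have := Nat.pow_le_pow_right (show 0 < p by omega) hjm
    omega
  · obtain ⟨i, rfl⟩ : ∃ i, j = m + i := ⟨j - m, by omega⟩
    have h1 : p ^ m + 1 ∣ p ^ i * (p ^ m + 1) - (p ^ (m + i) - 1) :=
      Nat.dvd_sub (dvd_mul_left _ _) h
    rw [show p ^ i * (p ^ m + 1) = p ^ (m + i) + p ^ i by rw [pow_add]; ring,
      show p ^ (m + i) + p ^ i - (p ^ (m + i) - 1) = p ^ i + 1 by omega] at h1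
    have h2 := Nat.le_of_dvd (by omega) h1
    have := (Nat.pow_le_pow_iff_right (by omega)).1 (show p ^ m ≤ p ^ i by omega)
    omega

theorem exists_fieldModel {V : Type} [AddCommGroup V] [Finite V] {H : Type*} [Group H] [Finite H]
    [DistribMulAction H V] [FaithfulSMul H V] (p m : ℕ) (hp : p.Prime) (hm : 1 ≤ m)
    (hV : Nat.card V = (p ^ m) ^ 2) (hpV : ∀ v : V, p • v = 0)
    (R : Set H) (hR2 : ∀ r ∈ R, r * r = 1) (hR1 : (1 : H) ∉ R) (hRcard : Nat.card R = p ^ m + 1)
    (hfix : ∀ g : H, g ≠ 1 → ∀ v : V, v ≠ 0 → g • v = v → g ∈ R)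
    (hfix' : ∀ r ∈ R, ∃ v : V, v ≠ 0 ∧ r • v = v)
    (hprod : ∀ g : H, g ∉ R → ∀ a ∈ R, g * a ∈ R) (hRR : ∀ a ∈ R, ∀ b ∈ R, a * b ∉ R) :
    ∃ (F E : Type) (_ : Field F) (_ : Fintype F) (_ : Field E) (_ : Fintype E) (_ : Algebra F E)
      (e : V ≃+ E), Module.finrank F E = 2 ∧
      ∀ f : V → V, (∃ g : H, ∀ x, f x = g • x) ↔
        ∃ (a : E) (φ : E ≃ₐ[F] E), Algebra.norm F a = 1 ∧ ∀ x, e (f x) = a * φ (e x) := by
  classical
  haveI : Fact p.Prime := ⟨hp⟩
  have hq2 : 2 ≤ p ^ m := le_trans hp.two_le (Nat.le_self_pow (by omega) p)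
  obtain ⟨a₀, ha₀⟩ : R.Nonempty := by
    rw [Set.nonempty_iff_ne_empty]
    rintro rfl
    simp at hRcard
  obtain ⟨v₀, hv₀, hv₀a⟩ := hfix' a₀ ha₀
  have hinv : ∀ a ∈ R, a⁻¹ = a := fun a ha => inv_eq_of_mul_eq_one_right (hR2 a ha)
  have hga : ∀ g ∉ R, ∀ a ∈ R, a * g * a = g⁻¹ := fun g hg a ha => by
    have h := hR2 _ (hprod g hg a ha)
    calc a * g * a = g⁻¹ * ((g * a) * (g * a)) := by group
      _ = g⁻¹ := by rw [h, mul_one]
  have hcommK : ∀ x ∉ R, ∀ y ∉ R, x * y = y * x := by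
    intro x hx y hy
    have hs := hR2 _ (hprod x hx a₀ ha₀)
    have hy' : y⁻¹ ∉ R := fun h => hy (by rw [← inv_inv y, hinv _ h]; exact h)
    refine mul_inv_eq_iff_eq_mul.1 ?_
    calc x * y * x⁻¹ = (x * a₀) * (a₀ * y * a₀) * (x * a₀)⁻¹ * ((a₀ * a₀)⁻¹ * 1) := by
          rw [hR2 a₀ ha₀, inv_one, one_mul, mul_one]
          calc x * y * x⁻¹ = x * (a₀ * a₀) * y * (a₀ * a₀) * x⁻¹ := by rw [hR2 a₀ ha₀]; group
            _ = x * a₀ * (a₀ * y * a₀) * (a₀ * x⁻¹) := by group
            _ = _ := by rw [mul_inv_rev, hinv a₀ ha₀]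
      _ = (x * a₀) * y⁻¹ * (x * a₀) := by
          rw [hga y hy a₀ ha₀, hR2 a₀ ha₀, inv_one, one_mul, mul_one, inv_eq_of_mul_eq_one_right hs]
      _ = y := by rw [hga y⁻¹ hy' _ (hprod x hx a₀ ha₀), inv_inv]
  have hneg : ∀ g ∉ R, g * g = 1 → g ≠ 1 → ∀ v : V, g • v = -v := by
    intro g hg hg2 hg1 v
    have hfixv : g • (v + g • v) = v + g • v := by rw [smul_add, smul_smul, hg2, one_smul, add_comm]
    exact eq_neg_of_add_eq_zero_right (by_contra fun h => hg (hfix g hg1 _ h hfixv))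
  have hmulK : ∀ x ∉ R, ∀ y ∉ R, x * y ∉ R := by
    intro x hx y hy hr
    have h1 : ∀ u ∉ R, Commute u (x * y) → u * u = 1 := fun u hu hc => by
      have h := hga u hu _ hr
      rw [← hc.eq, mul_assoc, hR2 _ hr, mul_one] at h
      exact eq_inv_iff_mul_eq_one.1 h
    have hxy := hcommK x hx y hy
    have hx2 := h1 x hx (show x * (x * y) = x * y * x by rw [mul_assoc, ← hxy])
    have hy2 := h1 y hy (show y * (x * y) = x * y * y by rw [← mul_assoc, ← hxy])
    by_cases hx1 : x = 1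
    · exact hy (by rwa [hx1, one_mul] at hr)
    by_cases hy1 : y = 1
    · exact hx (by rwa [hy1, mul_one] at hr)
    have : x = y := eq_of_smul_eq_smul (α := V) fun v => by rw [hneg x hx hx2 hx1, hneg y hy hy2 hy1]
    exact hR1 (by rwa [← this, hx2] at hr)
  let K : Subgroup H :=
    { carrier := Rᶜ
      one_mem' := hR1
      mul_mem' := fun {a b} ha hb => hmulK a ha b hb
      inv_mem' := fun {a} ha h => ha (by rw [← inv_inv a, hinv _ h]; exact h) }
  have hcoset : ∀ r ∈ R, r * a₀ ∈ K := fun r hr => hRR r hr a₀ ha₀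
  have hKcard : Nat.card K = p ^ m + 1 := by
    rw [← hRcard]
    refine Nat.card_congr
      { toFun := fun g => ⟨g * a₀, hprod g g.2 a₀ ha₀⟩
        invFun := fun r => ⟨r * a₀, hcoset r r.2⟩
        left_inv := fun g => Subtype.ext (by simp [mul_assoc, hR2 a₀ ha₀])
        right_inv := fun r => Subtype.ext (by simp [mul_assoc, hR2 a₀ ha₀]) }
  have hcardV : ∀ U : AddSubgroup V, U ≠ ⊥ → (∀ k ∈ K, ∀ u ∈ U, k • u ∈ U) → U = ⊤ := by
    intro U hU hinvU
    letI : MulAction K {u : U // u ≠ 0} :=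
      { smul := fun k u => ⟨⟨(k : H) • (u.1 : V), hinvU k k.2 _ u.1.2⟩, fun e => u.2 (Subtype.ext
          ((smul_eq_zero_iff_eq (k : H)).1 (congrArg Subtype.val e)))⟩
        one_smul := fun u => Subtype.ext (Subtype.ext (one_smul H (u.1 : V)))
        mul_smul := fun k l u => Subtype.ext (Subtype.ext (mul_smul (k : H) (l : H) (u.1 : V))) }
    have hfree : ∀ u : {u : U // u ≠ 0}, MulAction.stabilizer K u = ⊥ := by
      intro u
      rw [Subgroup.eq_bot_iff_forall]
      intro k hk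
      by_contra hk1
      exact k.2 (hfix k (fun e => hk1 (Subtype.ext e)) u.1
        (fun e => u.2 (Subtype.ext e)) (congrArg (fun x : {u : U // u ≠ 0} => (x.1 : V)) hk))
    have hdvd : p ^ m + 1 ∣ Nat.card {u : U // u ≠ 0} := by
      rw [Nat.card_congr (MulAction.selfEquivOrbitsQuotientProd hfree), Nat.card_prod, hKcard]
      exact dvd_mul_left _ _
    have hn0 : Nat.card {u : U // u ≠ 0} = Nat.card U - 1 := by
      letI := Fintype.ofFinite U
      rw [Nat.card_eq_fintype_card, Nat.card_eq_fintype_card, Fintype.card_subtype_compl,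
        Fintype.card_subtype_eq]
    rw [hn0] at hdvd
    obtain ⟨j, hj, hjU⟩ := (Nat.dvd_prime_pow hp).1
      (show Nat.card U ∣ p ^ (2 * m) by
        rw [mul_comm, pow_mul, ← hV]; exact AddSubgroup.card_addSubgroup_dvd_card U)
    have hj1 : 1 ≤ j := by
      by_contra h
      obtain rfl : j = 0 := by omega
      exact hU (AddSubgroup.card_eq_one.1 (by simpa using hjU))
    rw [hjU] at hdvd
    refine AddSubgroup.eq_top_of_card_eq _ ?_
    rw [hjU, exp_eq hp.two_le hj1 hj hdvd, hV, ← pow_mul, mul_comm]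
  -- the field
  let T : H →* AddMonoid.End V := DistribMulAction.toAddMonoidEnd H V
  let C : Subring (AddMonoid.End V) := Subring.centralizer (T '' (K : Set H))
  let ev : C →+ V :=
    { toFun := fun c => (c : AddMonoid.End V) v₀
      map_zero' := rfl
      map_add' := fun _ _ => rfl }
  have hcK : ∀ c ∈ C, ∀ k ∈ K, ∀ v : V, c (k • v) = k • c v := fun c hc k hk v =>
    (congrArg (fun φ : AddMonoid.End V => φ v) (Subring.mem_centralizer_iff.1 hc (T k) ⟨k, hk, rfl⟩)).symm
  have hev_inj : Function.Injective ev := by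
    rw [injective_iff_map_eq_zero]
    intro c hc
    let U : AddSubgroup V := AddMonoidHom.ker (c : AddMonoid.End V)
    have hU : U = ⊤ := by
      refine hcardV U (fun h => hv₀ ((AddSubgroup.mem_bot).1 (h ▸ (hc : v₀ ∈ U)))) ?_
      intro k hk u hu
      show (c : AddMonoid.End V) (k • u) = 0
      rw [hcK c c.2 k hk, show (c : AddMonoid.End V) u = 0 from hu, smul_zero]
    exact Subtype.ext (DFunLike.ext _ _ fun v => (hU ▸ AddSubgroup.mem_top v : v ∈ U))
  let J : Subring (AddMonoid.End V) := Subring.closure (T '' (K : Set H))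
  have hJC : J ≤ C := Subring.closure_le.2 (by
    rintro _ ⟨x, hx, rfl⟩
    rw [SetLike.mem_coe, Subring.mem_centralizer_iff]
    rintro _ ⟨y, hy, rfl⟩
    rw [← map_mul, ← map_mul, hcommK y hy x hx])
  have hev : ∀ v : V, ∃ c ∈ J, c v₀ = v := by
    let U : AddSubgroup V :=
      { carrier := {v | ∃ c ∈ J, c v₀ = v}
        zero_mem' := ⟨0, J.zero_mem, rfl⟩
        add_mem' := by rintro _ _ ⟨c, hc, rfl⟩ ⟨d, hd, rfl⟩; exact ⟨c + d, J.add_mem hc hd, rfl⟩
        neg_mem' := by rintro _ ⟨c, hc, rfl⟩; exact ⟨-c, J.neg_mem hc, rfl⟩ }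
    have hU : U = ⊤ := by
      refine hcardV U (fun h => hv₀ (AddSubgroup.mem_bot.1 (h ▸ (⟨1, J.one_mem, rfl⟩ : v₀ ∈ U)))) ?_
      rintro k hk _ ⟨c, hc, rfl⟩
      exact ⟨T k * c, J.mul_mem (Subring.subset_closure ⟨k, hk, rfl⟩) hc, rfl⟩
    exact fun v => (hU ▸ AddSubgroup.mem_top v : v ∈ U)
  have hev_surj : Function.Surjective ev := fun v => by
    obtain ⟨c, hc, h⟩ := hev v
    exact ⟨⟨c, hJC hc⟩, h⟩
  have hCJ : ∀ c ∈ C, c ∈ J := fun c hc => by
    obtain ⟨d, hd, h⟩ := hev (c v₀)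
    rwa [show c = d from congrArg Subtype.val (hev_inj (show ev ⟨c, hc⟩ = ev ⟨d, hJC hd⟩ from h.symm))]
  have hmc : ∀ a b : C, a * b = b * a := by
    intro a b
    have hle : J ≤ Subring.centralizer {(a : AddMonoid.End V)} := Subring.closure_le.2 fun x hx => by
      rw [SetLike.mem_coe, Subring.mem_centralizer_iff]
      rintro _ rfl
      exact (Subring.mem_centralizer_iff.1 a.2 x hx).symm
    exact Subtype.ext (Subring.mem_centralizer_iff.1 (hle (hCJ b b.2)) a rfl)
  letI : CommRing C := { (inferInstance : Ring C) with mul_comm := hmc }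
  haveI : Nontrivial C := ⟨⟨0, 1, fun h => hv₀ (congrArg ev h).symm⟩⟩
  haveI : Finite C := Finite.of_injective ev hev_inj
  have hz : ∀ a b : C, a * b = 0 → a = 0 ∨ b = 0 := by
    intro a b hab
    by_contra hno
    push Not at hno
    let U : AddSubgroup V := AddMonoidHom.ker (a : AddMonoid.End V)
    have hU : U = ⊤ := by
      refine hcardV U (fun h => hno.2 (hev_inj ?_)) fun k hk u hu => ?_
      · have hm : (b : AddMonoid.End V) v₀ ∈ U :=
          congrArg (fun φ : C => (φ : AddMonoid.End V) v₀) hab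
        rw [h, AddSubgroup.mem_bot] at hm
        exact hm
      · show (a : AddMonoid.End V) (k • u) = 0
        rw [hcK a a.2 k hk, show (a : AddMonoid.End V) u = 0 from hu, smul_zero]
    exact hno.1 (hev_inj (hU ▸ AddSubgroup.mem_top v₀ : v₀ ∈ U))
  haveI : NoZeroDivisors C := ⟨fun {a b} => hz a b⟩
  haveI : IsDomain C := NoZeroDivisors.to_isDomain C
  letI : Field C := (Finite.isField_of_domain C).toField
  letI : Fintype C := Fintype.ofFinite C
  have hcardC : Fintype.card C = (p ^ m) ^ 2 := by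
    rw [← hV, ← Nat.card_eq_fintype_card]
    exact Nat.card_eq_of_bijective ev ⟨hev_inj, hev_surj⟩
  -- the elements of `K`
  have hTC : ∀ k ∈ K, T k ∈ C := fun k hk => hJC (Subring.subset_closure ⟨k, hk, rfl⟩)
  let ι : K →* C :=
    { toFun := fun k => ⟨T k, hTC k k.2⟩
      map_one' := Subtype.ext (map_one T)
      map_mul' := fun a b => Subtype.ext (map_mul T (a : H) b) }
  have hι : Function.Injective ι := fun a b h => Subtype.ext (eq_of_smul_eq_smul (α := V) fun v =>
    congrArg (fun φ : C => (φ : AddMonoid.End V) v) h)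
  -- conjugation by the reflection
  have hTa : T a₀ * T a₀ = 1 := by rw [← map_mul, hR2 a₀ ha₀, map_one]
  have hσC : ∀ c ∈ C, T a₀ * c * T a₀ ∈ C := by
    intro c hc
    rw [Subring.mem_centralizer_iff]
    rintro _ ⟨k, hk, rfl⟩
    have h1 : a₀ * k⁻¹ = k * a₀ := by
      calc a₀ * k⁻¹ = a₀ * (a₀ * k * a₀) := by rw [hga k hk a₀ ha₀]
        _ = a₀ * a₀ * k * a₀ := by group
        _ = k * a₀ := by rw [hR2 a₀ ha₀, one_mul]
    have h2 : a₀ * k = k⁻¹ * a₀ := by
      calc a₀ * k = a₀ * k * (a₀ * a₀) := by rw [hR2 a₀ ha₀, mul_one]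
        _ = a₀ * k * a₀ * a₀ := by group
        _ = k⁻¹ * a₀ := by rw [hga k hk a₀ ha₀]
    calc T k * (T a₀ * c * T a₀) = T (k * a₀) * c * T a₀ := by rw [map_mul]; noncomm_ring
      _ = T a₀ * (T k⁻¹ * c) * T a₀ := by rw [← h1, map_mul]; noncomm_ring
      _ = T a₀ * (c * T k⁻¹) * T a₀ := by
          rw [Subring.mem_centralizer_iff.1 hc _ ⟨k⁻¹, K.inv_mem hk, rfl⟩]
      _ = T a₀ * c * T (k⁻¹ * a₀) := by rw [map_mul]; noncomm_ring
      _ = T a₀ * c * T a₀ * T k := by rw [← h2, map_mul]; noncomm_ring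
  let σ₀ : C → C := fun c => ⟨T a₀ * c * T a₀, hσC c c.2⟩
  have hσ₀ : ∀ c, σ₀ (σ₀ c) = c := fun c => Subtype.ext (by
    show T a₀ * (T a₀ * (c : AddMonoid.End V) * T a₀) * T a₀ = c
    calc _ = (T a₀ * T a₀) * c * (T a₀ * T a₀) := by noncomm_ring
      _ = c := by rw [hTa, one_mul, mul_one])
  let σ : C ≃+* C :=
    { toFun := σ₀
      invFun := σ₀
      left_inv := hσ₀
      right_inv := hσ₀
      map_mul' := fun a b => Subtype.ext (by
        show T a₀ * ((a : AddMonoid.End V) * b) * T a₀ =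
          (T a₀ * (a : AddMonoid.End V) * T a₀) * (T a₀ * b * T a₀)
        calc _ = T a₀ * a * (T a₀ * T a₀) * b * T a₀ := by rw [hTa]; noncomm_ring
          _ = _ := by noncomm_ring)
      map_add' := fun a b => Subtype.ext (by
        show T a₀ * ((a : AddMonoid.End V) + b) * T a₀ = T a₀ * a * T a₀ + T a₀ * b * T a₀
        noncomm_ring) }
  have hσK : ∀ k : K, σ (ι k) = ι k⁻¹ := fun k => Subtype.ext (by
    show T a₀ * T k * T a₀ = T ((k : H)⁻¹)
    rw [← map_mul, ← map_mul, hga k k.2 a₀ ha₀])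
  have hσ1 : σ ≠ 1 := by
    intro h
    have hsq : ∀ k : K, ι k ^ 2 = 1 := fun k => by
      have h' := hσK k
      rw [h, RingAut.one_apply, map_inv] at h'
      rw [pow_two]
      nth_rw 2 [h']
      exact mul_inv_cancel₀ fun e0 => by
        have hh := congrArg ι (mul_inv_cancel k)
        rw [map_mul, e0, zero_mul, map_one] at hh
        exact zero_ne_one hh
    have hle : Nat.card K ≤ (Polynomial.nthRootsFinset 2 (1 : C)).card := by
      have h2 := Nat.card_le_card_of_injective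
        (fun k : K => (⟨ι k, (Polynomial.mem_nthRootsFinset two_pos (1 : C)).2 (hsq k)⟩ :
          ↥(Polynomial.nthRootsFinset 2 (1 : C))))
        fun a b e => hι (congrArg Subtype.val e)
      rwa [Nat.card_eq_finsetCard] at h2
    have h2 : (Polynomial.nthRootsFinset 2 (1 : C)).card ≤ 2 := by
      rw [Polynomial.nthRootsFinset_def]
      exact (Multiset.toFinset_card_le _).trans (Polynomial.card_nthRoots 2 1)
    omega
  let Gσ : Subgroup (C ≃+* C) := Subgroup.zpowers σ
  have hσσ : σ * σ = 1 := RingEquiv.ext hσ₀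
  have hGσ : Nat.card Gσ = 2 := by
    rw [Nat.card_zpowers]
    exact orderOf_eq_prime (by rw [pow_two, hσσ]) hσ1
  let F := FixedPoints.subfield Gσ C
  letI : Fintype F := Fintype.ofFinite F
  haveI : Finite Gσ := Nat.finite_of_card_ne_zero (by omega)
  letI : Fintype Gσ := Fintype.ofFinite Gσ
  have hrank : Module.finrank F C = 2 := by
    rw [FixedPoints.finrank_eq_card Gσ C, ← Nat.card_eq_fintype_card, hGσ]
  have hcardF : Nat.card F = p ^ m := by
    have h : Nat.card C = Nat.card F ^ Module.finrank F C := Module.natCard_eq_pow_finrank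
    rw [hrank, Nat.card_eq_fintype_card, hcardC] at h
    exact (Nat.pow_left_injective two_ne_zero h).symm
  let σA : C ≃ₐ[F] C := AlgEquiv.ofRingEquiv (f := σ) fun x => x.2 ⟨σ, Subgroup.mem_zpowers σ⟩
  have hgal : ∀ φ : C ≃ₐ[F] C, φ = 1 ∨ φ = σA := by
    intro φ
    have hc := IsGalois.card_aut_eq_finrank F C
    rw [hrank] at hc
    letI := Fintype.ofFinite (C ≃ₐ[F] C)
    rw [Nat.card_eq_fintype_card] at hc
    have hne : (1 : C ≃ₐ[F] C) ≠ σA := fun h => hσ1 (RingEquiv.ext fun x =>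
      (DFunLike.congr_fun h x).symm)
    have := Finset.eq_univ_of_card ({1, σA} : Finset (C ≃ₐ[F] C))
      (by rw [Finset.card_pair hne, hc])
    simpa using this.ge (Finset.mem_univ φ)
  -- norm one means `K`
  have hexp : ((p ^ m) ^ 2 - 1) / (p ^ m - 1) = p ^ m + 1 := by
    have h := Nat.sq_sub_sq (p ^ m) 1
    rw [one_pow] at h
    rw [h, Nat.mul_div_cancel _ (by omega)]
  have hnorm : ∀ a : C, Algebra.norm F a = 1 ↔ a ^ (p ^ m + 1) = 1 := by
    intro a
    have h := FiniteField.algebraMap_norm_eq_pow (K := F) (K' := C) (x := a)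
    rw [Nat.card_eq_fintype_card, hcardC, hcardF, hexp] at h
    rw [← h, map_eq_one_iff _ (algebraMap F C).injective]
  have hroots : ∀ a : C, a ^ (p ^ m + 1) = 1 → ∃ k : K, ι k = a := by
    intro a ha
    set s := Polynomial.nthRootsFinset (p ^ m + 1) (1 : C)
    have hk : ∀ k : K, ι k ∈ s := fun k => (Polynomial.mem_nthRootsFinset (Nat.succ_pos _) (1 : C)).2 (by
      show ι k ^ (p ^ m + 1) = 1; rw [← map_pow, ← hKcard, pow_card_eq_one', map_one])
    let f : K → s := fun k => ⟨ι k, hk k⟩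
    have hcs : s.card ≤ p ^ m + 1 := by
      rw [show s = _ from Polynomial.nthRootsFinset_def _ _]
      exact (Multiset.toFinset_card_le _).trans (Polynomial.card_nthRoots _ 1)
    have hb : Function.Bijective f := Function.Injective.bijective_of_nat_card_le
      (fun a b e => hι (congrArg Subtype.val e)) (by rw [Nat.card_eq_finsetCard, hKcard]; exact hcs)
    obtain ⟨k, hk'⟩ := hb.2 ⟨a, (Polynomial.mem_nthRootsFinset (Nat.succ_pos _) (1 : C)).2 ha⟩
    exact ⟨k, congrArg Subtype.val hk'⟩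
  let eb : C ≃+ V := AddEquiv.ofBijective ev ⟨hev_inj, hev_surj⟩
  refine ⟨F, C, inferInstance, inferInstance, inferInstance, inferInstance, inferInstance, eb.symm,
    hrank, fun f => ?_⟩
  have hk_act : ∀ (k : K) (x : V), eb.symm ((k : H) • x) = ι k * eb.symm x := fun k x => by
    apply eb.injective
    rw [eb.apply_symm_apply]
    show _ = (k : H) • ev (eb.symm x)
    rw [show ev (eb.symm x) = x from eb.apply_symm_apply x]
  have ha_act : ∀ x : V, eb.symm (a₀ • x) = σ (eb.symm x) := fun x => by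
    apply eb.injective
    rw [eb.apply_symm_apply]
    show _ = a₀ • ((eb.symm x : C) : AddMonoid.End V) (a₀ • v₀)
    rw [hv₀a, show ((eb.symm x : C) : AddMonoid.End V) v₀ = x from eb.apply_symm_apply x]
  have hnormK : ∀ k : K, Algebra.norm F (ι k) = 1 := fun k => by
    rw [hnorm, ← map_pow, ← hKcard, pow_card_eq_one', map_one]
  constructor
  · rintro ⟨g, hg⟩
    by_cases hgR : g ∈ R
    · refine ⟨ι ⟨g * a₀, hcoset g hgR⟩, σA, hnormK _, fun x => ?_⟩
      rw [hg, show g • x = (g * a₀) • (a₀ • x) by rw [smul_smul, mul_assoc, hR2 a₀ ha₀, mul_one],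
        hk_act ⟨g * a₀, hcoset g hgR⟩, ha_act]
      rfl
    · refine ⟨ι ⟨g, hgR⟩, 1, hnormK _, fun x => ?_⟩
      rw [hg, hk_act ⟨g, hgR⟩]
      rfl
  · rintro ⟨a, φ, ha, hf⟩
    obtain ⟨k, rfl⟩ := hroots a ((hnorm a).1 ha)
    rcases hgal φ with rfl | rfl
    · refine ⟨k, fun x => eb.symm.injective ?_⟩
      rw [hf, hk_act]
      rfl
    · refine ⟨(k : H) * a₀, fun x => eb.symm.injective ?_⟩
      rw [hf, mul_smul, hk_act, ha_act]
      rfl

end CfsgLib.BinaryAffine
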