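import Cfsg.Agent.Lib.BinaryAffine.Basic
import Cfsg.Agent.Lib.BinaryAffine.FieldModel

/-!
# Binary affine groups: the linear model and the assembly

A primitive binary group with an abelian normal subgroup becomes an irreducible linear group `H` on a
finite abelian group `V` with the pairwise-extension property; the classification of those linear
groups gives the classification of the permutation groups.
-/

set_option linter.unusedSectionVars false

namespace CfsgLib.BinaryAffine

universe u v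

/-- The linear model of a primitive binary group with an abelian normal subgroup. -/
theorem exists_model {G : Type u} {Ω : Type v} [Group G] [Finite G] [MulAction G Ω]
    [FaithfulSMul G Ω] [Fintype Ω] (hprim : MulAction.IsPreprimitive G Ω)
    (haff : ∃ N : Subgroup G, N.Normal ∧ N ≠ ⊥ ∧ IsMulCommutative ↥N)
    (hbin : ∀ (n : ℕ) (I J : Fin n → Ω), 2 ≤ n →
      (∀ i j : Fin n, i ≠ j → ∃ g : G, g • I i = J i ∧ g • I j = J j) → ∃ g : G, ∀ i, g • I i = J i) :
    ∃ (V : Type) (_ : AddCommGroup V) (_ : Finite V) (H : Type u) (_ : Group H) (_ : Finite H)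
      (_ : DistribMulAction H V) (_ : FaithfulSMul H V) (p : ℕ) (e0 : Ω ≃ V),
      p.Prime ∧ (∀ v : V, p • v = 0) ∧ IsBinary H V ∧
      (∀ U : AddSubgroup V, (∀ g : H, ∀ v ∈ U, g • v ∈ U) → U = ⊥ ∨ U = ⊤) ∧ Nontrivial V ∧
      (∀ ω : Ω, Nat.card ↥(MulAction.stabilizer G ω) = Nat.card H) ∧
      ∀ σ : Equiv.Perm Ω, σ ∈ (MulAction.toPermHom G Ω).range ↔
        ∃ (h : H) (b : V), ∀ ω : Ω, e0 (σ ω) = h • e0 ω + b := by
  classical
  obtain ⟨N, hNn, hN, hNc⟩ := haff
  have : MulAction.IsPreprimitive G Ω := hprim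
  have := hNn
  -- `N` is regular
  have hfix : MulAction.fixedPoints (↥N) Ω ≠ Set.univ := fun h => hN <| by
    refine (Subgroup.eq_bot_iff_forall N).2 fun x hx => eq_of_smul_eq_smul (α := Ω) fun ω => ?_
    have hω : ω ∈ MulAction.fixedPoints (↥N) Ω := h ▸ Set.mem_univ ω
    rw [one_smul]
    exact hω ⟨x, hx⟩
  have htr : MulAction.IsPretransitive (↥N) Ω :=
    MulAction.IsQuasiPreprimitive.isPretransitive_of_normal hfix
  obtain ⟨ω0, -⟩ := (Set.ne_univ_iff_exists_notMem _).1 hfix
  have hinj : Function.Injective fun n : ↥N => n • ω0 := by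
    intro a b hab
    refine Subtype.ext (eq_of_smul_eq_smul (α := Ω) fun ω => ?_)
    obtain ⟨c, rfl⟩ := MulAction.exists_smul_eq (↥N) ω0 ω
    have h1 : a * c = c * a := IsMulCommutative.is_comm.comm a c
    have h2 : b * c = c * b := IsMulCommutative.is_comm.comm b c
    calc (a : G) • c • ω0 = (a * c) • ω0 := (mul_smul a c ω0).symm
      _ = c • a • ω0 := by rw [h1, mul_smul]
      _ = c • b • ω0 := by rw [show a • ω0 = b • ω0 from hab]
      _ = (b * c) • ω0 := by rw [h2, mul_smul]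
      _ = (b : G) • c • ω0 := mul_smul b c ω0
  letI : CommGroup ↥N :=
    { (inferInstance : Group ↥N) with mul_comm := IsMulCommutative.is_comm.comm }
  have : Finite Ω := Finite.of_fintype Ω
  let eN : ↥N ≃ Ω := Equiv.ofBijective _ ⟨hinj, MulAction.exists_smul_eq (↥N) ω0⟩
  let V : Type := Shrink.{0} (Additive ↥N)
  let eS : Additive ↥N ≃+ V := (Shrink.addEquiv : Shrink.{0} (Additive ↥N) ≃+ Additive ↥N).symm
  let e0 : Ω ≃ V := (eN.symm.trans Additive.ofMul).trans eS.toEquiv
  have he0 : ∀ ω, e0 ω = eS (Additive.ofMul (eN.symm ω)) := fun ω => rfl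
  -- translations
  have htrans : ∀ (n : ↥N) (ω : Ω), e0 ((n : G) • ω) = e0 ω + eS (Additive.ofMul n) := by
    intro n ω
    rw [he0, he0, ← map_add]
    congr 1
    obtain ⟨c, rfl⟩ := eN.surjective ω
    rw [eN.symm_apply_apply]
    have : (n : G) • eN c = eN (n * c) := (mul_smul n c ω0).symm
    rw [this, eN.symm_apply_apply, add_comm]
    rfl
  have hω0 : e0 ω0 = 0 := by
    rw [he0, show eN.symm ω0 = 1 by rw [Equiv.symm_apply_eq]; exact (one_smul _ ω0).symm]
    exact map_zero eS
  let H := ↥(MulAction.stabilizer G ω0)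
  -- the linear action
  have hlin : ∀ (h : H) (x y : V),
      e0 ((h : G) • e0.symm (x + y)) = e0 ((h : G) • e0.symm x) + e0 ((h : G) • e0.symm y) := by
    intro h x y
    obtain ⟨n, rfl⟩ : ∃ n : ↥N, eS (Additive.ofMul n) = x :=
      ⟨Additive.toMul (eS.symm x), eS.apply_symm_apply x⟩
    have hsym : ∀ (n : ↥N) (z : V), e0.symm (eS (Additive.ofMul n) + z) = (n : G) • e0.symm z := by
      intro n z
      rw [Equiv.symm_apply_eq, htrans, e0.apply_symm_apply, add_comm]
    have hn : e0.symm (eS (Additive.ofMul n)) = (n : G) • ω0 := by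
      rw [Equiv.symm_apply_eq, htrans, hω0, zero_add]
    let n' : ↥N := ⟨(h : G) * n * (h : G)⁻¹, hNn.conj_mem _ n.2 _⟩
    have hn' : ∀ w : Ω, (h : G) • (n : G) • w = (n' : G) • (h : G) • w := fun w => by
      simp only [← mul_smul, n', inv_mul_cancel_right]
    rw [hsym, hn', htrans, hn, hn', htrans, show (h : G) • ω0 = ω0 from h.2, hω0, zero_add,
      add_comm]
  letI act : DistribMulAction H V :=
    { smul := fun h x => e0 ((h : G) • e0.symm x)
      one_smul := fun x => by
        show e0 (((1 : H) : G) • e0.symm x) = x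
        rw [OneMemClass.coe_one, one_smul, e0.apply_symm_apply]
      mul_smul := fun h k x => by
        show e0 (((h * k : H) : G) • e0.symm x) = e0 ((h : G) • e0.symm (e0 ((k : G) • e0.symm x)))
        rw [e0.symm_apply_apply, Subgroup.coe_mul, mul_smul]
      smul_zero := fun h => by
        show e0 ((h : G) • e0.symm 0) = 0
        rw [← hω0, e0.symm_apply_apply]
        exact congrArg e0 h.2
      smul_add := hlin }
  have hsmul : ∀ (h : H) (ω : Ω), e0 ((h : G) • ω) = h • e0 ω := fun h ω => by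
    show _ = e0 ((h : G) • e0.symm (e0 ω))
    rw [e0.symm_apply_apply]
  have hfaith : FaithfulSMul H V :=
    ⟨fun {a b} hab => Subtype.ext (eq_of_smul_eq_smul (α := Ω) fun ω =>
      e0.injective (by rw [hsmul, hsmul, hab]))⟩
  -- every element is a linear map followed by a translation
  have hdec : ∀ g : G, ∃ (h : H) (b : V), ∀ ω, e0 (g • ω) = h • e0 ω + b := by
    intro g
    obtain ⟨n, hn⟩ := MulAction.exists_smul_eq (↥N) ω0 (g • ω0)
    have hh : (n : G)⁻¹ * g ∈ MulAction.stabilizer G ω0 := by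
      rw [MulAction.mem_stabilizer_iff, mul_smul, ← hn]
      exact inv_smul_smul (n : G) ω0
    refine ⟨⟨_, hh⟩, eS (Additive.ofMul n), fun ω => ?_⟩
    rw [← hsmul, ← htrans]
    simp only [← mul_smul, mul_inv_cancel_left]
  have hcomp : ∀ (h : H) (b : V), ∃ g : G, ∀ ω, e0 (g • ω) = h • e0 ω + b := by
    intro h b
    refine ⟨(Additive.toMul (eS.symm b) : ↥N) * (h : G), fun ω => ?_⟩
    rw [mul_smul, htrans, hsmul, ofMul_toMul, eS.apply_symm_apply]
  have hne : Nontrivial V := by
    obtain ⟨x, hx, hx1⟩ := (Subgroup.bot_or_exists_ne_one N).resolve_left hN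
    exact ⟨eS (Additive.ofMul ⟨x, hx⟩), eS (Additive.ofMul 1), fun h =>
      hx1 (congrArg Subtype.val (Additive.ofMul.injective (eS.injective h)))⟩
  -- irreducibility
  have hirr : ∀ U : AddSubgroup V, (∀ g : H, ∀ v ∈ U, g • v ∈ U) → U = ⊥ ∨ U = ⊤ := by
    intro U hU
    let B : Set Ω := {ω | e0 ω ∈ U}
    have hB : MulAction.IsBlock G B := by
      rw [MulAction.isBlock_iff_smul_eq_of_nonempty]
      rintro g ⟨x, ⟨y, hy, rfl⟩, hx⟩
      obtain ⟨h, b, hg⟩ := hdec g
      have hb : b ∈ U := by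
        have h1 : h • e0 y + b ∈ U := hg y ▸ hx
        simpa using U.sub_mem h1 (hU h _ hy)
      refine Set.eq_of_subset_of_ncard_le ?_ ?_ (Set.toFinite _)
      · rintro _ ⟨z, hz, rfl⟩
        show e0 (g • z) ∈ U
        rw [hg]
        exact U.add_mem (hU h _ hz) hb
      · rw [Set.ncard_smul_set]
    rcases hprim.isTrivialBlock_of_isBlock hB with h | h
    · left
      refine (AddSubgroup.eq_bot_iff_forall U).2 fun x hx => ?_
      have h1 : e0.symm x ∈ B := by show e0 (e0.symm x) ∈ U; rwa [e0.apply_symm_apply]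
      have h2 : ω0 ∈ B := by show e0 ω0 ∈ U; rw [hω0]; exact U.zero_mem
      rw [← e0.apply_symm_apply x, h h1 h2, hω0]
    · right
      refine (AddSubgroup.eq_top_iff' U).2 fun x => ?_
      have h1 : e0.symm x ∈ B := h ▸ Set.mem_univ _
      simpa [B] using h1
  -- the exponent
  have hfinV : Finite V := Finite.of_equiv Ω e0
  obtain ⟨p, hp, hpd⟩ := Nat.exists_prime_and_dvd
    (Finite.one_lt_card_iff_nontrivial.2 hne).ne'
  have hpV : ∀ v : V, p • v = 0 := by
    have : Fact p.Prime := ⟨hp⟩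
    obtain ⟨x, hx⟩ := exists_prime_addOrderOf_dvd_card' (G := V) p hpd
    rcases hirr (DistribSMul.toAddMonoidHom V p).ker (fun g v hv => by
        simp only [AddMonoidHom.mem_ker, DistribSMul.toAddMonoidHom_apply] at hv ⊢
        rw [smul_comm, hv, smul_zero]) with h | h
    · exfalso
      have hx' : x ∈ (DistribSMul.toAddMonoidHom V p).ker := by
        simp only [AddMonoidHom.mem_ker, DistribSMul.toAddMonoidHom_apply]
        rw [← hx]; exact addOrderOf_nsmul_eq_zero x
      rw [h, AddSubgroup.mem_bot] at hx'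
      rw [hx', addOrderOf_zero] at hx
      exact hp.one_lt.ne hx
    · intro v
      have : v ∈ (DistribSMul.toAddMonoidHom V p).ker := h ▸ AddSubgroup.mem_top v
      simpa using this
  -- the binary property
  have hbinV : IsBinary H V := by
    intro ι _ I J hIJ
    rcases isEmpty_or_nonempty ι with hι | ⟨⟨i0⟩⟩
    · exact ⟨1, 0, fun i => isEmptyElim i⟩
    obtain ⟨n, ⟨ε⟩⟩ := Finite.exists_equiv_fin ι
    let f : Fin (n + 2) → ι := fun k => if hk : (k : ℕ) < n then ε.symm ⟨k, hk⟩ else i0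
    have hf : ∀ i, ∃ k, f k = i := fun i =>
      ⟨⟨ε i, by omega⟩, by simp [f, (ε i).2]⟩
    obtain ⟨g, hg⟩ := hbin (n + 2) (fun k => e0.symm (I (f k))) (fun k => e0.symm (J (f k)))
      (by omega) (fun a c _ => by
        obtain ⟨h, hh⟩ := hIJ (f a) (f c)
        obtain ⟨g, hg⟩ := hcomp h (J (f a) - h • I (f a))
        refine ⟨g, ?_, ?_⟩
        · rw [Equiv.eq_symm_apply, hg, e0.apply_symm_apply, add_sub_cancel]
        · rw [Equiv.eq_symm_apply, hg, e0.apply_symm_apply]
          rw [smul_sub] at hh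
          linear_combination (norm := abel) hh)
    obtain ⟨h, b, hgb⟩ := hdec g
    refine ⟨h, b, fun i => ?_⟩
    obtain ⟨k, rfl⟩ := hf i
    rw [← e0.apply_symm_apply (J (f k)), ← hg k, hgb, e0.apply_symm_apply]
  refine ⟨V, inferInstance, hfinV, H, inferInstance, inferInstance, act, hfaith, p, e0, hp, hpV,
    hbinV, hirr, hne, fun ω => ?_, fun σ => ?_⟩
  · obtain ⟨n, rfl⟩ := MulAction.exists_smul_eq (↥N) ω0 ω
    exact (Nat.card_congr
      (MulAction.stabilizerEquivStabilizer (g := (n : G)) (a := ω0) rfl).toEquiv).symm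
  · constructor
    · rintro ⟨g, rfl⟩
      obtain ⟨h, b, hg⟩ := hdec g
      exact ⟨h, b, hg⟩
    · rintro ⟨h, b, hσ⟩
      obtain ⟨g, hg⟩ := hcomp h b
      exact ⟨g, Equiv.ext fun ω => e0.injective ((hg ω).trans (hσ ω).symm)⟩

/-- An irreducible group of order at most `2` acts on a group of prime order. -/
theorem prime_of_card_le_two {V : Type} [AddCommGroup V] [Finite V] [Nontrivial V] {H : Type*}
    [Group H] [Finite H] [DistribMulAction H V] {p : ℕ} (hp : p.Prime) (hpV : ∀ v : V, p • v = 0)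
    (hirr : ∀ U : AddSubgroup V, (∀ g : H, ∀ v ∈ U, g • v ∈ U) → U = ⊥ ∨ U = ⊤)
    (hH : Nat.card H ≤ 2) : (Nat.card V).Prime := by
  classical
  obtain ⟨w, hw0, hw⟩ : ∃ w : V, w ≠ 0 ∧ ∀ g : H, g • w ∈ AddSubgroup.zmultiples w := by
    obtain ⟨v, hv⟩ := exists_ne (0 : V)
    by_cases h1 : ∀ g : H, g = 1
    · exact ⟨v, hv, fun g => by rw [h1 g, one_smul]; exact AddSubgroup.mem_zmultiples v⟩
    obtain ⟨h, hh⟩ := not_forall.1 h1
    have hc : Nat.card H = 2 := by
      have : Nontrivial H := ⟨⟨h, 1, hh⟩⟩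
      have := Finite.one_lt_card (α := H)
      omega
    have huniq : ∀ g : H, g = 1 ∨ g = h := by
      intro g
      obtain ⟨x, y, -, hxy⟩ := Nat.card_eq_two_iff.1 hc
      have hm : ∀ z : H, z = x ∨ z = y := fun z => by
        have : z ∈ ({x, y} : Set H) := hxy ▸ Set.mem_univ z
        simpa using this
      rcases hm 1 with e1 | e1 <;> rcases hm h with e2 | e2 <;> rcases hm g with e3 | e3 <;>
        simp_all
    have hh2 : h * h = 1 := by rw [← pow_two, ← hc]; exact pow_card_eq_one'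
    by_cases h0 : v + h • v = 0
    · refine ⟨v, hv, fun g => ?_⟩
      rcases huniq g with rfl | rfl
      · rw [one_smul]; exact AddSubgroup.mem_zmultiples v
      · rw [eq_neg_of_add_eq_zero_right h0]
        exact (AddSubgroup.zmultiples v).neg_mem (AddSubgroup.mem_zmultiples v)
    · refine ⟨v + h • v, h0, fun g => ?_⟩
      rcases huniq g with rfl | rfl
      · rw [one_smul]; exact AddSubgroup.mem_zmultiples _
      · rw [smul_add, ← mul_smul, hh2, one_smul, add_comm]
        exact AddSubgroup.mem_zmultiples _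
  rcases hirr (AddSubgroup.zmultiples w) (fun g x hx => by
      obtain ⟨k, rfl⟩ := hx
      show g • (k • w) ∈ _
      rw [show g • (k • w) = k • (g • w) from map_zsmul (DistribSMul.toAddMonoidHom V g) k w]
      exact AddSubgroup.zsmul_mem _ (hw g) k) with h | h
  · exact absurd (AddSubgroup.zmultiples_eq_bot.1 h) hw0
  · have hcard : Nat.card V = addOrderOf w := by
      rw [← Nat.card_zmultiples, h, AddSubgroup.card_top]
    have : Fact p.Prime := ⟨hp⟩
    rw [hcard, addOrderOf_eq_prime (hpV w) hw0]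
    exact hp

/-- The classification from the classification of the irreducible binary linear groups. -/
theorem result_of_model {G : Type u} {Ω : Type v} [Group G] [Finite G] [MulAction G Ω]
    [FaithfulSMul G Ω] [Fintype Ω] (hprim : MulAction.IsPreprimitive G Ω)
    (haff : ∃ N : Subgroup G, N.Normal ∧ N ≠ ⊥ ∧ IsMulCommutative ↥N)
    (hbin : ∀ (n : ℕ) (I J : Fin n → Ω), 2 ≤ n →
      (∀ i j : Fin n, i ≠ j → ∃ g : G, g • I i = J i ∧ g • I j = J j) → ∃ g : G, ∀ i, g • I i = J i)
    (hplane : ∀ (V : Type) [AddCommGroup V] [Finite V] (H : Type u) [Group H] [Finite H]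
      [DistribMulAction H V] [FaithfulSMul H V] (p : ℕ), p.Prime → (∀ v : V, p • v = 0) →
      IsBinary H V → (∀ U : AddSubgroup V, (∀ g : H, ∀ v ∈ U, g • v ∈ U) → U = ⊥ ∨ U = ⊤) →
      Nontrivial V → Nat.card H ≤ 2 ∨ IsPlane H V p) :
    ((Fintype.card Ω).Prime ∧ ∀ ω : Ω, Nat.card ↥(MulAction.stabilizer G ω) ≤ 2) ∨
    (∃ (F E : Type) (_ : Field F) (_ : Fintype F) (_ : Field E) (_ : Fintype E) (_ : Algebra F E)
        (e : Ω ≃ E), Module.finrank F E = 2 ∧
        ∀ σ : Equiv.Perm Ω, σ ∈ (MulAction.toPermHom G Ω).range ↔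
          ∃ (a b : E) (φ : E ≃ₐ[F] E), Algebra.norm F a = 1 ∧ ∀ ω : Ω, e (σ ω) = a * φ (e ω) + b) := by
  obtain ⟨V, iV, iVf, H, iH, iHf, iA, iF, p, e0, hp, hpV, hB, hirr, hne, hst, hrange⟩ :=
    exists_model hprim haff hbin
  rcases hplane V H p hp hpV hB hirr hne with h2 | hP
  · left
    refine ⟨?_, fun ω => (hst ω).le.trans h2⟩
    rw [← Nat.card_eq_fintype_card, Nat.card_congr e0]
    exact prime_of_card_le_two hp hpV hirr h2
  right
  obtain ⟨m, R, hm, hV, hR2, hR1, hRc, hfix, hfix', hprod, hRR⟩ := hP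
  obtain ⟨F, E, iF', iFf, iE, iEf, iAl, e, hdim, hiff⟩ :=
    exists_fieldModel p m hp hm hV hpV R hR2 hR1 hRc hfix hfix' hprod hRR
  refine ⟨F, E, iF', iFf, iE, iEf, iAl, e0.trans e.toEquiv, hdim, fun σ => ?_⟩
  rw [hrange σ]
  constructor
  · rintro ⟨h, b, hσ⟩
    obtain ⟨a, φ, ha, hφ⟩ := (hiff fun x => h • x).1 ⟨h, fun x => rfl⟩
    refine ⟨a, e b, φ, ha, fun ω => ?_⟩
    show e (e0 (σ ω)) = a * φ (e (e0 ω)) + e b
    rw [hσ, map_add, hφ]
  · rintro ⟨a, b, φ, ha, hσ⟩
    obtain ⟨g, hg⟩ := (hiff fun x => e.symm (a * φ (e x))).2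
      ⟨a, φ, ha, fun x => e.apply_symm_apply _⟩
    refine ⟨g, e.symm b, fun ω => ?_⟩
    rw [← hg, ← map_add, AddEquiv.eq_symm_apply]
    exact hσ ω

end CfsgLib.BinaryAffine
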