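import Mathlib

/-!
# Binary affine groups: basic lemmas

`H` acts linearly on the finite abelian group `V`; `IsBinary` says that the affine group `V ⋊ H`
has the pairwise-extension property on tuples of points.
-/

set_option linter.unusedSectionVars false

namespace CfsgLib.BinaryAffine

/-- The pairwise extension property of `V ⋊ H` acting on `V`. -/
def IsBinary (H : Type*) (V : Type) [Group H] [AddCommGroup V] [DistribMulAction H V] : Prop :=
  ∀ (ι : Type) [Finite ι] (I J : ι → V),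
    (∀ i j, ∃ h : H, h • (I j - I i) = J j - J i) → ∃ (h : H) (b : V), ∀ i, J i = h • I i + b

variable {V : Type} [AddCommGroup V] {H : Type*} [Group H] [DistribMulAction H V]

/-- The fixed points of `g`. -/
def fx (g : H) : AddSubgroup V where
  carrier := {v | g • v = v}
  add_mem' {a b} ha hb := by
    change g • (a + b) = a + b
    rw [smul_add, ha, hb]
  zero_mem' := smul_zero g
  neg_mem' {a} ha := by
    change g • (-a) = -a
    rw [smul_neg, ha]

theorem mem_fx {g : H} {v : V} : v ∈ fx g ↔ g • v = v := Iff.rfl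

/-- `v ↦ g v - v`. -/
def del (g : H) : V →+ V := DistribSMul.toAddMonoidHom V g - AddMonoidHom.id V

theorem del_apply (g : H) (v : V) : del g v = g • v - v := rfl

/-- The image of `g - 1`. -/
def rg (g : H) : AddSubgroup V := (del g).range

theorem mem_rg {g : H} {e : V} : e ∈ rg g ↔ ∃ v : V, g • v - v = e := Iff.rfl

theorem ker_del (g : H) : (del g : V →+ V).ker = fx g := by
  ext v
  rw [AddMonoidHom.mem_ker, del_apply, sub_eq_zero, mem_fx]

/-- A reflection: a nontrivial element with fixed space of largest order. -/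
def IsRefl (V : Type) [AddCommGroup V] [DistribMulAction H V] (h : H) : Prop :=
  h ≠ 1 ∧ ∀ k : H, k ≠ 1 → Nat.card (fx k : AddSubgroup V) ≤ Nat.card (fx h : AddSubgroup V)

/-- The number `[V : fix h]`. -/
theorem card_rg_eq_index (g : H) :
    Nat.card (rg g : AddSubgroup V) = (fx g : AddSubgroup V).index := by
  rw [← ker_del, AddSubgroup.index_eq_card]
  exact (Nat.card_congr (QuotientAddGroup.quotientKerEquivRange (del g)).toEquiv).symm

theorem fx_inv (g : H) : fx g⁻¹ = (fx g : AddSubgroup V) := by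
  ext v
  rw [mem_fx, mem_fx, inv_smul_eq_iff]
  exact eq_comm

theorem smul_mem_fx_conj {g h : H} {v : V} : g • v ∈ fx (g * h * g⁻¹) ↔ v ∈ fx h := by
  simp only [mem_fx, mul_smul, inv_smul_smul]
  exact smul_left_cancel_iff g

theorem card_fx_conj (g h : H) :
    Nat.card (fx (g * h * g⁻¹) : AddSubgroup V) = Nat.card (fx h : AddSubgroup V) :=
  (Nat.card_congr ((MulAction.toPerm g : Equiv.Perm V).subtypeEquiv
    fun _ => (smul_mem_fx_conj (g := g) (h := h)).symm)).symm

theorem smul_mem_rg_conj {g h : H} {e : V} (he : e ∈ rg h) : g • e ∈ rg (g * h * g⁻¹) := by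
  obtain ⟨v, rfl⟩ := mem_rg.1 he
  exact mem_rg.2 ⟨g • v, by rw [mul_smul, mul_smul, inv_smul_smul, smul_sub]⟩

theorem IsRefl.conj {h : H} (hh : IsRefl V h) (g : H) : IsRefl V (g * h * g⁻¹) := by
  refine ⟨fun e => hh.1 ?_, fun k hk => ?_⟩
  · exact conj_eq_one_iff.1 e
  · rw [card_fx_conj]
    exact hh.2 k hk

theorem fx_le_fx_mul_inter {g k : H} {v : V} (hg : v ∈ fx g) (hk : v ∈ fx k) : v ∈ fx (g * k) := by
  rw [mem_fx, mul_smul, hk, hg]

theorem smul_mem_rg_of_commute {g h : H} (hc : Commute g h) {e : V} (he : e ∈ rg h) :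
    g • e ∈ rg h := by
  have := smul_mem_rg_conj (g := g) he
  rwa [hc.eq, mul_inv_cancel_right] at this

theorem smul_mem_fx_of_commute {g h : H} (hc : Commute g h) {e : V} (he : e ∈ fx h) :
    g • e ∈ fx h := by
  rw [mem_fx, ← mul_smul, ← hc.eq, mul_smul, he]

theorem eq_of_le_of_card_le [Finite V] {A B : AddSubgroup V} (h : A ≤ B)
    (hc : Nat.card B ≤ Nat.card A) : A = B :=
  AddSubgroup.eq_of_le_of_card_ge h hc

theorem card_mul_le_of_inf_eq_bot [Finite V] {A B C : AddSubgroup V} (hA : A ≤ C) (hB : B ≤ C)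
    (hd : ∀ x ∈ A, x ∈ B → x = 0) : Nat.card A * Nat.card B ≤ Nat.card C := by
  rw [← Nat.card_prod]
  refine Nat.card_le_card_of_injective
    (fun x : A × B => (⟨x.1 + x.2, C.add_mem (hA x.1.2) (hB x.2.2)⟩ : C)) ?_
  rintro ⟨⟨a, ha⟩, ⟨b, hb⟩⟩ ⟨⟨a', ha'⟩, ⟨b', hb'⟩⟩ heq
  have h1 : a + b = a' + b' := congrArg Subtype.val heq
  have h2 : a - a' = b' - b := by linear_combination (norm := abel) h1
  have h3 : a - a' = 0 := hd _ (A.sub_mem ha ha') (h2 ▸ B.sub_mem hb' hb)
  obtain rfl := sub_eq_zero.1 h3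
  obtain rfl := add_left_cancel h1
  rfl

/-- The conclusion for non-trivial point stabilisers: `H` acts on `V` as the orthogonal group of an
anisotropic plane, described by its set of reflections. -/
def IsPlane (H : Type*) (V : Type) [Group H] [AddCommGroup V] [DistribMulAction H V] (p : ℕ) : Prop :=
  ∃ (m : ℕ) (R : Set H), 1 ≤ m ∧ Nat.card V = (p ^ m) ^ 2 ∧ (∀ r ∈ R, r * r = 1) ∧ (1 : H) ∉ R ∧
    Nat.card R = p ^ m + 1 ∧ (∀ g : H, g ≠ 1 → ∀ v : V, v ≠ 0 → g • v = v → g ∈ R) ∧
    (∀ r ∈ R, ∃ v : V, v ≠ 0 ∧ r • v = v) ∧ (∀ g : H, g ∉ R → ∀ a ∈ R, g * a ∈ R) ∧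
    ∀ a ∈ R, ∀ b ∈ R, a * b ∉ R

section Binary

variable (hB : IsBinary H V)
include hB

/-- A set of points, each of which some element moves by `-d`, is moved by `-d` simultaneously. -/
theorem IsBinary.exists_shift [Finite V] (d : V) (X : Set V)
    (hX : ∀ x ∈ X, ∃ h : H, h • x = x - d) : ∃ h : H, ∀ x ∈ X, h • x = x - d := by
  let I : Option X → V := fun o => o.elim 0 (fun x => (x : V))
  let J : Option X → V := fun o => o.elim d (fun x => (x : V))
  obtain ⟨h, b, hb⟩ := hB (Option X) I J (by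
    rintro (_ | ⟨x, hx⟩) (_ | ⟨y, hy⟩)
    · exact ⟨1, by simp [I, J]⟩
    · obtain ⟨k, hk⟩ := hX y hy
      exact ⟨k, by simpa [I, J] using hk⟩
    · obtain ⟨k, hk⟩ := hX x hx
      exact ⟨k, by simp [I, J, hk]⟩
    · exact ⟨1, by simp [I, J]⟩)
  have h0 : d = b := by simpa [I, J] using hb none
  refine ⟨h, fun x hx => ?_⟩
  have h1 : x = h • x + b := by simpa [I, J] using hb (some ⟨x, hx⟩)
  exact eq_sub_iff_add_eq.2 (h0 ▸ h1.symm)

/-- The same, with the extra requirement of negating `d`. -/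
theorem IsBinary.exists_shift_neg [Finite V] (d : V) (X : Set V) (hd : ∃ h : H, h • d = -d)
    (hX : ∀ x ∈ X, ∃ h : H, h • x = x - d) :
    ∃ h : H, h • d = -d ∧ ∀ x ∈ X, h • x = x - d := by
  -- `(0, d, X) ↦ (d, 0, X)`
  let I : Option (Option X) → V := fun o => o.elim 0 (fun o' => o'.elim d (fun x => (x : V)))
  let J : Option (Option X) → V := fun o => o.elim d (fun o' => o'.elim 0 (fun x => (x : V)))
  obtain ⟨g, hg⟩ := hd
  have hg' : g • (-d) = d := by rw [smul_neg, hg, neg_neg]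
  obtain ⟨h, b, hb⟩ := hB _ I J (by
    rintro (_ | _ | ⟨x, hx⟩) (_ | _ | ⟨y, hy⟩)
    · exact ⟨1, by simp [I, J]⟩
    · exact ⟨g, by simpa [I, J] using hg⟩
    · obtain ⟨k, hk⟩ := hX y hy
      exact ⟨k, by simpa [I, J] using hk⟩
    · exact ⟨g, by simpa [I, J] using hg'⟩
    · exact ⟨1, by simp [I, J]⟩
    · obtain ⟨k, hk⟩ := hX y hy
      refine ⟨k⁻¹, ?_⟩
      simp only [I, J, Option.elim_some, Option.elim_none, sub_zero]
      rw [inv_smul_eq_iff, hk]
    · obtain ⟨k, hk⟩ := hX x hx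
      exact ⟨k, by simp [I, J, hk]⟩
    · obtain ⟨k, hk⟩ := hX x hx
      refine ⟨k⁻¹, ?_⟩
      simp only [I, J, Option.elim_some, Option.elim_none, zero_sub]
      rw [inv_smul_eq_iff, smul_neg, hk, neg_sub]
    · exact ⟨1, by simp [I, J]⟩)
  have h0 : d = b := by simpa [I, J] using hb none
  have h1 : h • d + b = 0 := by simpa [I, J] using (hb (some none)).symm
  refine ⟨h, ?_, fun x hx => ?_⟩
  · rw [← h0] at h1
    exact eq_neg_of_add_eq_zero_left h1
  · have h2 : x = h • x + b := by simpa [I, J] using hb (some (some ⟨x, hx⟩))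
    exact eq_sub_iff_add_eq.2 (h0 ▸ h2.symm)

/-- Points equidistant from `v` and `w` can be fixed while moving `v` to `w`. -/
theorem IsBinary.exists_move [Finite V] {v w : V} (X : Set V) (hvw : ∃ g : H, g • v = w)
    (hX : ∀ x ∈ X, ∃ g : H, g • (x - v) = x - w) :
    ∃ s : H, s • v = w ∧ ∀ x ∈ X, s • x = x := by
  obtain ⟨h, hh⟩ := hB.exists_shift (w - v) (insert (-v) ((fun x => x - v) '' X)) (by
    rintro x (rfl | ⟨y, hy, rfl⟩)
    · obtain ⟨g, hg⟩ := hvw
      exact ⟨g, by rw [smul_neg, hg]; abel⟩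
    · obtain ⟨g, hg⟩ := hX y hy
      exact ⟨g, by beta_reduce; rw [hg]; abel⟩)
  have h1 : h • v = w := by
    have := hh _ (Or.inl rfl)
    rw [smul_neg] at this
    linear_combination (norm := abel) -this
  refine ⟨h, h1, fun x hx => ?_⟩
  have := hh _ (Or.inr ⟨x, hx, rfl⟩)
  beta_reduce at this
  rw [smul_sub, h1] at this
  linear_combination (norm := abel) this

/-- Two points in one orbit are swapped. -/
theorem IsBinary.exists_swap [Finite V] {v w : V} (hvw : ∃ g : H, g • v = w) :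
    ∃ s : H, s • v = w ∧ s • w = v := by
  obtain ⟨g, hg⟩ := hvw
  obtain ⟨s, h1, h2⟩ := hB.exists_move {v + w} ⟨g, hg⟩ (by
    rintro x rfl
    exact ⟨g⁻¹, by rw [inv_smul_eq_iff, add_sub_cancel_right, hg, add_sub_cancel_left]⟩)
  have h3 := h2 _ rfl
  rw [smul_add, h1] at h3
  exact ⟨s, h1, by linear_combination (norm := abel) h3⟩

variable [Finite V]

/-- Basic fact: `v + h v` is fixed by a reflection `h`. -/
theorem IsRefl.add_smul_mem {h : H} (hh : IsRefl V h) (v : V) : v + h • v ∈ fx h := by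
  by_cases hv : h • v = v
  · rw [hv]; exact (fx h).add_mem hv hv
  have hsw := hB.exists_swap (v := v) (w := h • v) ⟨h, rfl⟩
  obtain ⟨s0, hs0, hs0'⟩ := hsw
  obtain ⟨s, h1, h2⟩ := hB.exists_move (v := v) (w := h • v)
    (insert (v + h • v) ((fx h : AddSubgroup V) : Set V)) ⟨h, rfl⟩ (by
    rintro x (rfl | hx)
    · exact ⟨s0, by rw [add_sub_cancel_left, add_sub_cancel_right, hs0']⟩
    · exact ⟨h, by rw [smul_sub, mem_fx.1 hx]⟩)
  have hs1 : s ≠ 1 := fun e => hv (by rw [← h1, e, one_smul])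
  have hle : fx h ≤ fx s := fun x hx => h2 x (Or.inr hx)
  rw [eq_of_le_of_card_le hle (hh.2 s hs1)]
  exact h2 _ (Or.inl rfl)

variable [FaithfulSMul H V]

theorem IsRefl.mul_self {h : H} (hh : IsRefl V h) : h * h = 1 := by
  refine eq_of_smul_eq_smul (α := V) fun v => ?_
  have h1 := mem_fx.1 (hh.add_smul_mem hB v)
  rw [smul_add] at h1
  rw [one_smul, mul_smul]
  linear_combination (norm := abel) h1

theorem IsRefl.inv_eq {h : H} (hh : IsRefl V h) : h⁻¹ = h :=
  inv_eq_of_mul_eq_one_right (hh.mul_self hB)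

theorem IsRefl.smul_smul_self {h : H} (hh : IsRefl V h) (v : V) : h • h • v = v := by
  rw [← mul_smul, hh.mul_self hB, one_smul]

omit [FaithfulSMul H V] in
theorem IsRefl.smul_rg {h : H} (hh : IsRefl V h) {e : V} (he : e ∈ rg h) : h • e = -e := by
  obtain ⟨v, rfl⟩ := mem_rg.1 he
  have h1 := mem_fx.1 (hh.add_smul_mem hB v)
  rw [smul_add] at h1
  rw [smul_sub]
  linear_combination (norm := abel) h1

omit [FaithfulSMul H V] in
/-- A translation by a vector of `rg h` inside an orbit is induced by `h`. -/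
theorem IsRefl.smul_eq_add {h : H} (hh : IsRefl V h) {e y : V} (he : e ∈ rg h) (he0 : e ≠ 0)
    {g : H} (hg : g • y = y + e) : h • y = y + e := by
  obtain ⟨v, hv⟩ := mem_rg.1 he
  obtain ⟨s, h1, h2⟩ := hB.exists_move (v := v) (w := h • v)
    (insert (v + y + e) ((fx h : AddSubgroup V) : Set V)) ⟨h, rfl⟩ (by
    rintro x (rfl | hx)
    · refine ⟨g⁻¹, ?_⟩
      rw [inv_smul_eq_iff]
      have e1 : v + y + e - v = y + e := by abel
      have e2 : v + y + e - h • v = y := by rw [← hv]; abel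
      rw [e1, e2, hg]
    · exact ⟨h, by rw [smul_sub, mem_fx.1 hx]⟩)
  have hne : h • v ≠ v := fun c => he0 (by rw [← hv, c, sub_self])
  have hs1 : s ≠ 1 := fun c => hne (by rw [← h1, c, one_smul])
  have hle : fx h ≤ fx s := fun x hx => h2 x (Or.inr hx)
  have hx : v + y + e ∈ fx h := by
    rw [eq_of_le_of_card_le hle (hh.2 s hs1)]
    exact h2 _ (Or.inl rfl)
  rw [mem_fx, smul_add, smul_add, hh.smul_rg hB he] at hx
  linear_combination (norm := abel) hx - hv

omit [FaithfulSMul H V] in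
/-- An element agreeing with the reflection `h` at a moved point fixes only fixed points of `h`. -/
theorem IsRefl.fx_le {h : H} (hh : IsRefl V h) {g : H} {v : V} (hv : h • v ≠ v)
    (hg : g • v = h • v) : fx g ≤ (fx h : AddSubgroup V) := by
  obtain ⟨s, h1, h2⟩ := hB.exists_move (v := v) (w := h • v)
    (((fx g : AddSubgroup V) : Set V) ∪ ((fx h : AddSubgroup V) : Set V)) ⟨h, rfl⟩ (by
    rintro x (hx | hx)
    · exact ⟨g, by rw [smul_sub, mem_fx.1 hx, hg]⟩
    · exact ⟨h, by rw [smul_sub, mem_fx.1 hx]⟩)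
  have hs1 : s ≠ 1 := fun c => hv (by rw [← h1, c, one_smul])
  rw [eq_of_le_of_card_le (fun x hx => h2 x (Or.inr hx)) (hh.2 s hs1)]
  exact fun x hx => h2 x (Or.inl hx)

omit hB [Finite V] [FaithfulSMul H V] in
theorem IsRefl.card_fx_eq {h h' : H} (hh : IsRefl V h) (hh' : IsRefl V h') :
    Nat.card (fx h : AddSubgroup V) = Nat.card (fx h' : AddSubgroup V) :=
  le_antisymm (hh'.2 h hh.1) (hh.2 h' hh'.1)

omit hB in
theorem eq_one_of_fx_top {g : H} (h : ∀ v : V, g • v = v) : g = 1 :=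
  eq_of_smul_eq_smul (α := V) fun v => by rw [h, one_smul]

omit hB in
/-- Nontrivial elements fixing the fixed space of a reflection have the same fixed space. -/
theorem IsRefl.fx_eq_of_le {h : H} (hh : IsRefl V h) {s : H} (hs : s ≠ 1)
    (hle : fx h ≤ (fx s : AddSubgroup V)) : fx h = (fx s : AddSubgroup V) :=
  eq_of_le_of_card_le hle (hh.2 s hs)

/-- Reflections sharing a nonzero vector of the moved space are equal. -/
theorem IsRefl.eq_of_mem_rg {h h' : H} (hh : IsRefl V h) (hh' : IsRefl V h') {e : V} (he0 : e ≠ 0)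
    (he : e ∈ rg h) (he' : e ∈ rg h') : h = h' := by
  obtain ⟨v, hv⟩ := mem_rg.1 he'
  have hv' : h' • v = v + e := by rw [← hv]; abel
  have h1 : h • v = v + e := hh.smul_eq_add hB he he0 hv'
  have hne : h • v ≠ v := by rw [h1]; simpa using he0
  have hWle : fx h' ≤ (fx h : AddSubgroup V) := hh.fx_le hB hne (by rw [h1, hv'])
  have hW : fx h' = (fx h : AddSubgroup V) :=
    eq_of_le_of_card_le hWle (hh.card_fx_eq hh').le
  by_contra hne'
  have hs1 : h⁻¹ * h' ≠ 1 := fun c => hne' (inv_mul_eq_one.1 c)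
  have hle : fx h ≤ (fx (h⁻¹ * h') : AddSubgroup V) := fun x hx => by
    refine fx_le_fx_mul_inter ?_ (hW.symm ▸ hx)
    rwa [fx_inv]
  have hmem : v ∈ fx (h⁻¹ * h') := by
    rw [mem_fx, mul_smul, hv', ← h1, inv_smul_smul]
  rw [← hh.fx_eq_of_le hs1 hle] at hmem
  exact hne hmem

/-- An element fixing a nonzero vector of `rg h` commutes with `h`. -/
theorem IsRefl.commute_of_smul_eq {h : H} (hh : IsRefl V h) {g : H} {e : V} (he : e ∈ rg h)
    (he0 : e ≠ 0) (hg : g • e = e) : Commute g h := by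
  have h1 : e ∈ rg (g * h * g⁻¹) := by
    have := smul_mem_rg_conj (g := g) he
    rwa [hg] at this
  have h2 := hh.eq_of_mem_rg hB (hh.conj g) he0 he h1
  calc g * h = g * h * g⁻¹ * g := by group
    _ = h * g := by rw [← h2]

/-- An element commuting with a reflection fixes or negates each vector of its moved space. -/
theorem IsRefl.smul_rg_commute {h : H} (hh : IsRefl V h) {g : H} (hc : Commute g h) {e : V}
    (he : e ∈ rg h) : g • e = e ∨ g • e = -e := by
  by_cases h0 : g • e = e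
  · exact Or.inl h0
  right
  have h1 : g • e - e ∈ rg h := (rg h).sub_mem (smul_mem_rg_of_commute hc he) he
  have h2 := hh.smul_eq_add hB h1 (sub_ne_zero.2 h0) (y := e) (g := g) (by abel)
  rw [hh.smul_rg hB he] at h2
  linear_combination (norm := abel) -h2

/-- If one reflection moves space into the fixed space of another, they commute. -/
theorem IsRefl.commute_of_mem_fx {h k : H} (hk : IsRefl V k) {x : V} (hx0 : x ≠ 0)
    (hx : x ∈ rg k) (hx' : x ∈ fx h) : Commute h k :=
  hk.commute_of_smul_eq hB hx hx0 hx'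

end Binary

end CfsgLib.BinaryAffine
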