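import Mathlib
import Cfsg.Agent.S0200
import Cfsg.Agent.Lib.BinaryAffine.Basic

/-!
# Binary affine groups in characteristic two

An irreducible binary point stabiliser `H` on a finite elementary abelian 2-group `V` has order at
most two or acts as the orthogonal group of an anisotropic plane.
-/

set_option linter.unusedSectionVars false
set_option linter.style.haveILetI false

namespace CfsgLib.BinaryAffine

section Group

variable {H : Type*} [Group H]

theorem two_power_or_odd_part [Finite H] (x : H) :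
    (∃ k, x ^ 2 ^ k = 1) ∨ ∃ n, x ^ n ≠ 1 ∧ Odd (orderOf (x ^ n)) := by
  obtain ⟨k, m, hm, hn⟩ := Nat.exists_eq_two_pow_mul_odd (orderOf_pos x).ne'
  rcases eq_or_ne m 1 with rfl | hm1
  · exact Or.inl ⟨k, by rw [← mul_one (2 ^ k), ← hn, pow_orderOf_eq_one]⟩
  · have ho : orderOf (x ^ 2 ^ k) = m := by
      rw [orderOf_pow' _ (Nat.two_pow_pos k).ne', hn, Nat.gcd_eq_right (dvd_mul_right _ _),
        Nat.mul_div_cancel_left _ (Nat.two_pow_pos k)]
    exact Or.inr ⟨2 ^ k, fun e => hm1 (by rw [← ho, e, orderOf_one]), ho.symm ▸ hm⟩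

theorem exists_pow_involution {x : H} (hx : x ≠ 1) : ∀ k, x ^ 2 ^ k = 1 →
    ∃ n, x ^ n ≠ 1 ∧ x ^ n * x ^ n = 1
  | 0, h => absurd (by simpa using h) hx
  | k + 1, h => by
    by_cases h' : x ^ 2 ^ k = 1
    · exact exists_pow_involution hx k h'
    · exact ⟨2 ^ k, h', by rwa [← pow_add, ← two_mul, ← pow_succ']⟩

theorem conj_pow_inverts {h x : H} (hi : h * x * h⁻¹ = x⁻¹) (n : ℕ) :
    h * x ^ n * h⁻¹ = (x ^ n)⁻¹ := by
  rw [← conj_pow, hi, inv_pow]

theorem commute_of_inverts {h z : H} (hi : h * z * h⁻¹ = z⁻¹) (hz : z * z = 1) : Commute z h := by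
  rw [inv_eq_of_mul_eq_one_right hz, mul_inv_eq_iff_eq_mul] at hi
  exact hi.symm

theorem inverts_mul_left {h k : H} (hh : h * h = 1) (hk : k * k = 1) :
    h * (h * k) * h⁻¹ = (h * k)⁻¹ := by
  rw [mul_inv_rev, inv_eq_of_mul_eq_one_right hh, inv_eq_of_mul_eq_one_right hk, ← mul_assoc h h,
    hh, one_mul]

theorem inverts_mul_right {h k : H} (hh : h * h = 1) (hk : k * k = 1) :
    k * (h * k) * k⁻¹ = (h * k)⁻¹ := by
  rw [mul_inv_rev, inv_eq_of_mul_eq_one_right hh, inv_eq_of_mul_eq_one_right hk, mul_assoc k,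
    mul_assoc h, hk, mul_one]

theorem conj_eq_pow_mul {h x : H} (hi : h * x * h⁻¹ = x⁻¹) (j : ℕ) :
    x ^ j * h * (x ^ j)⁻¹ = x ^ (2 * j) * h := by
  have e : h * (x ^ j)⁻¹ * h⁻¹ = x ^ j := by rw [← conj_inv, conj_pow_inverts hi j, inv_inv]
  calc x ^ j * h * (x ^ j)⁻¹ = x ^ j * (h * (x ^ j)⁻¹ * h⁻¹) * h := by group
    _ = x ^ (2 * j) * h := by rw [e, two_mul, pow_add]

theorem commute_of_mul_sq {r s : H} (hr : r * r = 1) (hs : s * s = 1)
    (h : r * s * (r * s) = 1) : Commute r s :=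
  calc r * s = (r * s)⁻¹ := (inv_eq_of_mul_eq_one_right h).symm
    _ = s * r := by
      rw [mul_inv_rev, inv_eq_of_mul_eq_one_right hr, inv_eq_of_mul_eq_one_right hs]

end Group

variable {V : Type} [AddCommGroup V] {H : Type*} [Group H] [DistribMulAction H V]

section TwoTorsion

variable (h2 : ∀ v : V, v + v = 0)
include h2

theorem neg_eq_self_of_two (v : V) : -v = v := neg_eq_of_add_eq_zero_right (h2 v)

theorem sub_eq_add_of_two (v w : V) : v - w = v + w := by
  rw [sub_eq_add_neg, neg_eq_self_of_two h2]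

theorem nsmul_two_mul (j : ℕ) (v : V) : (2 * j) • v = 0 := by
  rw [mul_nsmul, two_nsmul, h2, nsmul_zero]

theorem exists_card_eq_two_pow [Finite V] (A : AddSubgroup V) : ∃ m, Nat.card A = 2 ^ m := by
  refine ⟨_, Nat.eq_prime_pow_of_unique_prime_dvd Nat.card_pos.ne' fun {d} hd hdvd => ?_⟩
  haveI : Fact d.Prime := ⟨hd⟩
  obtain ⟨x, hx⟩ := exists_prime_addOrderOf_dvd_card' d hdvd
  have h : addOrderOf x ∣ 2 := addOrderOf_dvd_of_nsmul_eq_zero (Subtype.ext (by
    rw [AddSubgroup.coe_nsmul, two_nsmul, h2, AddSubgroup.coe_zero]))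
  rw [hx] at h
  exact (Nat.prime_dvd_prime_iff_eq hd Nat.prime_two).1 h

end TwoTorsion

theorem card_fx_mul_card_rg (g : H) :
    Nat.card (fx g : AddSubgroup V) * Nat.card (rg g : AddSubgroup V) = Nat.card V := by
  rw [card_rg_eq_index, AddSubgroup.card_mul_index]

theorem rg_inv (g : H) : rg g⁻¹ = (rg g : AddSubgroup V) := by
  ext e
  constructor <;> intro he <;> obtain ⟨v, rfl⟩ := mem_rg.1 he
  · refine mem_rg.2 ⟨-(g⁻¹ • v), ?_⟩
    rw [smul_neg, smul_inv_smul]
    abel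
  · refine mem_rg.2 ⟨-(g • v), ?_⟩
    rw [smul_neg, inv_smul_smul]
    abel

theorem fx_le_mul {g k : H} {D : AddSubgroup V} (hg : D ≤ fx g) (hk : D ≤ fx k) :
    D ≤ fx (g * k) := fun _ hv => fx_le_fx_mul_inter (hg hv) (hk hv)

theorem fx_le_pow {g : H} {D : AddSubgroup V} (hg : D ≤ fx g) : ∀ n : ℕ, D ≤ fx (g ^ n)
  | 0 => fun v _ => by simp [mem_fx]
  | n + 1 => by rw [pow_succ]; exact fx_le_mul (fx_le_pow hg n) hg

theorem fx_le_inv {g : H} {D : AddSubgroup V} (hg : D ≤ fx g) : D ≤ fx g⁻¹ := by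
  rwa [fx_inv]

theorem smul_mem_fx_of_inverts {g u : H} (hi : g * u * g⁻¹ = u⁻¹) {d : V} (hd : d ∈ fx u) :
    g • d ∈ fx u := by
  rw [← fx_inv u, ← hi]
  exact smul_mem_fx_conj.2 hd

theorem smul_mem_rg_of_inverts {g u : H} (hi : g * u * g⁻¹ = u⁻¹) {e : V} (he : e ∈ rg u) :
    g • e ∈ rg u := by
  rw [← rg_inv u, ← hi]
  exact smul_mem_rg_conj he

theorem pow_smul_of_sub_mem_fx {u : H} {v d : V} (hv : u • v = v + d) (hd : u • d = d) :
    ∀ k : ℕ, (u ^ k) • v = v + k • d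
  | 0 => by simp
  | k + 1 => by
    rw [pow_succ', mul_smul, pow_smul_of_sub_mem_fx hv hd k, smul_add, smul_comm u k d, hd, hv,
      succ_nsmul]
    abel

section Split

variable [Finite V] (h2 : ∀ v : V, v + v = 0) {u : H} (hu : Odd (orderOf u))
include h2 hu

theorem eq_zero_of_mem_fx_rg {d : V} (hd : d ∈ fx u) (hd' : d ∈ rg u) : d = 0 := by
  obtain ⟨v, hv⟩ := mem_rg.1 hd'
  obtain ⟨j, hj⟩ := hu
  have h := pow_smul_of_sub_mem_fx (u := u) (v := v) (d := d) (by rw [← hv]; abel) hd (orderOf u)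
  rw [pow_orderOf_eq_one, one_smul, hj, succ_nsmul, nsmul_two_mul h2, zero_add] at h
  exact left_eq_add.1 h

theorem exists_split (v : V) : ∃ d ∈ fx u, ∃ s ∈ rg u, v = d + s := by
  let f : ↥(fx u : AddSubgroup V) × ↥(rg u : AddSubgroup V) → V := fun x => x.1 + x.2
  have hinj : Function.Injective f := by
    rintro ⟨⟨a, ha⟩, ⟨b, hb⟩⟩ ⟨⟨a', ha'⟩, ⟨b', hb'⟩⟩ heq
    have h1 : a + b = a' + b' := heq
    have h3 : a - a' = b' - b := by linear_combination (norm := abel) h1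
    obtain rfl := sub_eq_zero.1
      (eq_zero_of_mem_fx_rg h2 hu ((fx u).sub_mem ha ha') (h3 ▸ (rg u).sub_mem hb' hb))
    obtain rfl := add_left_cancel h1
    rfl
  have hbij : Function.Bijective f := (Nat.bijective_iff_injective_and_card f).2
    ⟨hinj, by rw [Nat.card_prod, card_fx_mul_card_rg]⟩
  obtain ⟨⟨d, s⟩, h⟩ := hbij.2 v
  exact ⟨d, d.2, s, s.2, h.symm⟩

/-- A subgroup closed under the splitting is the product of its two parts. -/
theorem card_eq_of_split (W : AddSubgroup V)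
    (hW : ∀ d ∈ fx u, ∀ s ∈ rg u, d + s ∈ W → d ∈ W) :
    Nat.card W = Nat.card (W ⊓ fx u : AddSubgroup V) * Nat.card (W ⊓ rg u : AddSubgroup V) := by
  refine le_antisymm ?_ (card_mul_le_of_inf_eq_bot inf_le_left inf_le_left
    fun x hx hx' => eq_zero_of_mem_fx_rg h2 hu hx.2 hx'.2)
  rw [← Nat.card_prod]
  refine Nat.card_le_card_of_surjective
    (fun x : ↥(W ⊓ fx u : AddSubgroup V) × ↥(W ⊓ rg u : AddSubgroup V) =>
      (⟨x.1 + x.2, W.add_mem x.1.2.1 x.2.2.1⟩ : W)) ?_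
  rintro ⟨w, hw⟩
  obtain ⟨d, hd, s, hs, rfl⟩ := exists_split h2 hu w
  have hdW := hW d hd s hs hw
  exact ⟨⟨⟨d, hdW, hd⟩, ⟨s, (AddSubgroup.add_mem_cancel_left _ hdW).1 hw, hs⟩⟩, rfl⟩

theorem rg_le_of_fx_le {g : H} (hg : fx u ≤ (fx g : AddSubgroup V))
    (hgS : ∀ e ∈ (rg u : AddSubgroup V), g • e ∈ rg u) : rg g ≤ (rg u : AddSubgroup V) := by
  intro e he
  obtain ⟨v, rfl⟩ := mem_rg.1 he
  obtain ⟨d, hd, s, hs, rfl⟩ := exists_split h2 hu v
  rw [smul_add, mem_fx.1 (hg hd), add_sub_add_left_eq_sub]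
  exact (rg u).sub_mem (hgS s hs) hs

omit h2 in
theorem smul_eq_of_sq {a : V} (h : u • u • a = a) : u • a = a := by
  obtain ⟨j, hj⟩ := hu
  have hfix : ∀ i, ((u * u) ^ i) • a = a := by
    intro i
    induction i with
    | zero => simp
    | succ i ih => rw [pow_succ, mul_smul, mul_smul, h, ih]
  have he : (u * u) ^ (j + 1) = u := by
    rw [← pow_two, ← pow_mul, show 2 * (j + 1) = orderOf u + 1 by omega, pow_succ,
      pow_orderOf_eq_one, one_mul]
  simpa [he] using hfix (j + 1)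

/-- The fixed points in `rg u` of an element inverting `u` have at most square root order. -/
theorem sq_card_inf_le {g : H} (hi : g * u * g⁻¹ = u⁻¹) :
    Nat.card (fx g ⊓ rg u : AddSubgroup V) * Nat.card (fx g ⊓ rg u : AddSubgroup V) ≤
      Nat.card (rg u : AddSubgroup V) := by
  set A := (fx g ⊓ rg u : AddSubgroup V)
  let f : V →+ V := DistribSMul.toAddMonoidHom V u
  have hB : Nat.card (A.map f) = Nat.card A :=
    (Nat.card_congr (A.equivMapOfInjective f (MulAction.injective u)).toEquiv).symm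
  calc Nat.card A * Nat.card A = Nat.card A * Nat.card (A.map f) := by rw [hB]
    _ ≤ _ := card_mul_le_of_inf_eq_bot inf_le_right (fun x hx => ?_) (fun x hx hx' => ?_)
  · obtain ⟨a, ha, rfl⟩ := hx
    exact smul_mem_rg_of_commute (Commute.refl u) ha.2
  · obtain ⟨a, ha, rfl⟩ := hx'
    change u • a = 0
    have h1 : g • u • a = u⁻¹ • g • a := by
      rw [← mul_smul, ← mul_smul, ← hi]; group
    have h1' : g • u • a = u • a := mem_fx.1 hx.1
    rw [h1', mem_fx.1 ha.1] at h1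
    have h3 : u • a = a := smul_eq_of_sq hu (by rw [h1, smul_inv_smul])
    rw [h3]
    exact eq_zero_of_mem_fx_rg h2 hu h3 ha.2

end Split

/-- A reflection together with an element of odd order inverted by it. -/
structure Pair (V : Type) [AddCommGroup V] [DistribMulAction H V] (h u : H) : Prop where
  refl : IsRefl V h
  ne : u ≠ 1
  odd : Odd (orderOf u)
  inv : h * u * h⁻¹ = u⁻¹

section Even

variable [Finite H] [Finite V] [FaithfulSMul H V] (hB : IsBinary H V) (h2 : ∀ v : V, v + v = 0)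
include hB h2

theorem IsRefl.rg_le_fx {h : H} (hh : IsRefl V h) : rg h ≤ (fx h : AddSubgroup V) := fun e he => by
  rw [mem_fx, hh.smul_rg hB he, neg_eq_self_of_two h2]

theorem IsRefl.exists_rg_ne_zero {h : H} (hh : IsRefl V h) : ∃ e ∈ rg h, e ≠ (0 : V) := by
  by_contra! hc
  exact hh.1 (eq_one_of_fx_top (V := V) fun v =>
    sub_eq_zero.1 (hc _ (mem_rg.2 ⟨v, rfl⟩)))

theorem IsRefl.fix_rg {h : H} (hh : IsRefl V h) {g : H} (hc : Commute g h) {e : V}
    (he : e ∈ rg h) : g • e = e := by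
  rcases hh.smul_rg_commute hB hc he with h' | h'
  · exact h'
  · rwa [neg_eq_self_of_two h2] at h'

namespace Pair

variable {h u : H} (P : Pair V h u)
include P

theorem structure_eqs :
    fx u ≤ (fx h : AddSubgroup V) ∧ (fx h ⊓ rg u : AddSubgroup V) = rg h ∧
      Nat.card (rg u : AddSubgroup V) =
        Nat.card (rg h : AddSubgroup V) * Nat.card (rg h : AddSubgroup V) := by
  obtain ⟨hh, hu1, hodd, hinv⟩ := P
  set W := (fx h : AddSubgroup V)
  set D := (fx u : AddSubgroup V)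
  set S := (rg u : AddSubgroup V)
  have hdisj : ∀ d ∈ D, d ∈ S → d = 0 := fun d hd hd' => eq_zero_of_mem_fx_rg h2 hodd hd hd'
  have hWsplit : ∀ d ∈ D, ∀ s ∈ S, d + s ∈ W → d ∈ W := by
    intro d hd s hs hw
    have e := mem_fx.1 hw
    rw [smul_add] at e
    have e' : h • d - d = s - h • s := by linear_combination (norm := abel) e
    exact sub_eq_zero.1 (hdisj _ (D.sub_mem (smul_mem_fx_of_inverts hinv hd) hd)
      (e' ▸ S.sub_mem hs (smul_mem_rg_of_inverts hinv hs)))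
  have hcard := card_eq_of_split h2 hodd W hWsplit
  obtain ⟨x0, hx0, hx00⟩ : ∃ x ∈ S, x ≠ 0 := by
    by_contra! hc
    exact hu1 (eq_one_of_fx_top (V := V) fun v => sub_eq_zero.1 (hc _ (mem_rg.2 ⟨v, rfl⟩)))
  obtain ⟨v, hvW, hvS, hv0⟩ : ∃ v, v ∈ W ∧ v ∈ S ∧ v ≠ 0 := by
    by_cases hx : h • x0 = x0
    · exact ⟨x0, hx, hx0, hx00⟩
    · exact ⟨h • x0 - x0, hh.rg_le_fx hB h2 (mem_rg.2 ⟨x0, rfl⟩),
        S.sub_mem (smul_mem_rg_of_inverts hinv hx0) hx0, sub_ne_zero.2 hx⟩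
  obtain ⟨s, hsv, hsX⟩ := hB.exists_move (v := v) (w := u • v)
    ((D : Set V) ∪ (fun a => a + u • a) '' (W : Set V)) ⟨u, rfl⟩ (by
    rintro x (hx | ⟨a, ha, rfl⟩)
    · exact ⟨u, by rw [smul_sub, mem_fx.1 hx]⟩
    · refine ⟨u * h, ?_⟩
      have h3 : h • u • a = u⁻¹ • a := by
        conv_rhs => rw [← mem_fx.1 ha]
        rw [← mul_smul, ← mul_smul, ← hinv]
        group
      beta_reduce
      rw [mul_smul, smul_sub, smul_add, mem_fx.1 ha, h3, mem_fx.1 hvW, smul_sub, smul_add,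
        smul_inv_smul, add_comm (u • a)])
  have hs1 : s ≠ 1 := fun e => hv0 (hdisj v (mem_fx.2 (by rw [← hsv, e, one_smul])) hvS)
  let T := (W ⊓ S).map (del u : V →+ V)
  have hT : Nat.card T = Nat.card (W ⊓ S : AddSubgroup V) := by
    refine Nat.card_congr (Equiv.ofBijective (fun a : (W ⊓ S : AddSubgroup V) =>
      (⟨del u a, AddSubgroup.mem_map_of_mem _ a.2⟩ : T)) ⟨?_, ?_⟩).symm
    · rintro ⟨a, ha⟩ ⟨b, hb⟩ hab
      have h0 : del u (a - b) = 0 := by rw [map_sub, sub_eq_zero]; exact congrArg Subtype.val hab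
      rw [del_apply, sub_eq_zero] at h0
      exact Subtype.ext (sub_eq_zero.1 (hdisj _ h0 (S.sub_mem ha.2 hb.2)))
    · rintro ⟨_, a, ha, rfl⟩
      exact ⟨⟨a, ha⟩, rfl⟩
  have hle : Nat.card D * Nat.card T ≤ Nat.card W := by
    refine (card_mul_le_of_inf_eq_bot (C := fx s) (fun x hx => hsX x (Or.inl hx))
      (fun x hx => ?_) (fun x hx hx' => ?_)).trans (hh.2 s hs1)
    · obtain ⟨a, ha, rfl⟩ := hx
      refine hsX _ (Or.inr ⟨a, ha.1, ?_⟩)
      rw [del_apply, sub_eq_add_of_two h2, add_comm]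
    · obtain ⟨a, ha, rfl⟩ := hx'
      exact hdisj _ hx (mem_rg.2 ⟨a, rfl⟩)
  have hDW : D ≤ W := by
    have h3 : Nat.card D ≤ Nat.card (W ⊓ D : AddSubgroup V) :=
      Nat.le_of_mul_le_mul_right (by rw [← hcard, ← hT] at *; omega) Nat.card_pos
    exact (eq_of_le_of_card_le inf_le_right h3).symm.le.trans inf_le_left
  have hrgS : rg h ≤ S :=
    rg_le_of_fx_le h2 hodd hDW fun e he => smul_mem_rg_of_inverts hinv he
  have hle2 : rg h ≤ W ⊓ S := le_inf (hh.rg_le_fx hB h2) hrgS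
  have hWD : (W ⊓ D : AddSubgroup V) = D := inf_eq_right.2 hDW
  rw [hWD] at hcard
  have hSq : Nat.card S =
      Nat.card (W ⊓ S : AddSubgroup V) * Nat.card (rg h : AddSubgroup V) := by
    refine Nat.eq_of_mul_eq_mul_left (n := Nat.card D) Nat.card_pos ?_
    rw [card_fx_mul_card_rg, ← mul_assoc, ← hcard, card_fx_mul_card_rg]
  have hA : Nat.card (W ⊓ S : AddSubgroup V) ≤ Nat.card (rg h : AddSubgroup V) :=
    Nat.le_of_mul_le_mul_left ((sq_card_inf_le h2 hodd hinv).trans hSq.le) Nat.card_pos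
  have hEq := (eq_of_le_of_card_le hle2 hA).symm
  exact ⟨hDW, hEq, by rw [hSq, hEq]⟩

theorem fx_le : fx u ≤ (fx h : AddSubgroup V) := (P.structure_eqs hB h2).1

theorem mem_rg_iff {e : V} : e ∈ rg h ↔ e ∈ fx h ∧ e ∈ rg u := by
  rw [← (P.structure_eqs hB h2).2.1]
  rfl

theorem rg_le : rg h ≤ (rg u : AddSubgroup V) := fun _ he => ((P.mem_rg_iff hB h2).1 he).2

/-- An involution fixing `fx u` and inverting `u` is a reflection. -/
theorem refl_of_inverts {g : H} (hg1 : g ≠ 1) (hg2 : g * g = 1)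
    (hgD : fx u ≤ (fx g : AddSubgroup V)) (hgi : g * u * g⁻¹ = u⁻¹) : IsRefl V g := by
  refine ⟨hg1, fun k hk => (P.refl.2 k hk).trans ?_⟩
  have hle : rg g ≤ (fx g ⊓ rg u : AddSubgroup V) := le_inf (fun e he => by
      obtain ⟨v, rfl⟩ := mem_rg.1 he
      rw [mem_fx, smul_sub, ← mul_smul, hg2, one_smul, ← neg_sub, neg_eq_self_of_two h2])
    (rg_le_of_fx_le h2 P.odd hgD fun e he => smul_mem_rg_of_inverts hgi he)
  have h3 := sq_card_inf_le h2 P.odd hgi
  rw [(P.structure_eqs hB h2).2.2] at h3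
  have h4 : Nat.card (rg g : AddSubgroup V) ≤ Nat.card (rg h : AddSubgroup V) :=
    (AddSubgroup.card_le_of_le hle).trans (Nat.mul_self_le_mul_self_iff.1 h3)
  refine Nat.le_of_mul_le_mul_right (c := Nat.card (rg h : AddSubgroup V)) ?_ Nat.card_pos
  rw [card_fx_mul_card_rg, ← card_fx_mul_card_rg (V := V) g]
  exact Nat.mul_le_mul_left _ h4

theorem eq_zero_of_rg {z : H} (hz : IsRefl V z) (hzD : fx u ≤ (fx z : AddSubgroup V)) {d : V}
    (hd : d ∈ fx u) (hd' : d ∈ rg z) : d = 0 := by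
  by_contra h0
  have hc : Commute u z := hz.commute_of_smul_eq hB hd' h0 (mem_fx.1 hd)
  exact h0 (eq_zero_of_mem_fx_rg h2 P.odd hd
    (rg_le_of_fx_le h2 P.odd hzD (fun e he => smul_mem_rg_of_commute hc.symm he) hd'))

theorem card_fx_refl {r : H} (hr : IsRefl V r) :
    Nat.card (fx r : AddSubgroup V) =
      Nat.card (fx u : AddSubgroup V) * Nat.card (rg r : AddSubgroup V) := by
  have e1 : Nat.card (fx r : AddSubgroup V) = Nat.card (fx h : AddSubgroup V) :=
    hr.card_fx_eq P.refl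
  have e2 : Nat.card (rg r : AddSubgroup V) = Nat.card (rg h : AddSubgroup V) := by
    refine Nat.eq_of_mul_eq_mul_left (n := Nat.card (fx r : AddSubgroup V)) Nat.card_pos ?_
    rw [card_fx_mul_card_rg, e1, card_fx_mul_card_rg]
  refine Nat.eq_of_mul_eq_mul_right (m := Nat.card (rg r : AddSubgroup V)) Nat.card_pos ?_
  rw [card_fx_mul_card_rg, e2, mul_assoc, ← (P.structure_eqs hB h2).2.2, card_fx_mul_card_rg]

theorem fx_le_of_commute {r : H} (hr : IsRefl V r) (hrD : fx u ≤ (fx r : AddSubgroup V)) {g : H}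
    (hgD : fx u ≤ (fx g : AddSubgroup V)) (hc : Commute g r) :
    fx r ≤ (fx g : AddSubgroup V) := by
  have heq : (fx u ⊔ rg r : AddSubgroup V) = fx r :=
    eq_of_le_of_card_le (sup_le hrD (hr.rg_le_fx hB h2))
      ((P.card_fx_refl hB h2 hr).trans_le
        (card_mul_le_of_inf_eq_bot le_sup_left le_sup_right
          fun x hx hx' => P.eq_zero_of_rg hB h2 hr hrD hx hx'))
  rw [← heq]
  exact sup_le hgD fun e he => hr.fix_rg hB h2 hc he

theorem exists_not_mem {r : H} (hr : IsRefl V r) : ∃ v : V, v ∈ fx r ∧ v ∉ fx u := by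
  by_contra! hc
  have hle : Nat.card (fx r : AddSubgroup V) ≤ Nat.card (fx u : AddSubgroup V) :=
    AddSubgroup.card_le_of_le hc
  obtain ⟨e, he, he0⟩ := hr.exists_rg_ne_zero hB h2
  have h1 : 1 < Nat.card (rg r : AddSubgroup V) :=
    Finite.one_lt_card_iff_nontrivial.2 ⟨⟨e, he⟩, 0, fun c => he0 (congrArg Subtype.val c)⟩
  rw [P.card_fx_refl hB h2 hr] at hle
  have := Nat.card_pos (α := (fx u : AddSubgroup V))
  nlinarith

/-- Every involution of the pointwise stabiliser of `fx u` is a reflection. -/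
theorem refl_of_invol {g : H} (hg1 : g ≠ 1) (hg2 : g * g = 1)
    (hgD : fx u ≤ (fx g : AddSubgroup V)) : IsRefl V g := by
  have hh2 := P.refl.mul_self hB
  have hxD : fx u ≤ (fx (h * g) : AddSubgroup V) := fx_le_mul (P.fx_le hB h2) hgD
  rcases two_power_or_odd_part (h * g) with ⟨k, hk⟩ | ⟨n, hn, hodd⟩
  · by_cases hx1 : h * g = 1
    · rw [show g = h from (inv_eq_of_mul_eq_one_right hx1).symm.trans (P.refl.inv_eq hB)]
      exact P.refl
    obtain ⟨n, hn1, hn2⟩ := exists_pow_involution hx1 k hk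
    have hzh := commute_of_inverts (conj_pow_inverts (inverts_mul_left hh2 hg2) n) hn2
    have hzg := commute_of_inverts (conj_pow_inverts (inverts_mul_right hh2 hg2) n) hn2
    have hzD := fx_le_pow hxD n
    have e1 := P.refl.fx_eq_of_le hn1
      (P.fx_le_of_commute hB h2 P.refl (P.fx_le hB h2) hzD hzh)
    have hz : IsRefl V ((h * g) ^ n) := ⟨hn1, fun k hk => e1 ▸ P.refl.2 k hk⟩
    exact ⟨hg1, fun k hk => (hz.2 k hk).trans
      (AddSubgroup.card_le_of_le (P.fx_le_of_commute hB h2 hz hzD hgD hzg.symm))⟩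
  · have P' : Pair V h ((h * g) ^ n) :=
      ⟨P.refl, hn, hodd, conj_pow_inverts (inverts_mul_left hh2 hg2) n⟩
    have hcard : Nat.card (fx ((h * g) ^ n) : AddSubgroup V) ≤
        Nat.card (fx u : AddSubgroup V) := by
      refine (Nat.eq_of_mul_eq_mul_right
        (m := Nat.card (rg h : AddSubgroup V) * Nat.card (rg h : AddSubgroup V))
        (Nat.mul_pos Nat.card_pos Nat.card_pos) ?_).le
      conv_lhs => rw [← (P'.structure_eqs hB h2).2.2, card_fx_mul_card_rg]
      conv_rhs => rw [← (P.structure_eqs hB h2).2.2, card_fx_mul_card_rg]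
    refine P'.refl_of_inverts hB h2 hg1 hg2 ?_ (conj_pow_inverts (inverts_mul_right hh2 hg2) n)
    rw [← eq_of_le_of_card_le (fx_le_pow hxD n) hcard]
    exact hgD

theorem sq_eq_one_of_pow_four {g : H} (hgD : fx u ≤ (fx g : AddSubgroup V)) (h4 : g ^ 4 = 1) :
    g * g = 1 := by
  by_contra hne
  have hr : IsRefl V (g * g) := P.refl_of_invol hB h2 hne
    (by rw [← pow_two, ← pow_two, ← pow_mul]; exact h4) (fx_le_mul hgD hgD)
  have hg1 : g ≠ 1 := fun e => hne (by rw [e, one_mul])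
  have hc : Commute g (g * g) := (Commute.refl g).mul_right (Commute.refl g)
  have hgr : IsRefl V g := ⟨hg1, fun k hk => (hr.2 k hk).trans (AddSubgroup.card_le_of_le
    (P.fx_le_of_commute hB h2 hr (fx_le_mul hgD hgD) hgD hc))⟩
  exact hne (hgr.mul_self hB)

theorem sq_eq_one_of_two_power : ∀ (k : ℕ) {g : H}, fx u ≤ (fx g : AddSubgroup V) →
    g ^ 2 ^ k = 1 → g * g = 1
  | 0, g, _, h => by simp [show g = 1 by simpa using h]
  | k + 1, g, hgD, h => by
    refine P.sq_eq_one_of_pow_four hB h2 hgD ?_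
    rw [show (4 : ℕ) = 2 * 2 from rfl, pow_mul, pow_two (g ^ 2), pow_two g]
    exact sq_eq_one_of_two_power k (fx_le_mul hgD hgD)
      (by rw [← pow_two, ← pow_mul, ← pow_succ']; exact h)

theorem sq_eq_one_of_fx {g : H} (hgD : fx u ≤ (fx g : AddSubgroup V)) {v : V} (hv : v ∈ fx g)
    (hvD : v ∉ fx u) : g * g = 1 := by
  induction hn : Nat.card V - Nat.card (fx g : AddSubgroup V) using Nat.strong_induction_on
    generalizing g v with
  | _ n ih =>
  subst hn
  have step : ∀ (k : H) (w : V), fx g ≤ (fx k : AddSubgroup V) → w ∈ fx k → w ∉ fx g →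
      k * k = 1 := by
    intro k w hle hwk hwg
    refine ih _ ?_ (hgD.trans hle) (hle hv) hvD rfl
    have h1 : Nat.card (fx g : AddSubgroup V) < Nat.card (fx k : AddSubgroup V) := by
      by_contra hlt
      exact hwg (eq_of_le_of_card_le hle (not_lt.1 hlt) ▸ hwk)
    have h3 : Nat.card (fx k : AddSubgroup V) ≤ Nat.card V := Finite.card_subtype_le _
    omega
  by_contra hne
  obtain ⟨w, hw⟩ : ∃ w : V, w + g • w ∉ fx g := by
    by_contra! hc
    refine hne (eq_one_of_fx_top (V := V) fun w => ?_)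
    have e := mem_fx.1 (hc w)
    rw [smul_add] at e
    rw [mul_smul]
    linear_combination (norm := abel) e
  obtain ⟨s, hsw, hsX⟩ := hB.exists_move (v := w) (w := g • w)
    (insert (w + g • w) ((fx g : AddSubgroup V) : Set V)) ⟨g, rfl⟩ (by
    rintro x (rfl | hx)
    · exact ⟨g⁻¹, by rw [add_sub_cancel_left, inv_smul_smul, add_sub_cancel_right]⟩
    · exact ⟨g, by rw [smul_sub, mem_fx.1 hx]⟩)
  have hgw : g • w ≠ w := fun e => hw (by rw [e, h2]; exact (fx g).zero_mem)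
  have hle : fx g ≤ (fx s : AddSubgroup V) := fun x hx => hsX x (Or.inr hx)
  have hs2 : s * s = 1 := step s _ hle (hsX _ (Or.inl rfl)) hw
  have hs1 : s ≠ 1 := fun e => hgw (by rw [← hsw, e, one_smul])
  have hr2 : (g⁻¹ * s) * (g⁻¹ * s) = 1 := by
    refine step _ w (fx_le_mul (fx_le_inv le_rfl) hle) ?_ hgw
    rw [mem_fx, mul_smul, hsw, inv_smul_smul]
  have hgi : s * g * s⁻¹ = g⁻¹ := by
    have e : s * g = g⁻¹ * s := by
      rw [← inv_eq_of_mul_eq_one_right hr2, mul_inv_rev, inv_inv, inv_eq_of_mul_eq_one_right hs2]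
    rw [e, mul_inv_cancel_right]
  rcases two_power_or_odd_part g with ⟨k, hk⟩ | ⟨n, hn, hodd⟩
  · exact hne (P.sq_eq_one_of_two_power hB h2 k hgD hk)
  · have hsR : IsRefl V s := P.refl_of_invol hB h2 hs1 hs2 (hgD.trans hle)
    have P' : Pair V s (g ^ n) := ⟨hsR, hn, hodd, conj_pow_inverts hgi n⟩
    have e1 : Nat.card (fx u : AddSubgroup V) * Nat.card (rg s : AddSubgroup V) =
        Nat.card (fx (g ^ n) : AddSubgroup V) * Nat.card (rg s : AddSubgroup V) := by
      rw [← P.card_fx_refl hB h2 hsR, P'.card_fx_refl hB h2 hsR]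
    have e2 := Nat.eq_of_mul_eq_mul_right Nat.card_pos e1
    exact hvD (eq_of_le_of_card_le (fx_le_pow hgD n) e2.ge ▸ fx_le_pow le_rfl n hv)

theorem refl_of_fx {g : H} (hg1 : g ≠ 1) (hgD : fx u ≤ (fx g : AddSubgroup V)) {v : V}
    (hv : v ∈ fx g) (hvD : v ∉ fx u) : IsRefl V g :=
  P.refl_of_invol hB h2 hg1 (P.sq_eq_one_of_fx hB h2 hgD hv hvD) hgD

theorem exists_refl_move {g : H} (hgD : fx u ≤ (fx g : AddSubgroup V)) {v : V}
    (hv : v + g • v ∉ fx u) : ∃ s : H, IsRefl V s ∧ fx u ≤ (fx s : AddSubgroup V) ∧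
      s • v = g • v ∧ v + g • v ∈ fx s := by
  obtain ⟨s, hsv, hsX⟩ := hB.exists_move (v := v) (w := g • v)
    (insert (v + g • v) ((fx u : AddSubgroup V) : Set V)) ⟨g, rfl⟩ (by
    rintro x (rfl | hx)
    · exact ⟨g⁻¹, by rw [add_sub_cancel_left, inv_smul_smul, add_sub_cancel_right]⟩
    · exact ⟨g, by rw [smul_sub, mem_fx.1 (hgD hx)]⟩)
  have hsD : fx u ≤ (fx s : AddSubgroup V) := fun x hx => hsX x (Or.inr hx)
  have hs1 : s ≠ 1 := fun e => hv (by
    rw [← hsv, e, one_smul, h2]; exact (fx u).zero_mem)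
  exact ⟨s, P.refl_of_fx hB h2 hs1 hsD (hsX _ (Or.inl rfl)) hv, hsD, hsv, hsX _ (Or.inl rfl)⟩

theorem exists_cover {v : V} (hv : v ∉ fx u) :
    ∃ r : H, IsRefl V r ∧ fx u ≤ (fx r : AddSubgroup V) ∧ v ∈ fx r := by
  have hv' : v + u • v ∉ fx u := fun hd => hv (by
    have h0 := eq_zero_of_mem_fx_rg h2 P.odd hd
      (mem_rg.2 ⟨v, by rw [sub_eq_add_of_two h2, add_comm]⟩)
    rw [mem_fx, eq_neg_of_add_eq_zero_right h0, neg_eq_self_of_two h2])
  obtain ⟨s, hs, hsD, hsv, -⟩ := P.exists_refl_move hB h2 le_rfl hv'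
  have hrD : fx u ≤ (fx (u⁻¹ * s) : AddSubgroup V) := fx_le_mul (fx_le_inv le_rfl) hsD
  have hr1 : u⁻¹ * s ≠ 1 := fun e => P.ne (by
    obtain rfl := inv_mul_eq_one.1 e
    obtain ⟨j, hj⟩ := P.odd
    have := pow_orderOf_eq_one u
    rwa [hj, pow_succ, pow_mul, pow_two, hs.mul_self hB, one_pow, one_mul] at this)
  have hrv : v ∈ fx (u⁻¹ * s) := by rw [mem_fx, mul_smul, hsv, inv_smul_smul]
  exact ⟨_, P.refl_of_fx hB h2 hr1 hrD hrv hv, hrD, hrv⟩

theorem fx_eq_of_mem {r r' : H} (hr : IsRefl V r) (hrD : fx u ≤ (fx r : AddSubgroup V))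
    (hr' : IsRefl V r') (hrD' : fx u ≤ (fx r' : AddSubgroup V)) {v : V} (hv : v ∈ fx r)
    (hv' : v ∈ fx r') (hvD : v ∉ fx u) : fx r = (fx r' : AddSubgroup V) := by
  have hsq := P.sq_eq_one_of_fx hB h2 (fx_le_mul hrD hrD') (fx_le_fx_mul_inter hv hv') hvD
  exact hr.fx_eq_of_le hr'.1 (P.fx_le_of_commute hB h2 hr hrD hrD'
    (commute_of_mul_sq (hr.mul_self hB) (hr'.mul_self hB) hsq).symm)

theorem fx_le_of_invariant {r : H} (hr : IsRefl V r) (hrD : fx u ≤ (fx r : AddSubgroup V))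
    {g : H} (hgD : fx u ≤ (fx g : AddSubgroup V))
    (hinv : ∀ v ∈ (fx r : AddSubgroup V), g • v ∈ fx r) : fx r ≤ (fx g : AddSubgroup V) := by
  intro v hv
  by_cases hvD : v ∈ fx u
  · exact hgD hvD
  by_cases hd : v + g • v ∈ fx u
  · have e := mem_fx.1 (hgD hd)
    rw [smul_add] at e
    have hgg : v ∈ fx (g * g) := by
      rw [mem_fx, mul_smul]
      linear_combination (norm := abel) e
    have h4 := P.sq_eq_one_of_fx hB h2 (fx_le_mul hgD hgD) hgg hvD
    have hg2 := P.sq_eq_one_of_pow_four hB h2 hgD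
      (by rw [show (4 : ℕ) = 2 * 2 from rfl, pow_mul, pow_two (g ^ 2), pow_two g]; exact h4)
    by_cases hg1 : g = 1
    · rw [mem_fx, hg1, one_smul]
    have hgR := P.refl_of_invol hB h2 hg1 hg2 hgD
    have h0 := P.eq_zero_of_rg hB h2 hgR hgD hd
      (mem_rg.2 ⟨v, by rw [sub_eq_add_of_two h2, add_comm]⟩)
    rw [mem_fx, eq_neg_of_add_eq_zero_right h0, neg_eq_self_of_two h2]
  · obtain ⟨s, hs, hsD, hsv, hsm⟩ := P.exists_refl_move hB h2 hgD hd
    have e := P.fx_eq_of_mem hB h2 hr hrD hs hsD ((fx r).add_mem hv (hinv v hv)) hsm hd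
    rw [mem_fx, ← hsv]
    exact mem_fx.1 (e ▸ hv)

theorem exists_conj {r k : H} (hr : IsRefl V r) (hrD : fx u ≤ (fx r : AddSubgroup V))
    (hk : IsRefl V k) (hkD : fx u ≤ (fx k : AddSubgroup V))
    (hne : fx r ≠ (fx k : AddSubgroup V)) :
    ∃ c : H, fx u ≤ (fx c : AddSubgroup V) ∧ c * r * c⁻¹ = k := by
  have hxD : fx u ≤ (fx (r * k) : AddSubgroup V) := fx_le_mul hrD hkD
  have hi := inverts_mul_left (hr.mul_self hB) (hk.mul_self hB)
  have hi' := inverts_mul_right (hr.mul_self hB) (hk.mul_self hB)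
  rcases Nat.even_or_odd' (orderOf (r * k)) with ⟨j, hj | hj⟩
  · exfalso
    have hj0 : j ≠ 0 := fun e => (orderOf_pos (r * k)).ne' (by rw [hj, e])
    have hz1 : (r * k) ^ j ≠ 1 := pow_ne_one_of_lt_orderOf hj0 (by omega)
    have hz2 : (r * k) ^ j * (r * k) ^ j = 1 := by
      rw [← pow_add, ← two_mul, ← hj, pow_orderOf_eq_one]
    have hzD := fx_le_pow hxD j
    have e1 := hr.fx_eq_of_le hz1 (P.fx_le_of_commute hB h2 hr hrD hzD
      (commute_of_inverts (conj_pow_inverts hi j) hz2))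
    have e2 := hk.fx_eq_of_le hz1 (P.fx_le_of_commute hB h2 hk hkD hzD
      (commute_of_inverts (conj_pow_inverts hi' j) hz2))
    exact hne (e1.trans e2.symm)
  · refine ⟨(r * k) ^ j, fx_le_pow hxD j, ?_⟩
    rw [conj_eq_pow_mul hi]
    have h1 := pow_orderOf_eq_one (r * k)
    rw [hj, pow_succ] at h1
    rw [eq_inv_of_mul_eq_one_left h1, mul_inv_rev, hr.inv_eq hB, hk.inv_eq hB, mul_assoc,
      hr.mul_self hB, mul_one]

theorem eq_of_fx_eq {r r' : H} (hr : IsRefl V r) (hrD : fx u ≤ (fx r : AddSubgroup V))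
    (hr' : IsRefl V r') (he : fx r = (fx r' : AddSubgroup V)) : r = r' := by
  obtain ⟨v, hv⟩ : ∃ v : V, v ∉ fx r := by
    by_contra! hc
    exact hr.1 (eq_one_of_fx_top (V := V) hc)
  obtain ⟨k, hk, hkD, hvk⟩ := P.exists_cover hB h2 fun hd => hv (hrD hd)
  have hne : fx r ≠ (fx k : AddSubgroup V) := fun e => hv (e ▸ hvk)
  obtain ⟨c, hcD, hc⟩ := P.exists_conj hB h2 hr hrD hk hkD hne
  obtain ⟨c', hcD', hc'⟩ := P.exists_conj hB h2 hr' (he ▸ hrD) hk hkD (he ▸ hne)
  set a := c'⁻¹ * c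
  have ha : a * r * a⁻¹ = r' := by
    rw [show a * r * a⁻¹ = c'⁻¹ * (c * r * c⁻¹) * c' by simp only [a]; group, hc, ← hc']
    group
  have haD : fx u ≤ (fx a : AddSubgroup V) := fx_le_mul (fx_le_inv hcD') hcD
  have hafix := P.fx_le_of_invariant hB h2 hr hrD haD fun w hw => by
    have h1 := (smul_mem_fx_conj (g := a) (h := r)).2 hw
    rwa [ha, ← he] at h1
  obtain ⟨w, hw, hwD⟩ := P.exists_not_mem hB h2 hr
  have h1 := P.sq_eq_one_of_fx hB h2 haD (hafix hw) hwD
  have h3 := P.sq_eq_one_of_fx hB h2 (fx_le_mul haD hrD)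
    (fx_le_fx_mul_inter (hafix hw) hw) hwD
  rw [← ha, (commute_of_mul_sq h1 (hr.mul_self hB) h3).eq, mul_inv_cancel_right]

theorem eq_of_mem {r r' : H} (hr : IsRefl V r) (hrD : fx u ≤ (fx r : AddSubgroup V))
    (hr' : IsRefl V r') (hrD' : fx u ≤ (fx r' : AddSubgroup V)) {v : V} (hv : v ∈ fx r)
    (hv' : v ∈ fx r') (hvD : v ∉ fx u) : r = r' :=
  P.eq_of_fx_eq hB h2 hr hrD hr' (P.fx_eq_of_mem hB h2 hr hrD hr' hrD' hv hv' hvD)

theorem refl_mul {g : H} (hgD : fx u ≤ (fx g : AddSubgroup V)) (hg1 : g ≠ 1)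
    (hgR : ¬ IsRefl V g) {l : H} (hl : IsRefl V l) (hlD : fx u ≤ (fx l : AddSubgroup V)) :
    IsRefl V (g * l) := by
  obtain ⟨v, hv, hvD⟩ := P.exists_not_mem hB h2 hl
  have hd : v + g • v ∉ fx u := fun hd => by
    have e := mem_fx.1 (hgD hd)
    rw [smul_add] at e
    have hgg : v ∈ fx (g * g) := by
      rw [mem_fx, mul_smul]
      linear_combination (norm := abel) e
    have h4 := P.sq_eq_one_of_fx hB h2 (fx_le_mul hgD hgD) hgg hvD
    exact hgR (P.refl_of_invol hB h2 hg1 (P.sq_eq_one_of_pow_four hB h2 hgD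
      (by rw [show (4 : ℕ) = 2 * 2 from rfl, pow_mul, pow_two (g ^ 2), pow_two g]; exact h4)) hgD)
  obtain ⟨s, hs, hsD, hsv, -⟩ := P.exists_refl_move hB h2 hgD hd
  have hrD := fx_le_mul (fx_le_inv hgD) hsD
  have hrv : v ∈ fx (g⁻¹ * s) := by rw [mem_fx, mul_smul, hsv, inv_smul_smul]
  have hr1 : g⁻¹ * s ≠ 1 := fun e => hgR (by obtain rfl := inv_mul_eq_one.1 e; exact hs)
  have hl' := P.eq_of_mem hB h2 (P.refl_of_fx hB h2 hr1 hrD hrv hvD) hrD hl hlD hrv hv hvD
  rwa [← hl', mul_inv_cancel_left]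

theorem of_refl {l : H} (hl : IsRefl V l) (hlD : fx u ≤ (fx l : AddSubgroup V)) :
    Pair V l u := by
  refine ⟨hl, P.ne, P.odd, ?_⟩
  have huR : ¬ IsRefl V u := fun hR => P.ne (by
    obtain ⟨j, hj⟩ := P.odd
    have := pow_orderOf_eq_one u
    rwa [hj, pow_succ, pow_mul, pow_two, hR.mul_self hB, one_pow, one_mul] at this)
  have hs2 := (P.refl_mul hB h2 le_rfl P.ne huR hl hlD).mul_self hB
  rw [hl.inv_eq hB]
  exact eq_inv_of_mul_eq_one_right (by simpa [mul_assoc] using hs2)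

end Pair

variable (hirr : ∀ U : AddSubgroup V, (∀ g : H, ∀ v ∈ U, g • v ∈ U) → U = ⊥ ∨ U = ⊤)
include hirr

theorem exists_pair {h : H} (hh : IsRefl V h) : ∃ u, Pair V h u := by
  obtain ⟨u, hu, hodd, hi⟩ := Cfsg.Agent.S0200.result h
    (orderOf_eq_prime (by rw [pow_two]; exact hh.mul_self hB) hh.1) (fun N hN hNp hmem => by
      haveI := hN
      let U : AddSubgroup V := ⨅ n : N, fx (n : H)
      have hUinv : ∀ g : H, ∀ v ∈ U, g • v ∈ U := fun g v hv => by
        simp only [U, AddSubgroup.mem_iInf, mem_fx, Subtype.forall] at hv ⊢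
        intro n hn
        have := hv _ (hN.conj_mem' n hn g)
        rwa [mul_smul, mul_smul, inv_smul_eq_iff] at this
      obtain ⟨e, -, he0⟩ := hh.exists_rg_ne_zero hB h2
      have hdvd : 2 ∣ Nat.card V := by
        rw [← addOrderOf_eq_prime (p := 2) (by rw [two_nsmul, h2]) he0]
        exact addOrderOf_dvd_natCard e
      haveI := Fact.mk Nat.prime_two
      obtain ⟨b, hb, hb0⟩ := hNp.exists_fixed_point_of_prime_dvd_card_of_fixed_point V hdvd
        (a := (0 : V)) (fun n => smul_zero _)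
      have hbU : b ∈ U := AddSubgroup.mem_iInf.2 fun n => hb n
      rcases hirr U hUinv with hU | hU
      · exact hb0 (by rw [hU] at hbU; exact (AddSubgroup.mem_bot.1 hbU).symm)
      · exact hh.1 (eq_one_of_fx_top (V := V) fun v => AddSubgroup.mem_iInf.1
          (show v ∈ U by rw [hU]; exact AddSubgroup.mem_top v) ⟨h, hmem⟩))
  exact ⟨u, hh, hu, hodd, hi⟩

theorem IsRefl.eq_of_commute_conj {h : H} (hh : IsRefl V h) (g : H)
    (hc : Commute h (g * h * g⁻¹)) : g * h * g⁻¹ = h := by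
  by_contra hne
  obtain ⟨u, P⟩ := exists_pair hB h2 hirr hh
  set k := g * h * g⁻¹ with hk
  have hkR : IsRefl V k := hh.conj g
  have hW : fx k ≠ (fx h : AddSubgroup V) := fun e =>
    hne (P.eq_of_fx_eq hB h2 hh (P.fx_le hB h2) hkR e.symm).symm
  let f : V →+ V × V := (del h).prod (del k)
  let gm : V →+ V := DistribSMul.toAddMonoidHom V g
  let Δ : AddSubgroup (V × V) := (rg h).map ((AddMonoidHom.id V).prod gm)
  have hΔ : Nat.card Δ = Nat.card (rg h : AddSubgroup V) :=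
    (Nat.card_congr ((rg h : AddSubgroup V).equivMapOfInjective _
      (fun a b e => congrArg Prod.fst e)).toEquiv).symm
  obtain ⟨v, hv0, hvk⟩ : ∃ v : V, h • v - v ≠ 0 ∧ k • v - v = g • (h • v - v) := by
    by_contra! hcon
    have hle := card_mul_le_of_inf_eq_bot (A := f.range) (B := Δ)
      (C := (rg h : AddSubgroup V).prod (rg k)) (by
        rintro _ ⟨v, rfl⟩
        exact ⟨mem_rg.2 ⟨v, rfl⟩, mem_rg.2 ⟨v, rfl⟩⟩) (by
        rintro _ ⟨a, ha, rfl⟩
        exact ⟨ha, smul_mem_rg_conj ha⟩) (by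
        rintro _ ⟨v, rfl⟩ ⟨a, ha, e⟩
        have e1 : a = h • v - v := congrArg Prod.fst e
        have e2 : g • a = k • v - v := congrArg Prod.snd e
        by_cases h0 : h • v - v = 0
        · refine Prod.ext h0 ?_
          show k • v - v = 0
          rw [← e2, e1, h0, smul_zero]
        · exact absurd (by rw [← e2, e1]) (hcon v h0))
    rw [hΔ, Nat.card_congr ((rg h : AddSubgroup V).prodEquiv (rg k)).toEquiv, Nat.card_prod] at hle
    have hqk : Nat.card (rg k : AddSubgroup V) = Nat.card (rg h : AddSubgroup V) := by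
      refine Nat.eq_of_mul_eq_mul_left (n := Nat.card (fx h : AddSubgroup V)) Nat.card_pos ?_
      rw [card_fx_mul_card_rg, hh.card_fx_eq hkR, card_fx_mul_card_rg]
    rw [hqk] at hle
    have hΓ := Nat.le_of_mul_le_mul_right hle Nat.card_pos
    have hker : f.ker = (fx h ⊓ fx k : AddSubgroup V) := by
      ext x; simp [f, AddMonoidHom.mem_ker, del_apply, sub_eq_zero, mem_fx]
    have hidx : Nat.card f.range = (fx h ⊓ fx k : AddSubgroup V).index := by
      rw [← hker, AddSubgroup.index_eq_card]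
      exact (Nat.card_congr (QuotientAddGroup.quotientKerEquivRange f).toEquiv).symm
    have h5 : Nat.card (fx h : AddSubgroup V) ≤ Nat.card (fx h ⊓ fx k : AddSubgroup V) := by
      refine Nat.le_of_mul_le_mul_right (c := Nat.card (rg h : AddSubgroup V)) ?_ Nat.card_pos
      rw [card_fx_mul_card_rg, ← AddSubgroup.card_mul_index (fx h ⊓ fx k : AddSubgroup V), ← hidx]
      exact Nat.mul_le_mul_left _ hΓ
    exact hW (hh.fx_eq_of_le hkR.1
      ((eq_of_le_of_card_le inf_le_left h5).symm.le.trans inf_le_right)).symm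
  set a := h • v - v with ha
  have hha : a ∈ rg h := mem_rg.2 ⟨v, rfl⟩
  have hgak : g • a ∈ rg k := smul_mem_rg_conj hha
  have hka : k • a = a := hh.fix_rg hB h2 hc.symm hha
  have hhga : h • g • a = g • a := hkR.fix_rg hB h2 hc hgak
  have hhv : h • v = v + a := by rw [ha]; abel
  have hkv : k • v = v + g • a := by rw [← hvk]; abel
  have hha' : h • a = a := hh.rg_le_fx hB h2 hha
  obtain ⟨σ, hσ⟩ := hB.exists_shift (a + g • a) {a, v, v + a} (by
    rintro x (rfl | rfl | rfl)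
    · exact ⟨g, by rw [sub_eq_add_of_two h2, ← add_assoc, h2, zero_add]⟩
    · exact ⟨h * k, by rw [mul_smul, hkv, smul_add, hhv, hhga, sub_eq_add_of_two h2, add_assoc]⟩
    · exact ⟨h * k, by
        rw [mul_smul, smul_add, hkv, hka, smul_add, smul_add, hhv, hhga, hha',
          sub_eq_add_of_two h2]
        abel⟩)
  have e1 := hσ a (by simp)
  have e2 := hσ v (by simp)
  have e3 := hσ (v + a) (by simp)
  rw [smul_add, e1, e2] at e3
  have hd : a + g • a = 0 := by linear_combination (norm := abel) -e3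
  have hga : g • a = a := by rw [eq_neg_of_add_eq_zero_right hd, neg_eq_self_of_two h2]
  exact hne (hkR.eq_of_mem_rg hB hh hv0 (hga ▸ hgak) hha)

theorem IsRefl.odd_orderOf_mul {h : H} (hh : IsRefl V h) (g : H) :
    Odd (orderOf (h * (g * h * g⁻¹))) := by
  set k := g * h * g⁻¹ with hk
  have hh2 := hh.mul_self hB
  have hk2 : k * k = 1 := (hh.conj g).mul_self hB
  set x := h * k with hx
  have hi : h * x * h⁻¹ = x⁻¹ := inverts_mul_left hh2 hk2
  have hi' : k * x * k⁻¹ = x⁻¹ := inverts_mul_right hh2 hk2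
  rcases Nat.even_or_odd' (orderOf x) with ⟨j, hj | hj⟩
  · exfalso
    have hj0 : j ≠ 0 := fun e => (orderOf_pos x).ne' (by rw [hj, e])
    have hz1 : x ^ j ≠ 1 := pow_ne_one_of_lt_orderOf hj0 (by omega)
    have hz2 : x ^ j * x ^ j = 1 := by rw [← pow_add, ← two_mul, ← hj, pow_orderOf_eq_one]
    rcases Nat.even_or_odd' j with ⟨i, rfl | rfl⟩
    · have hc := commute_of_inverts (conj_pow_inverts hi (2 * i)) hz2
      have e := hh.eq_of_commute_conj hB h2 hirr (x ^ i) (by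
        rw [conj_eq_pow_mul hi]
        exact hc.symm.mul_right (Commute.refl h))
      rw [conj_eq_pow_mul hi, mul_eq_right] at e
      exact hz1 e
    · have hc := commute_of_inverts (conj_pow_inverts hi' (2 * i + 1)) hz2
      have hzk : x ^ (2 * i + 1) * k = x ^ (2 * i) * h := by
        rw [pow_succ, mul_assoc, show x * k = h by rw [hx, mul_assoc, hk2, mul_one]]
      have hconj : (x ^ i * g⁻¹) * k * (x ^ i * g⁻¹)⁻¹ = x ^ (2 * i + 1) * k := by
        rw [hzk, ← conj_eq_pow_mul hi, hk]; group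
      have e := (hh.conj g).eq_of_commute_conj hB h2 hirr (x ^ i * g⁻¹) (by
        rw [← hk, hconj]
        exact hc.symm.mul_right (Commute.refl k))
      rw [← hk, hconj, mul_eq_right] at e
      exact hz1 e
  · exact ⟨j, hj⟩

theorem fx_eq_bot {h u : H} (P : Pair V h u) : fx u = (⊥ : AddSubgroup V) := by
  have hh := P.refl
  let U : AddSubgroup V :=
    { carrier := {x | x = 0 ∨ ∃ g : H, x ∈ rg (g * h * g⁻¹)}
      zero_mem' := Or.inl rfl
      neg_mem' := fun {x} hx => by rwa [neg_eq_self_of_two h2]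
      add_mem' := by
        rintro a b (rfl | ⟨g, hg⟩) hb
        · rwa [zero_add]
        rcases hb with rfl | ⟨g', hg'⟩
        · exact Or.inr ⟨g, by rwa [add_zero]⟩
        set p := g * h * g⁻¹ with hp
        set p' := g' * h * g'⁻¹ with hp'
        by_cases hpp : p = p'
        · exact Or.inr ⟨g, (rg p).add_mem hg (hpp ▸ hg')⟩
        by_cases hab : a + b = 0
        · exact Or.inl hab
        have hpR : IsRefl V p := hh.conj g
        have hpR' : IsRefl V p' := hh.conj g'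
        have hp2 := hpR.mul_self hB
        have hp2' := hpR'.mul_self hB
        have hodd : Odd (orderOf (p * p')) := by
          have e : p' = (g' * g⁻¹) * p * (g' * g⁻¹)⁻¹ := by rw [hp, hp']; group
          rw [e]; exact hpR.odd_orderOf_mul hB h2 hirr _
        have hne : p * p' ≠ 1 := fun e => hpp (by
          rw [← inv_eq_of_mul_eq_one_right e, hpR.inv_eq hB])
        have Q : Pair V p (p * p') := ⟨hpR, hne, hodd, inverts_mul_left hp2 hp2'⟩
        have Q' : Pair V p' (p * p') := ⟨hpR', hne, hodd, inverts_mul_right hp2 hp2'⟩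
        have hS : a + b ∈ rg (p * p') :=
          (rg _).add_mem (Q.rg_le hB h2 hg) (Q'.rg_le hB h2 hg')
        obtain ⟨l, hl, hlD, hlab⟩ := Q.exists_cover hB h2
          fun hd => hab (eq_zero_of_mem_fx_rg h2 hodd hd hS)
        have hlrg : a + b ∈ rg l := ((Q.of_refl hB h2 hl hlD).mem_rg_iff hB h2).2 ⟨hlab, hS⟩
        by_cases he : fx p = (fx l : AddSubgroup V)
        · have hpl := Q.eq_of_fx_eq hB h2 hpR (Q.fx_le hB h2) hl he
          exact Or.inr ⟨g, by rw [← hp, hpl]; exact hlrg⟩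
        · obtain ⟨c, -, hc⟩ := Q.exists_conj hB h2 hpR (Q.fx_le hB h2) hl hlD he
          exact Or.inr ⟨c * g, by
            rw [show c * g * h * (c * g)⁻¹ = c * p * c⁻¹ by rw [hp]; group, hc]; exact hlrg⟩ }
  have hU : U = ⊤ := by
    refine (hirr U fun g x hx => ?_).resolve_left fun hU => ?_
    · rcases hx with rfl | ⟨c, hc⟩
      · exact Or.inl (smul_zero g)
      · exact Or.inr ⟨g * c, by
          rw [show g * c * h * (g * c)⁻¹ = g * (c * h * c⁻¹) * g⁻¹ by group]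
          exact smul_mem_rg_conj hc⟩
    · obtain ⟨e, he, he0⟩ := hh.exists_rg_ne_zero hB h2
      have : e ∈ U := Or.inr ⟨1, by simpa using he⟩
      rw [hU] at this
      exact he0 (AddSubgroup.mem_bot.1 this)
  rw [AddSubgroup.eq_bot_iff_forall]
  intro x hx
  by_contra hx0
  rcases (show x ∈ U by rw [hU]; exact AddSubgroup.mem_top x) with h0 | ⟨g, hg⟩
  · exact hx0 h0
  have hc := (hh.conj g).commute_of_mem_fx hB hx0 hg (P.fx_le hB h2 hx)
  rw [hh.eq_of_commute_conj hB h2 hirr g hc] at hg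
  exact hx0 (eq_zero_of_mem_fx_rg h2 P.odd hx (P.rg_le hB h2 hg))

end Even

/-- The characteristic two case of the classification of binary affine primitive groups. -/
theorem isPlane_or_of_two {V : Type} [AddCommGroup V] [Finite V] {H : Type*} [Group H] [Finite H]
    [DistribMulAction H V] [FaithfulSMul H V] (h2 : ∀ v : V, v + v = 0) (hB : IsBinary H V)
    (hirr : ∀ U : AddSubgroup V, (∀ g : H, ∀ v ∈ U, g • v ∈ U) → U = ⊥ ∨ U = ⊤) [Nontrivial V] :
    Nat.card H ≤ 2 ∨ IsPlane H V 2 := by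
  classical
  by_cases htriv : ∀ g : H, g = 1
  · haveI : Subsingleton H := ⟨fun a b => (htriv a).trans (htriv b).symm⟩
    exact Or.inl (Finite.card_le_one_iff_subsingleton.2 inferInstance |>.trans one_le_two)
  push Not at htriv
  haveI : Nonempty {g : H // g ≠ 1} := ⟨⟨htriv.choose, htriv.choose_spec⟩⟩
  obtain ⟨⟨h, hh1⟩, hmax⟩ :=
    Finite.exists_max fun g : {g : H // g ≠ 1} => Nat.card (fx (g : H) : AddSubgroup V)
  have hh : IsRefl V h := ⟨hh1, fun k hk => hmax ⟨k, hk⟩⟩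
  obtain ⟨u, P⟩ := exists_pair hB h2 hirr hh
  have hD := fx_eq_bot hB h2 hirr P
  have hall : ∀ g : H, fx u ≤ (fx g : AddSubgroup V) := fun g => hD ▸ bot_le
  have hnD : ∀ v : V, v ≠ 0 → v ∉ fx u := fun v hv hv' => hv (by rwa [hD] at hv')
  obtain ⟨m, hm⟩ := exists_card_eq_two_pow h2 (rg h : AddSubgroup V)
  obtain ⟨e, he, he0⟩ := hh.exists_rg_ne_zero hB h2
  have hq1 : 1 < Nat.card (rg h : AddSubgroup V) :=
    Finite.one_lt_card_iff_nontrivial.2 ⟨⟨e, he⟩, 0, fun c => he0 (congrArg Subtype.val c)⟩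
  have hV : Nat.card V = (2 ^ m) ^ 2 := by
    rw [← card_fx_mul_card_rg u, hD, AddSubgroup.card_bot, one_mul,
      (P.structure_eqs hB h2).2.2, hm, pow_two]
  have hW : ∀ r : H, IsRefl V r → Nat.card (fx r : AddSubgroup V) = 2 ^ m := fun r hr => by
    rw [hr.card_fx_eq hh, P.card_fx_refl hB h2 hh, hD, AddSubgroup.card_bot, one_mul, hm]
  refine Or.inr ⟨m, {r | IsRefl V r}, ?_, hV, fun r hr => hr.mul_self hB, fun h1 => h1.1 rfl, ?_,
    fun g hg v hv hgv => P.refl_of_fx hB h2 hg (hall g) hgv (hnD v hv),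
    fun r hr => ?_, fun g hg a ha => ?_, fun a ha b hb hab => ?_⟩
  · rcases m with _ | m
    · rw [pow_zero] at hm; omega
    · omega
  · -- partition of the nonzero vectors by the fixed lines of the reflections
    let φ : (Σ r : {r : H | IsRefl V r}, {w : (fx (r : H) : AddSubgroup V) // w ≠ 0}) →
        {v : V // v ≠ 0} := fun x => ⟨(x.2.1 : V), fun e => x.2.2 (Subtype.ext e)⟩
    have hφ : Function.Bijective φ := by
      constructor
      · rintro ⟨⟨r, hr⟩, ⟨w, hw⟩, hw0⟩ ⟨⟨r', hr'⟩, ⟨w', hw'⟩, hw0'⟩ e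
        obtain rfl : w = w' := congrArg Subtype.val e
        obtain rfl : r = r' := P.eq_of_mem hB h2 hr (hall r) hr' (hall r') hw hw'
          (hnD w fun e => hw0 (Subtype.ext e))
        rfl
      · rintro ⟨v, hv⟩
        obtain ⟨r, hr, -, hvr⟩ := P.exists_cover hB h2 (hnD v hv)
        exact ⟨⟨⟨r, hr⟩, ⟨v, hvr⟩, fun e => hv (congrArg Subtype.val e)⟩, rfl⟩
    have hsub : ∀ (α : Type) [Finite α] (a : α), Nat.card {x : α // x ≠ a} = Nat.card α - 1 := by
      intro α _ a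
      haveI := Fintype.ofFinite α
      rw [Nat.card_eq_fintype_card, Nat.card_eq_fintype_card, Fintype.card_subtype_compl,
        Fintype.card_subtype_eq]
    haveI := Fintype.ofFinite {r : H | IsRefl V r}
    have h1 := Nat.card_congr (Equiv.ofBijective φ hφ)
    rw [hsub V 0, hV, Nat.card_sigma] at h1
    simp only [hsub] at h1
    rw [Finset.sum_congr rfl (fun (r : {r : H | IsRefl V r}) _ => by rw [hW r r.2]),
      Finset.sum_const, Finset.card_univ, ← Nat.card_eq_fintype_card, smul_eq_mul] at h1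
    have hq : 2 ≤ 2 ^ m := by omega
    obtain ⟨t, ht⟩ : ∃ t, 2 ^ m = t + 2 := ⟨2 ^ m - 2, by omega⟩
    rw [ht] at h1 ⊢
    simp only [show t + 2 - 1 = t + 1 from rfl] at h1
    have h3 : (t + 2) ^ 2 - 1 = (t + 3) * (t + 1) := by
      have : (t + 2) ^ 2 = (t + 3) * (t + 1) + 1 := by ring
      omega
    rw [h3] at h1
    exact Nat.eq_of_mul_eq_mul_right (Nat.succ_pos t) h1
  · obtain ⟨e, he, he0⟩ := hr.exists_rg_ne_zero hB h2
    exact ⟨e, he0, hr.rg_le_fx hB h2 he⟩
  · by_cases hg1 : g = 1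
    · rw [hg1, one_mul]; exact ha
    · exact P.refl_mul hB h2 (hall g) hg1 hg ha (hall a)
  · have hc := commute_of_mul_sq (ha.mul_self hB) (hb.mul_self hB) (hab.mul_self hB)
    have e := hb.fx_eq_of_le ha.1 (P.fx_le_of_commute hB h2 hb (hall b) (hall a) hc)
    have eq := P.eq_of_fx_eq hB h2 hb (hall b) ha e
    exact hab.1 (by rw [eq, ha.mul_self hB])

end CfsgLib.BinaryAffine
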