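import Cfsg.Agent.Lib.BinaryAffine.Basic

/-!
# Binary affine groups in odd characteristic: reflections
-/

set_option linter.unusedSectionVars false

namespace CfsgLib.BinaryAffine

variable {V : Type} [AddCommGroup V] [Finite V] {H : Type*} [Group H] [DistribMulAction H V]
  [FaithfulSMul H V]

/-- The standing hypotheses in odd characteristic. -/
structure OddHyp (H : Type*) (V : Type) [Group H] [AddCommGroup V] [DistribMulAction H V] (p : ℕ) :
    Prop where
  bin : IsBinary H V
  prime : p.Prime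
  ne_two : p ≠ 2
  exp : ∀ v : V, p • v = 0

namespace OddHyp

variable {p : ℕ} (hO : OddHyp H V p)
include hO

theorem two (v : V) (h : v + v = 0) : v = 0 := by
  have h1 : addOrderOf v ∣ p := addOrderOf_dvd_of_nsmul_eq_zero (hO.exp v)
  have h2 : addOrderOf v ∣ 2 := addOrderOf_dvd_of_nsmul_eq_zero (by rw [two_nsmul]; exact h)
  have h3 : addOrderOf v ∣ Nat.gcd p 2 := Nat.dvd_gcd h1 h2
  rw [(Nat.coprime_primes hO.prime Nat.prime_two).2 hO.ne_two, Nat.dvd_one] at h3
  exact AddMonoid.addOrderOf_eq_one_iff.1 h3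

theorem eq_zero_of_eq_neg {v : V} (h : v = -v) : v = 0 :=
  hO.two v (eq_neg_iff_add_eq_zero.1 h)

theorem exists_half (v : V) : ∃ w : V, w + w = v := by
  have hinj : Function.Injective fun w : V => w + w := fun a b hab => by
    change a + a = b + b at hab
    refine sub_eq_zero.1 (hO.two _ ?_)
    linear_combination (norm := abel) hab
  exact Finite.surjective_of_injective hinj v

/-- No three collinear equidistant points lie in one orbit. -/
theorem orbit_line {y d : V} {g k : H} (hg : g • y = y + d) (hk : k • (y + d) = y + d + d) :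
    d = 0 := by
  obtain ⟨s, hs1, hs2⟩ := hO.bin.exists_swap (v := y) (w := y + d) ⟨g, hg⟩
  rw [smul_add, hs1] at hs2
  have hsd : s • d = -d := by linear_combination (norm := abel) hs2
  obtain ⟨σ, hσd, hσ⟩ := hO.bin.exists_shift_neg d {y + d, y + d + d} ⟨s, hsd⟩ (by
    rintro x (rfl | rfl)
    · exact ⟨g⁻¹, by rw [inv_smul_eq_iff, add_sub_cancel_right, hg]⟩
    · exact ⟨k⁻¹, by rw [inv_smul_eq_iff, add_sub_cancel_right, hk]⟩)
  have h1 := hσ (y + d) (Or.inl rfl)
  have h2 := hσ (y + d + d) (Or.inr rfl)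
  rw [smul_add σ (y + d) d, h1, hσd] at h2
  exact hO.two d (by linear_combination (norm := abel) -h2)

/-- There are no quadratic unipotent elements. -/
theorem smul_eq_of_sq {g : H} {v : V} (h : g • (g • v - v) = g • v - v) : g • v = v := by
  refine sub_eq_zero.1 (hO.orbit_line (y := v) (d := g • v - v) (g := g) (k := g) (by abel) ?_)
  rw [smul_add, h]
  abel

theorem fx_inf_rg {g : H} {x : V} (hx : x ∈ fx g) (hx' : x ∈ rg g) : x = 0 := by
  obtain ⟨v, rfl⟩ := mem_rg.1 hx'
  exact sub_eq_zero.2 (hO.smul_eq_of_sq hx)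

/-- `p` does not divide the order of `H`. -/
theorem not_dvd_card [Finite H] [Nontrivial V] : ¬ p ∣ Nat.card H := by
  intro hdvd
  have := Fact.mk hO.prime
  obtain ⟨g, hg⟩ := exists_prime_orderOf_dvd_card' p hdvd
  let φ : H →* AddMonoid.End V := DistribMulAction.toAddMonoidEnd H V
  have h0 : (p : AddMonoid.End V) = 0 := by
    ext v
    exact hO.exp v
  have : Nontrivial (AddMonoid.End V) := by
    obtain ⟨v, hv⟩ := exists_ne (0 : V)
    exact ⟨1, 0, fun e => hv (DFunLike.congr_fun e v)⟩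
  have : CharP (AddMonoid.End V) p := (CharP.charP_iff_prime_eq_zero hO.prime).2 h0
  have hpow : (φ g - 1) ^ p = 0 := by
    rw [sub_pow_char_of_commute p (Commute.one_right _), ← map_pow, ← hg, pow_orderOf_eq_one,
      map_one, one_pow, sub_self]
  have key : ∀ k : ℕ, ∀ v : V, ((φ g - 1) ^ (k + 1)) v = 0 → (φ g - 1) v = 0 := by
    intro k
    induction k with
    | zero =>
      intro v hv
      rwa [pow_one] at hv
    | succ k ih =>
      intro v hv
      refine ih v ?_
      rw [pow_succ'] at hv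
      rw [pow_succ'] at hv ⊢
      change g • (g • (((φ g - 1) ^ k) v) - ((φ g - 1) ^ k) v)
        - (g • (((φ g - 1) ^ k) v) - ((φ g - 1) ^ k) v) = 0 at hv
      exact sub_eq_zero.2 (hO.smul_eq_of_sq (sub_eq_zero.1 hv))
  have hg1 : g = 1 := eq_one_of_fx_top fun v => sub_eq_zero.1 <| key (p - 1) v (by
    rw [Nat.sub_add_cancel hO.prime.one_le, hpow]
    rfl)
  rw [hg1, orderOf_one] at hg
  exact hO.prime.ne_one hg.symm

variable {h : H} (hh : IsRefl V h)
include hh

theorem mem_rg_of_smul_neg {x : V} (hx : h • x = -x) : x ∈ rg h := by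
  obtain ⟨w, rfl⟩ := hO.exists_half x
  rw [smul_add] at hx
  have h1 : h • w = -w := eq_neg_iff_add_eq_zero.2 (hO.two _ (by
    linear_combination (norm := abel) hx))
  exact mem_rg.2 ⟨-w, by rw [smul_neg, h1]; abel⟩

/-- `V` is the sum of the fixed and the moved space of a reflection. -/
theorem exists_decomp (v : V) : ∃ a ∈ fx h, ∃ b ∈ rg h, v = a + b := by
  obtain ⟨a, ha⟩ := hO.exists_half (v + h • v)
  have hfix : a ∈ fx h := by
    have h1 := mem_fx.1 (hh.add_smul_mem hO.bin v)
    rw [← ha, smul_add] at h1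
    refine mem_fx.2 (sub_eq_zero.1 (hO.two _ ?_))
    linear_combination (norm := abel) h1
  refine ⟨a, hfix, v - a, hO.mem_rg_of_smul_neg hh ?_, by abel⟩
  rw [smul_sub, mem_fx.1 hfix]
  linear_combination (norm := abel) -ha

theorem eq_zero_of_mem_fx_rg {x : V} (h1 : x ∈ fx h) (h2 : x ∈ rg h) : x = 0 :=
  hO.eq_zero_of_eq_neg ((mem_fx.1 h1).symm.trans (hh.smul_rg hO.bin h2))

theorem card_rg_mul_card_fx :
    Nat.card (rg h : AddSubgroup V) * Nat.card (fx h : AddSubgroup V) = Nat.card V := by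
  rw [card_rg_eq_index, AddSubgroup.index_mul_card]

theorem card_rg_eq {h' : H} (hh' : IsRefl V h') :
    Nat.card (rg h : AddSubgroup V) = Nat.card (rg h' : AddSubgroup V) := by
  have h1 := hO.card_rg_mul_card_fx hh
  rw [hh.card_fx_eq hh'] at h1
  exact Nat.eq_of_mul_eq_mul_right Nat.card_pos (h1.trans (hO.card_rg_mul_card_fx hh').symm)

theorem exists_ne_zero_rg : ∃ e ∈ (rg h : AddSubgroup V), e ≠ 0 := by
  by_contra hc
  push Not at hc
  exact hh.1 (eq_one_of_fx_top fun v => sub_eq_zero.1 (hc _ (mem_rg.2 ⟨v, rfl⟩)))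

/-- Distinct commuting reflections: each moves inside the fixed space of the other. -/
theorem rg_le_fx {k : H} (hk : IsRefl V k) (hne : h ≠ k) (hc : Commute h k) :
    rg k ≤ (fx h : AddSubgroup V) := by
  intro e he
  rcases hk.smul_rg_commute hO.bin hc he with h1 | h1
  · exact h1
  · by_cases he0 : e = 0
    · rw [he0]
      exact (fx h).zero_mem
    · exact absurd (hh.eq_of_mem_rg hO.bin hk he0 (hO.mem_rg_of_smul_neg hh h1) he) hne

/-- The fixed space of a product of two distinct reflections. -/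
theorem fx_mul_eq {k : H} (hk : IsRefl V k) (hne : h ≠ k) :
    fx (h * k) = (fx h ⊓ fx k : AddSubgroup V) := by
  ext x
  refine ⟨fun hx => ?_, fun hx => fx_le_fx_mul_inter hx.1 hx.2⟩
  rw [mem_fx, mul_smul] at hx
  have h1 : k • x = h • x := by
    conv_rhs => rw [← hx, hh.smul_smul_self hO.bin]
  have h2 : k • x - x = 0 := by
    by_contra h0
    exact hne (hh.eq_of_mem_rg hO.bin hk h0 (mem_rg.2 ⟨x, by rw [h1]⟩) (mem_rg.2 ⟨x, rfl⟩))
  have h3 : k • x = x := sub_eq_zero.1 h2
  exact ⟨mem_fx.2 (h1 ▸ h3), h3⟩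

theorem card_le_card_inf {k : H} (hk : IsRefl V k) :
    Nat.card V ≤ Nat.card (rg h : AddSubgroup V) ^ 2
      * Nat.card (fx h ⊓ fx k : AddSubgroup V) := by
  rw [← AddSubgroup.index_mul_card (fx h ⊓ fx k : AddSubgroup V)]
  refine Nat.mul_le_mul_right _ (AddSubgroup.index_inf_le.trans_eq ?_)
  rw [← card_rg_eq_index, ← card_rg_eq_index, ← hO.card_rg_eq hh hk, sq]

theorem card_inf_commute {k : H} (hk : IsRefl V k) (hne : h ≠ k) (hc : Commute h k) :
    Nat.card (rg h : AddSubgroup V) * Nat.card (fx h ⊓ fx k : AddSubgroup V)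
      = Nat.card (fx h : AddSubgroup V) := by
  have hle : Nat.card (rg k : AddSubgroup V) * Nat.card (fx h ⊓ fx k : AddSubgroup V)
      ≤ Nat.card (fx h : AddSubgroup V) :=
    card_mul_le_of_inf_eq_bot (hO.rg_le_fx hh hk hne hc) inf_le_left
      fun x hx hx' => hO.eq_zero_of_mem_fx_rg hk hx'.2 hx
  rw [← hO.card_rg_eq hh hk] at hle
  refine le_antisymm hle (Nat.le_of_mul_le_mul_left ?_ (Nat.card_pos
    (α := (rg h : AddSubgroup V))))
  have := hO.card_le_card_inf hh hk
  rw [← hO.card_rg_mul_card_fx hh] at this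
  calc _ ≤ _ := this
    _ = _ := by ring

/-- Conjugate commuting reflections have a common non-commuting neighbour. -/
theorem exists_neighbour_conj [Finite H] {g k : H} (hgk : g * h * g⁻¹ = k) (hne : h ≠ k)
    (hc : Commute h k) :
    ∃ l : H, IsRefl V l ∧ ¬ Commute l h ∧ ¬ Commute l k := by
  have hk : IsRefl V k := hgk ▸ hh.conj g
  obtain ⟨e, he, he0⟩ := hO.exists_ne_zero_rg hh
  obtain ⟨s, hs1, hs2⟩ := hO.bin.exists_swap (v := e) (w := g • e) ⟨g, rfl⟩
  have hge : g • e ∈ rg k := hgk ▸ smul_mem_rg_conj he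
  have hge0 : g • e ≠ 0 := by rwa [smul_ne_zero_iff_ne]
  have hsk : s * h * s⁻¹ = k := (hh.conj s).eq_of_mem_rg hO.bin hk hge0
    (hs1 ▸ smul_mem_rg_conj he) hge
  have hss : (s * s) • e = e := by rw [mul_smul, hs1, hs2]
  have hcs : Commute (s * s) h := hh.commute_of_smul_eq hO.bin he he0 hss
  have hsq : ∀ a ∈ (rg h : AddSubgroup V), s • s • a = a := by
    intro a ha
    rw [← mul_smul]
    rcases hh.smul_rg_commute hO.bin hcs ha with h1 | h1
    · exact h1
    · rcases hh.smul_rg_commute hO.bin hcs ((rg h).add_mem he ha) with h2 | h2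
      · rw [smul_add, hss] at h2
        exact add_left_cancel h2
      · rw [smul_add, hss, h1] at h2
        exact absurd (hO.eq_zero_of_eq_neg (v := e) (by linear_combination (norm := abel) h2)) he0
  have hrk : rg k ≤ (fx h : AddSubgroup V) := hO.rg_le_fx hh hk hne hc
  have hrh : rg h ≤ (fx k : AddSubgroup V) := hO.rg_le_fx hk hh hne.symm hc.symm
  have hneg : ∀ a ∈ (rg h : AddSubgroup V), (h * k) • a = -a := fun a ha => by
    rw [mul_smul, mem_fx.1 (hrh ha), hh.smul_rg hO.bin ha]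
  have hneg' : ∀ b ∈ (rg k : AddSubgroup V), (h * k) • b = -b := fun b hb => by
    rw [mul_smul, hk.smul_rg hO.bin hb, smul_neg, mem_fx.1 (hrk hb)]
  have hsmem : ∀ a ∈ (rg h : AddSubgroup V), s • a ∈ rg k := fun a ha =>
    hsk ▸ smul_mem_rg_conj ha
  let f : V →+ V := AddMonoidHom.id V - DistribSMul.toAddMonoidHom V s
  let A : AddSubgroup V := (rg h).map f
  set v := e + g • e with hvdef
  have hv0 : v ≠ 0 := fun h0 => he0 (hO.eq_zero_of_mem_fx_rg hh (by
    rw [eq_neg_of_add_eq_zero_left h0]; exact (fx h).neg_mem (hrk hge)) he)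
  obtain ⟨σ, hσv, hσ⟩ := hO.bin.exists_move (v := v) (w := -v)
    (((fx h ⊓ fx k : AddSubgroup V) : Set V) ∪ (A : Set V))
    ⟨h * k, by rw [smul_add, hneg e he, hneg' _ hge, hvdef]; abel⟩ (by
    rintro x (hx | hx)
    · refine ⟨h * k, ?_⟩
      rw [smul_sub, fx_le_fx_mul_inter hx.1 hx.2, hvdef, smul_add, hneg e he, hneg' _ hge]
      abel
    · obtain ⟨a, ha, rfl⟩ := AddSubgroup.mem_map.1 hx
      refine ⟨h * k * s, ?_⟩
      have h1 : s • (f a - v) = -(a - s • a) - (e + g • e) := by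
        change s • (a - s • a - v) = _
        rw [hvdef, smul_sub, smul_sub, smul_add, hsq a ha, hs1, hs2]
        abel
      rw [mul_smul, h1, smul_sub, smul_neg, smul_sub, smul_add, hneg a ha,
        hneg' _ (hsmem a ha), hneg e he, hneg' _ hge]
      change _ = a - s • a - -v
      rw [hvdef]
      abel)
  have hσ1 : σ ≠ 1 := fun c => hv0 (hO.eq_zero_of_eq_neg (by rw [← hσv, c, one_smul]))
  have hinjA : Nat.card A = Nat.card (rg h : AddSubgroup V) := by
    refine (Nat.card_congr (Equiv.ofBijective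
      (fun a : (rg h : AddSubgroup V) => (⟨f a, AddSubgroup.mem_map_of_mem f a.2⟩ : A)) ⟨?_, ?_⟩)).symm
    · rintro ⟨a, ha⟩ ⟨b, hb⟩ hab
      have h1 : a - s • a = b - s • b := congrArg Subtype.val hab
      refine Subtype.ext (sub_eq_zero.1 (hO.eq_zero_of_mem_fx_rg hh ?_ ((rg h).sub_mem ha hb)))
      have h2 : a - b = s • (a - b) := by
        rw [smul_sub]; linear_combination (norm := abel) h1
      rw [h2]
      exact hrk (hsmem _ ((rg h).sub_mem ha hb))
    · rintro ⟨x, hx⟩
      obtain ⟨a, ha, rfl⟩ := AddSubgroup.mem_map.1 hx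
      exact ⟨⟨a, ha⟩, rfl⟩
  have hσr : IsRefl V σ := by
    refine ⟨hσ1, fun l hl => (hh.2 l hl).trans ?_⟩
    rw [← hO.card_inf_commute hh hk hne hc, ← hinjA]
    refine card_mul_le_of_inf_eq_bot (fun x hx => hσ x (Or.inr hx))
      (fun x hx => hσ x (Or.inl hx)) fun x hx hx' => ?_
    obtain ⟨a, ha, rfl⟩ := AddSubgroup.mem_map.1 hx
    have h1 : h • (a - s • a) = a - s • a := hx'.1
    rw [smul_sub, hh.smul_rg hO.bin ha, mem_fx.1 (hrk (hsmem a ha))] at h1
    have ha0 : a = 0 := hO.eq_zero_of_eq_neg (by linear_combination (norm := abel) -h1)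
    simp [ha0]
  have hvr : v ∈ rg σ := hO.mem_rg_of_smul_neg hσr hσv
  refine ⟨σ, hσr, fun hc' => ?_, fun hc' => ?_⟩
  · rcases hσr.smul_rg_commute hO.bin hc'.symm hvr with h1 | h1 <;>
      rw [hvdef, smul_add, hh.smul_rg hO.bin he, mem_fx.1 (hrk hge)] at h1
    · exact he0 (hO.eq_zero_of_eq_neg (by linear_combination (norm := abel) -h1))
    · exact hge0 (hO.eq_zero_of_eq_neg (by linear_combination (norm := abel) h1))
  · rcases hσr.smul_rg_commute hO.bin hc'.symm hvr with h1 | h1 <;>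
      rw [hvdef, smul_add, hk.smul_rg hO.bin hge, mem_fx.1 (hrh he)] at h1
    · exact hge0 (hO.eq_zero_of_eq_neg (by linear_combination (norm := abel) -h1))
    · exact he0 (hO.eq_zero_of_eq_neg (by linear_combination (norm := abel) h1))

end OddHyp

end CfsgLib.BinaryAffine
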