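import Cfsg.Agent.Lib.BinaryAffine.OddPair

/-!
# Binary affine groups in odd characteristic: the moved spaces cover `V`

If the sum of moved vectors of two reflections fixing the common fixed space of a non-commuting pair is
again moved by such a reflection, then in an irreducible group every non-zero vector is moved by a
reflection.
-/

set_option linter.unusedSectionVars false

namespace CfsgLib.BinaryAffine

variable {V : Type} [AddCommGroup V] [Finite V] {H : Type*} [Group H] [DistribMulAction H V]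
  [FaithfulSMul H V]

namespace OddHyp

variable {p : ℕ}

/-- The sum property used to show that moved spaces cover. -/
def AddClosed (H : Type*) (V : Type) [Group H] [AddCommGroup V] [DistribMulAction H V] : Prop :=
  ∀ h k : H, IsRefl V h → IsRefl V k → ¬ Commute h k → ∀ a b : H, IsRefl V a → IsRefl V b →
    fx h ⊓ fx k ≤ (fx a : AddSubgroup V) → fx h ⊓ fx k ≤ (fx b : AddSubgroup V) →
    ∀ x ∈ (rg a : AddSubgroup V), ∀ y ∈ (rg b : AddSubgroup V),
      ∃ r : H, IsRefl V r ∧ fx h ⊓ fx k ≤ (fx r : AddSubgroup V) ∧ x + y ∈ rg r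

/-- Two commuting reflections with a common non-commuting neighbour: their moved vectors add up. -/
theorem add_mem_of_neighbour (hO : OddHyp H V p) (hadd : AddClosed H V) {i j k : H}
    (hi : IsRefl V i) (hj : IsRefl V j) (hk : IsRefl V k) (hne : i ≠ j) (hc : Commute i j)
    (hki : ¬ Commute k i) (hkj : ¬ Commute k j) {a b : V} (ha : a ∈ rg i) (hb : b ∈ rg j) :
    ∃ r : H, IsRefl V r ∧ a + b ∈ rg r := by
  have hik : ¬ Commute i k := fun h => hki h.symm
  by_cases ha0 : a = 0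
  · exact ⟨j, hj, by rwa [ha0, zero_add]⟩
  by_cases hb0 : b = 0
  · exact ⟨i, hi, by rwa [hb0, add_zero]⟩
  obtain ⟨c0, hc0, hjc0⟩ : ∃ c0 ∈ (rg k : AddSubgroup V), c0 ∉ fx j := by
    by_contra hcon
    push Not at hcon
    obtain ⟨e, he, he0⟩ := hO.exists_ne_zero_rg hk
    exact hkj (hk.commute_of_mem_fx hO.bin he0 he (hcon e he)).symm
  obtain ⟨w0, hw0, a0, ha0', hdec⟩ := hO.exists_decomp hi c0
  obtain ⟨l, hl, hlD, hlw⟩ := hadd i k hi hk hik k i hk hi inf_le_right inf_le_left c0 hc0 (-a0)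
    ((rg i).neg_mem ha0')
  have hw : c0 + -a0 = w0 := by rw [hdec]; abel
  rw [hw] at hlw
  have hrij : rg i ≤ (fx j : AddSubgroup V) := hO.rg_le_fx hj hi hne.symm hc.symm
  have hrji : rg j ≤ (fx i : AddSubgroup V) := hO.rg_le_fx hi hj hne hc
  have hwj : w0 ∉ fx j := fun h => hjc0 (hdec ▸ (fx j).add_mem h (hrij ha0'))
  have hw00 : w0 ≠ 0 := fun h => hwj (h ▸ (fx j).zero_mem)
  have hil : Commute i l := hl.commute_of_mem_fx hO.bin hw00 hlw hw0
  have hli : i ≠ l := fun e => hw00 (hO.eq_zero_of_mem_fx_rg hi hw0 (e ▸ hlw))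
  have hrli : rg l ≤ (fx i : AddSubgroup V) := hO.rg_le_fx hi hl hli hil
  by_cases hlj : l = j
  · obtain ⟨r, hr, -, hrm⟩ := hadd i k hi hk hik i j hi hj inf_le_left (hlj ▸ hlD) a ha b hb
    exact ⟨r, hr, hrm⟩
  have hjl : ¬ Commute j l := fun h => hwj (hO.rg_le_fx hj hl (Ne.symm hlj) h hlw)
  by_contra hcov
  have key : ∀ c ∈ (rg l : AddSubgroup V), c ≠ 0 → l • b = b - c - c := by
    intro c hcl hc0'
    obtain ⟨x, hx, -, hxm⟩ := hadd i k hi hk hik i l hi hl inf_le_left hlD a ha c hcl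
    obtain ⟨y, hy, -, hym⟩ :=
      hadd j l hj hl hjl j l hj hl inf_le_left inf_le_right b hb (-c) ((rg l).neg_mem hcl)
    have hsum : a + b = (a + c) + (b + -c) := by abel
    by_cases hxy : x = y
    · subst hxy
      exact absurd ⟨x, hx, hsum ▸ (rg x).add_mem hxm hym⟩ hcov
    by_cases hcxy : Commute x y
    swap
    · obtain ⟨r, hr, -, hrm⟩ :=
        hadd x y hx hy hcxy x y hx hy inf_le_left inf_le_right _ hxm _ hym
      exact absurd ⟨r, hr, hsum ▸ hrm⟩ hcov
    have hyac : a + c ∈ fx y := hO.rg_le_fx hy hx (Ne.symm hxy) hcxy.symm hxm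
    have hbc : b + -c ∈ fx i := (fx i).add_mem (hrji hb) ((fx i).neg_mem (hrli hcl))
    have hbc0 : b + -c ≠ 0 := fun h => by
      have hbl : b ∈ rg l := by rwa [add_neg_eq_zero.1 h]
      exact hlj (hl.eq_of_mem_rg hO.bin hj hb0 hbl hb)
    have hiy : Commute i y := hy.commute_of_mem_fx hO.bin hbc0 hym hbc
    have hiy' : i ≠ y := fun e => hbc0 (hO.eq_zero_of_mem_fx_rg hi hbc (e ▸ hym))
    have hya : a ∈ fx y := hO.rg_le_fx hy hi hiy'.symm hiy.symm ha
    have hyc : c ∈ fx y := by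
      have h1 := (fx y).sub_mem hyac hya
      rwa [add_sub_cancel_left] at h1
    have hyl : Commute y l := hl.commute_of_mem_fx hO.bin hc0' hcl hyc
    have hyl' : y ≠ l := fun e => hc0' (hO.eq_zero_of_mem_fx_rg hy hyc (e ▸ hcl))
    have h1 := mem_fx.1 (hO.rg_le_fx hl hy hyl'.symm hyl.symm hym)
    rw [smul_add, smul_neg, hl.smul_rg hO.bin hcl, neg_neg] at h1
    linear_combination (norm := abel) h1
  obtain ⟨c, hcl, hc0'⟩ := hO.exists_ne_zero_rg hl
  have h1 := key c hcl hc0'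
  have h2 := key (c + c) ((rg l).add_mem hcl hcl) fun h => hc0' (hO.two c h)
  rw [h1] at h2
  exact hc0' (hO.two c (by linear_combination (norm := abel) h2))

/-- Commuting reflections have a common non-commuting neighbour. -/
theorem exists_neighbour [Finite H] (hO : OddHyp H V p)
    (hirr : ∀ U : AddSubgroup V, (∀ g : H, ∀ v ∈ U, g • v ∈ U) → U = ⊥ ∨ U = ⊤)
    (hadd : AddClosed H V) {i j : H} (hi : IsRefl V i) (hj : IsRefl V j) (hne : i ≠ j)
    (hc : Commute i j) :
    ∃ k : H, IsRefl V k ∧ ¬ Commute k i ∧ ¬ Commute k j := by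
  by_cases hconj : ∃ g : H, g * i * g⁻¹ = j
  · obtain ⟨g, hg⟩ := hconj
    exact hO.exists_neighbour_conj hi hg hne hc
  obtain ⟨g, hg⟩ : ∃ g : H, ¬ Commute (g * j * g⁻¹) i := by
    by_contra hcon
    push Not at hcon
    let U : AddSubgroup V :=
      { carrier := {v | ∀ g : H, g • v ∈ fx i}
        add_mem' := fun {x y} hx hy g => by rw [smul_add]; exact (fx i).add_mem (hx g) (hy g)
        zero_mem' := fun g => by rw [smul_zero]; exact (fx i).zero_mem
        neg_mem' := fun {x} hx g => by rw [smul_neg]; exact (fx i).neg_mem (hx g) }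
    obtain ⟨e, he, he0⟩ := hO.exists_ne_zero_rg hj
    have heU : e ∈ U := fun g => by
      refine hO.rg_le_fx hi (hj.conj g) (fun e' => hconj ⟨g⁻¹, ?_⟩) (hcon g).symm
        (smul_mem_rg_conj he)
      rw [e']
      group
    rcases hirr U (fun g v hv g' => by rw [← mul_smul]; exact hv (g' * g)) with h | h
    · rw [h] at heU
      exact he0 heU
    · refine hi.1 (eq_one_of_fx_top (V := V) fun v => ?_)
      have hv : v ∈ U := h ▸ AddSubgroup.mem_top v
      have := hv 1
      rw [one_smul] at this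
      exact this
  set j' := g * j * g⁻¹ with hj'
  have hj'r : IsRefl V j' := hj.conj g
  by_cases hjj : Commute j j'
  swap
  · exact ⟨j', hj'r, hg, fun h => hjj h.symm⟩
  have hne' : j ≠ j' := fun e => hg (e ▸ hc.symm)
  obtain ⟨k, hk, hkj, hkj'⟩ := hO.exists_neighbour_conj hj hj'.symm hne' hjj
  by_cases hki : Commute k i
  swap
  · exact ⟨k, hk, hki, hkj⟩
  have hik : i ≠ k := fun e => hkj (e ▸ hc)
  obtain ⟨a, ha, ha0⟩ := hO.exists_ne_zero_rg hi
  obtain ⟨c, hcm, hc0⟩ := hO.exists_ne_zero_rg hk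
  obtain ⟨x, hx, hxm⟩ :=
    hO.add_mem_of_neighbour hadd hi hk hj'r hik hki.symm hg (fun h => hkj' h.symm) ha hcm
  have hxi : ¬ Commute x i := by
    intro h
    by_cases hxi' : x = i
    · subst hxi'
      have h1 := (rg x).sub_mem hxm ha
      rw [add_sub_cancel_left] at h1
      exact hik (hi.eq_of_mem_rg hO.bin hk hc0 h1 hcm)
    · have h1 := mem_fx.1 (hO.rg_le_fx hi hx (Ne.symm hxi') h.symm hxm)
      rw [smul_add, hi.smul_rg hO.bin ha,
        mem_fx.1 (hO.rg_le_fx hi hk hik hki.symm hcm)] at h1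
      exact ha0 (hO.eq_zero_of_eq_neg (add_right_cancel h1).symm)
  refine ⟨x, hx, hxi, fun h => ?_⟩
  have hxj : j ≠ x := fun e => hxi (e ▸ hc.symm)
  have h1 := (fx j).sub_mem (hO.rg_le_fx hj hx hxj h.symm hxm)
    (hO.rg_le_fx hj hi hne.symm hc.symm ha)
  rw [add_sub_cancel_left] at h1
  exact hkj (hk.commute_of_mem_fx hO.bin hc0 hcm h1).symm

/-- In an irreducible group with the sum property every non-zero vector is moved by a reflection. -/
theorem exists_refl_rg_of_cover [Finite H] (hO : OddHyp H V p)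
    (hirr : ∀ U : AddSubgroup V, (∀ g : H, ∀ v ∈ U, g • v ∈ U) → U = ⊥ ∨ U = ⊤)
    (hex : ∃ h : H, IsRefl V h)
    (hadd : ∀ h k : H, IsRefl V h → IsRefl V k → ¬ Commute h k → ∀ a b : H, IsRefl V a → IsRefl V b →
      fx h ⊓ fx k ≤ (fx a : AddSubgroup V) → fx h ⊓ fx k ≤ (fx b : AddSubgroup V) →
      ∀ x ∈ (rg a : AddSubgroup V), ∀ y ∈ (rg b : AddSubgroup V),
        ∃ r : H, IsRefl V r ∧ fx h ⊓ fx k ≤ (fx r : AddSubgroup V) ∧ x + y ∈ rg r) :
    ∀ v : V, v ≠ 0 → ∃ r : H, IsRefl V r ∧ v ∈ rg r := by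
  obtain ⟨h, hh⟩ := hex
  let U : AddSubgroup V :=
    { carrier := {v | ∃ r : H, IsRefl V r ∧ v ∈ rg r}
      zero_mem' := ⟨h, hh, (rg h).zero_mem⟩
      neg_mem' := fun {x} ⟨r, hr, hx⟩ => ⟨r, hr, (rg r).neg_mem hx⟩
      add_mem' := fun {x y} ⟨i, hi, hx⟩ ⟨j, hj, hy⟩ => by
        by_cases hij : i = j
        · subst hij
          exact ⟨i, hi, (rg i).add_mem hx hy⟩
        by_cases hc : Commute i j
        · obtain ⟨k, hk, hki, hkj⟩ := hO.exists_neighbour hirr hadd hi hj hij hc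
          exact hO.add_mem_of_neighbour hadd hi hj hk hij hc hki hkj hx hy
        · obtain ⟨r, hr, -, hm⟩ :=
            hadd i j hi hj hc i j hi hj inf_le_left inf_le_right x hx y hy
          exact ⟨r, hr, hm⟩ }
  intro v _
  rcases hirr U (fun g v ⟨r, hr, hv⟩ => ⟨g * r * g⁻¹, hr.conj g, smul_mem_rg_conj hv⟩) with hU | hU
  · exfalso
    obtain ⟨e, he, he0⟩ := hO.exists_ne_zero_rg hh
    have : e ∈ U := ⟨h, hh, he⟩
    rw [hU] at this
    exact he0 this
  · exact (hU ▸ AddSubgroup.mem_top v : v ∈ U)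

end OddHyp

end CfsgLib.BinaryAffine
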