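import Cfsg.Agent.Lib.BinaryAffine.OddBasic

/-!
# Binary affine groups: the absence of polarities

If the moved spaces of the reflections cover `V` and the fixed spaces of two reflections meet in
codimension twice that of one, then two fixed spaces meet in zero.
-/

set_option linter.unusedSectionVars false

namespace CfsgLib.BinaryAffine

variable {V : Type} [AddCommGroup V] [Finite V] {H : Type*} [Group H] [DistribMulAction H V]
  [FaithfulSMul H V]

namespace OddHyp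

variable {p : ℕ} (hO : OddHyp H V p)
include hO

theorem dvd_card_of_ne_zero {A : AddSubgroup V} {x : V} (hx : x ∈ A) (hx0 : x ≠ 0) :
    p ∣ Nat.card A := by
  have h1 : addOrderOf x = p := by
    rcases (Nat.dvd_prime hO.prime).1 (addOrderOf_dvd_of_nsmul_eq_zero (hO.exp x)) with h1 | h1
    · exact absurd (AddMonoid.addOrderOf_eq_one_iff.1 h1) hx0
    · exact h1
  have h2 : addOrderOf (⟨x, hx⟩ : A) = p := by
    rw [← h1, AddSubgroup.addOrderOf_mk]
  rw [← h2]
  exact addOrderOf_dvd_natCard _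

theorem rg_le_fx_iff {a b : H} (ha : IsRefl V a) (hb : IsRefl V b) :
    rg b ≤ (fx a : AddSubgroup V) ↔ a ≠ b ∧ Commute a b := by
  refine ⟨fun hle => ?_, fun hab => hO.rg_le_fx ha hb hab.1 hab.2⟩
  obtain ⟨e, he, he0⟩ := hO.exists_ne_zero_rg hb
  refine ⟨fun c => he0 ?_, hb.commute_of_mem_fx hO.bin he0 he (hle he)⟩
  subst c
  exact hO.eq_zero_of_mem_fx_rg ha (hle he) he

theorem rg_le_fx_of_mem {a b : H} (ha : IsRefl V a) (hb : IsRefl V b) {x : V} (hx0 : x ≠ 0)
    (hx : x ∈ rg b) (hx' : x ∈ fx a) : rg b ≤ (fx a : AddSubgroup V) := by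
  refine hO.rg_le_fx ha hb (fun c => hx0 ?_) (hb.commute_of_mem_fx hO.bin hx0 hx hx')
  subst c
  exact hO.eq_zero_of_mem_fx_rg ha hx' hx

theorem card_sub_one [Finite H] (hcover : ∀ v : V, v ≠ 0 → ∃ r : H, IsRefl V r ∧ v ∈ rg r)
    {h : H} (hh : IsRefl V h) (A : AddSubgroup V)
    (hA : ∀ r : H, IsRefl V r → ∀ x ∈ A, x ≠ 0 → x ∈ rg r → rg r ≤ A) :
    Nat.card A - 1 = Nat.card {r : {r : H // IsRefl V r} // rg r.1 ≤ A}
      * (Nat.card (rg h : AddSubgroup V) - 1) := by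
  classical
  have := Fintype.ofFinite V
  have := Fintype.ofFinite H
  have hsub : ∀ B : AddSubgroup V, Nat.card {x : B // x ≠ 0} = Nat.card B - 1 := fun B => by
    rw [Nat.card_eq_fintype_card, Nat.card_eq_fintype_card, Fintype.card_subtype_compl,
      Fintype.card_subtype_eq]
  let f : (Σ r : {r : {r : H // IsRefl V r} // rg r.1 ≤ A},
      {x : (rg r.1.1 : AddSubgroup V) // x ≠ 0}) → {x : A // x ≠ 0} :=
    fun y => ⟨⟨y.2.1.1, y.1.2 y.2.1.2⟩, fun c => y.2.2 (Subtype.ext (congrArg Subtype.val c : (y.2.1.1 : V) = 0))⟩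
  have hf : Function.Bijective f := by
    refine ⟨?_, ?_⟩
    · rintro ⟨⟨⟨r, hr⟩, hrA⟩, ⟨⟨x, hx⟩, hx0⟩⟩ ⟨⟨⟨s, hs⟩, hsA⟩, ⟨⟨y, hy⟩, hy0⟩⟩ hxy
      obtain rfl : x = y := congrArg (fun z : {x : A // x ≠ 0} => (z.1 : V)) hxy
      obtain rfl : r = s :=
        hr.eq_of_mem_rg hO.bin hs (fun c => hx0 (Subtype.ext c)) hx hy
      rfl
    · rintro ⟨⟨x, hx⟩, hx0⟩
      have hx0' : x ≠ 0 := fun c => hx0 (Subtype.ext c)
      obtain ⟨r, hr, hxr⟩ := hcover x hx0'
      exact ⟨⟨⟨⟨r, hr⟩, hA r hr x hx hx0' hxr⟩, ⟨⟨x, hxr⟩, fun c => hx0' (congrArg Subtype.val c)⟩⟩,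
        rfl⟩
  rw [← hsub A, ← Nat.card_congr (Equiv.ofBijective f hf), Nat.card_sigma]
  simp_rw [hsub]
  rw [Finset.sum_congr rfl fun r _ => by rw [hO.card_rg_eq r.1.2 hh], Finset.sum_const,
    Finset.card_univ, smul_eq_mul]
  simp only [Nat.card_eq_fintype_card]

theorem fx_inf_eq_bot_of_cover [Finite H]
    (hcover : ∀ v : V, v ≠ 0 → ∃ r : H, IsRefl V r ∧ v ∈ rg r)
    (hinf : ∀ a b : H, IsRefl V a → IsRefl V b → a ≠ b →
      Nat.card V = Nat.card (rg a : AddSubgroup V) ^ 2 * Nat.card (fx a ⊓ fx b : AddSubgroup V))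
    {h k : H} (hh : IsRefl V h) (hk : IsRefl V k) (hne : h ≠ k) :
    fx h ⊓ fx k = (⊥ : AddSubgroup V) := by
  classical
  have := Fintype.ofFinite V
  have := Fintype.ofFinite H
  have := Fact.mk hO.prime
  by_contra hb
  obtain ⟨x, hx, hx0⟩ := (AddSubgroup.bot_or_exists_ne_zero _).resolve_left hb
  obtain ⟨e, he, he0⟩ := hO.exists_ne_zero_rg hh
  set q := Nat.card (rg h : AddSubgroup V) with hq
  have hpq : (q : ZMod p) = 0 :=
    (ZMod.natCast_eq_zero_iff _ p).2 (hO.dvd_card_of_ne_zero he he0)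
  -- the cardinalities modulo `p`
  have hcnt : ∀ A : AddSubgroup V, p ∣ Nat.card A →
      (∀ r : H, IsRefl V r → ∀ y ∈ A, y ≠ 0 → y ∈ rg r → rg r ≤ A) →
      (Nat.card {r : {r : H // IsRefl V r} // rg r.1 ≤ A} : ZMod p) = 1 := by
    intro A hpA hA
    have h1 := congrArg (Nat.cast (R := ZMod p)) (hO.card_sub_one hcover hh A hA)
    rw [← hq, Nat.cast_mul, Nat.cast_sub Nat.card_pos, Nat.cast_sub (hq ▸ Nat.card_pos),
      (ZMod.natCast_eq_zero_iff _ p).2 hpA, hpq] at h1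
    linear_combination h1
  have hV : (Fintype.card {r : H // IsRefl V r} : ZMod p) = 1 := by
    have hp : p ∣ Nat.card (⊤ : AddSubgroup V) :=
      hO.dvd_card_of_ne_zero (AddSubgroup.mem_top x) hx0
    rw [← hcnt ⊤ hp (fun _ _ _ _ _ _ => le_top), Nat.card_eq_fintype_card]
    exact congrArg _ (Fintype.card_congr (Equiv.subtypeUnivEquiv fun _ => le_top).symm)
  have hinf2 : ∀ a b : {r : H // IsRefl V r}, p ∣ Nat.card (fx a.1 ⊓ fx b.1 : AddSubgroup V) := by
    intro a b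
    by_cases hab : a.1 = b.1
    · rw [hab, inf_idem, b.2.card_fx_eq hh]
      exact hO.dvd_card_of_ne_zero hx.1 hx0
    · have h1 := hinf a.1 b.1 a.2 b.2 hab
      rw [hinf h k hh hk hne, hO.card_rg_eq a.2 hh] at h1
      rw [← Nat.eq_of_mul_eq_mul_left (pow_pos Nat.card_pos 2) h1]
      exact hO.dvd_card_of_ne_zero hx hx0
  let M : Matrix {r : H // IsRefl V r} {r : H // IsRefl V r} (ZMod p) :=
    Matrix.of fun a b => if rg b.1 ≤ (fx a.1 : AddSubgroup V) then 1 else 0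
  let J : Matrix {r : H // IsRefl V r} {r : H // IsRefl V r} (ZMod p) := Matrix.of fun _ _ => 1
  have hsym : ∀ a b, M a b = M b a := by
    intro a b
    simp only [M, Matrix.of_apply, hO.rg_le_fx_iff a.2 b.2, hO.rg_le_fx_iff b.2 a.2]
    exact if_congr ⟨fun c => ⟨c.1.symm, c.2.symm⟩, fun c => ⟨c.1.symm, c.2.symm⟩⟩ rfl rfl
  have hrow : ∀ a, ∑ b, M a b = 1 := by
    intro a
    simp only [M, Matrix.of_apply]
    rw [Finset.sum_boole, ← Fintype.card_subtype, ← Nat.card_eq_fintype_card]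
    refine hcnt _ (by simpa using hinf2 a a) fun r hr y hy hy0 hyr => ?_
    exact hO.rg_le_fx_of_mem a.2 hr hy0 hyr hy
  have hMM : M * M = J := by
    ext a b
    rw [Matrix.mul_apply, Finset.sum_congr rfl fun c _ => by rw [hsym c b]]
    simp only [M, J, Matrix.of_apply, ite_zero_mul_ite_zero, mul_one]
    rw [Finset.sum_boole, ← Fintype.card_subtype, ← Nat.card_eq_fintype_card]
    refine (congrArg _ (Nat.card_congr (Equiv.subtypeEquivRight fun c => le_inf_iff.symm))).trans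
      (hcnt _ (hinf2 a b) fun r hr y hy hy0 hyr => ?_)
    exact le_inf (hO.rg_le_fx_of_mem a.2 hr hy0 hyr hy.1) (hO.rg_le_fx_of_mem b.2 hr hy0 hyr hy.2)
  have hMJ : M * J = J := by
    ext a b
    simpa [Matrix.mul_apply, J] using hrow a
  have hJM : J * M = J := by
    ext a b
    simp only [Matrix.mul_apply, J, Matrix.of_apply, one_mul]
    rw [Finset.sum_congr rfl fun c _ => hsym c b]
    exact hrow b
  have hJJ : J * J = J := by
    ext a b
    simp [Matrix.mul_apply, J, hV]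
  have hnil : IsNilpotent (M - J) := ⟨2, by rw [pow_two, sub_mul, mul_sub, mul_sub, hMM, hMJ, hJM, hJJ]; abel⟩
  have htr := (Matrix.isNilpotent_trace_of_isNilpotent hnil).eq_zero
  have hM0 : M.trace = 0 := by
    refine Finset.sum_eq_zero fun a _ => ?_
    simp only [Matrix.diag_apply, M, Matrix.of_apply]
    exact if_neg fun c => ((hO.rg_le_fx_iff a.2 a.2).1 c).1 rfl
  have hJ1 : J.trace = 1 := by simp [Matrix.trace, J, hV]
  rw [Matrix.trace_sub, hM0, hJ1, zero_sub, neg_eq_zero] at htr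
  exact one_ne_zero htr

end OddHyp

end CfsgLib.BinaryAffine
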