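import Cfsg.Agent.Lib.BinaryAffine.OddSpan
import Cfsg.Agent.Lib.BinaryAffine.OddCover
import Cfsg.Agent.Lib.BinaryAffine.Polarity

/-!
# Binary affine groups in odd characteristic: `H` is the orthogonal group of an anisotropic plane
-/

set_option linter.unusedSectionVars false

namespace CfsgLib.BinaryAffine

variable {V : Type} [AddCommGroup V] [Finite V] {H : Type*} [Group H] [DistribMulAction H V]
  [FaithfulSMul H V]

theorem isPlane_or_of_odd [Finite H] {p : ℕ} (hO : OddHyp H V p)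
    (hirr : ∀ U : AddSubgroup V, (∀ g : H, ∀ v ∈ U, g • v ∈ U) → U = ⊥ ∨ U = ⊤) :
    Nat.card H ≤ 2 ∨ IsPlane H V p := by
  classical
  rcases hO.exists_noncommute hirr with h2 | ⟨h, k, hh, hk, hnc⟩
  · exact Or.inl h2
  right
  have hP := hO.maxPair hh hk hnc
  have hinf : ∀ a b : H, IsRefl V a → IsRefl V b → a ≠ b →
      Nat.card V = Nat.card (rg a : AddSubgroup V) ^ 2 * Nat.card (fx a ⊓ fx b : AddSubgroup V) := by
    intro a b ha hb hne
    by_cases hc : Commute a b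
    · rw [← hO.card_rg_mul_card_fx ha, ← hO.card_inf_commute ha hb hne hc]
      ring
    · exact (hO.card_eq_and_exists_rg (hO.maxPair ha hb hc)).1
  have hcover := hO.exists_refl_rg_of_cover hirr ⟨h, hh⟩
    (fun a b ha hb hab i j hi hj hDi hDj x hx y hy =>
      hO.exists_rg_add (hO.maxPair ha hb hab) hi hj hDi hDj hx hy)
  have hbot : ∀ a b : H, IsRefl V a → IsRefl V b → a ≠ b → fx a ⊓ fx b = (⊥ : AddSubgroup V) :=
    fun a b ha hb hne => hO.fx_inf_eq_bot_of_cover hcover hinf ha hb hne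
  have hhk : h ≠ k := fun e => hnc (e ▸ Commute.refl h)
  set q := Nat.card (rg h : AddSubgroup V) with hqdef
  have hV : Nat.card V = q ^ 2 := by
    rw [hinf h k hh hk hhk, hbot h k hh hk hhk, AddSubgroup.card_bot, mul_one]
  have hq2 : 2 ≤ q := by
    obtain ⟨e, he, he0⟩ := hO.exists_ne_zero_rg hh
    haveI : Nontrivial (rg h : AddSubgroup V) := ⟨⟨e, he⟩, 0, fun c => he0 (congrArg Subtype.val c)⟩
    exact Finite.one_lt_card
  obtain ⟨m, hm⟩ : ∃ m, q = p ^ m := by
    haveI := Fact.mk hO.prime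
    have hpg : IsPGroup p (Multiplicative ↥(rg h : AddSubgroup V)) := fun g => ⟨1, by
      rw [pow_one]
      exact Multiplicative.toAdd.injective (Subtype.ext (hO.exp _))⟩
    obtain ⟨m, hm⟩ := IsPGroup.iff_card.1 hpg
    exact ⟨m, hm⟩
  have hWcard : ∀ r : H, IsRefl V r → Nat.card (fx r : AddSubgroup V) = q := by
    intro r hr
    have h1 := hO.card_rg_mul_card_fx hr
    rw [hV, hO.card_rg_eq hr hh, ← hqdef, sq] at h1
    exact Nat.eq_of_mul_eq_mul_left (by omega) h1
  have hfixed : ∀ r : H, IsRefl V r → ∃ v : V, v ≠ 0 ∧ r • v = v := by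
    intro r hr
    by_contra hc
    push Not at hc
    have h1 : (fx r : AddSubgroup V) = ⊥ := eq_bot_iff.2 fun v hv => by
      by_contra h0
      exact hc v (fun e => h0 (by rw [e]; exact zero_mem _)) hv
    have := hWcard r hr
    rw [h1, AddSubgroup.card_bot] at this
    omega
  have hDbot : ∀ g : H, (fx h ⊓ fx k : AddSubgroup V) < fx g ↔ ∃ v : V, v ≠ 0 ∧ g • v = v := by
    intro g
    rw [hbot h k hh hk hhk, bot_lt_iff_ne_bot]
    refine ⟨fun hne => ?_, fun ⟨v, hv0, hv⟩ e => hv0 (AddSubgroup.mem_bot.1 (e ▸ hv))⟩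
    rcases AddSubgroup.bot_or_exists_ne_zero (fx g : AddSubgroup V) with e | ⟨v, hv, hv0⟩
    · exact absurd e hne
    · exact ⟨v, hv0, hv⟩
  have hfix : ∀ g : H, g ≠ 1 → ∀ v : V, v ≠ 0 → g • v = v → IsRefl V g :=
    fun g hg v hv hgv => hO.isRefl_of_lt hP hg ((hDbot g).2 ⟨v, hv, hgv⟩)
  have hprodne : ∀ a b : H, IsRefl V a → IsRefl V b → a ≠ b → ∀ v : V, (a * b) • v = v → v = 0 := by
    intro a b ha hb hne v hv
    have h1 : v ∈ fx (a * b) := hv
    rw [hO.fx_mul_eq ha hb hne, hbot a b ha hb hne] at h1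
    exact AddSubgroup.mem_bot.1 h1
  have hnot : ∀ a b : H, IsRefl V a → IsRefl V b → ¬ IsRefl V (a * b) := by
    intro a b ha hb hab
    by_cases hne : a = b
    · subst hne
      exact hab.1 (ha.mul_self hO.bin)
    · obtain ⟨v, hv0, hv⟩ := hfixed _ hab
      exact hv0 (hprodne a b ha hb hne v hv)
  -- the moved spaces partition the nonzero vectors
  have hR : Nat.card {r : H | IsRefl V r} = q + 1 := by
    let f : (Σ r : {r : H | IsRefl V r}, {e : V // e ∈ rg (r : H) ∧ e ≠ 0}) → {v : V // v ≠ 0} :=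
      fun x => ⟨x.2.1, x.2.2.2⟩
    have hf : Function.Bijective f := by
      refine ⟨?_, fun v => ?_⟩
      · rintro ⟨⟨a, ha⟩, e, he, he0⟩ ⟨⟨b, hb⟩, e', he', he0'⟩ heq
        obtain rfl : e = e' := congrArg Subtype.val heq
        obtain rfl : a = b := ha.eq_of_mem_rg hO.bin hb he0 he he'
        rfl
      · obtain ⟨r, hr, hv⟩ := hcover v.1 v.2
        exact ⟨⟨⟨r, hr⟩, v.1, hv, v.2⟩, rfl⟩
    letI := Fintype.ofFinite {r : H | IsRefl V r}
    have hright : ∀ r : {r : H | IsRefl V r},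
        Nat.card {e : V // e ∈ rg (r : H) ∧ e ≠ 0} = q - 1 := fun r => by
      change ((rg (r : H) : AddSubgroup V) \ ({0} : Set V) : Set V).ncard = _
      rw [Set.ncard_sdiff (Set.singleton_subset_iff.2 (rg (r : H)).zero_mem), Set.ncard_singleton,
        ← Nat.card_coe_set_eq, hqdef, ← hO.card_rg_eq r.2 hh]
      rfl
    have hleft : Nat.card {v : V // v ≠ 0} = q ^ 2 - 1 := by
      change ({0}ᶜ : Set V).ncard = _
      rw [Set.ncard_compl, Set.ncard_singleton, hV]
    have h1 := Nat.card_eq_of_bijective f hf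
    rw [Nat.card_sigma, Finset.sum_congr rfl fun r _ => hright r, Finset.sum_const, Finset.card_univ,
      ← Nat.card_eq_fintype_card (α := {r : H | IsRefl V r}), smul_eq_mul, hleft] at h1
    obtain ⟨j, hj⟩ : ∃ j, q = j + 2 := ⟨q - 2, by omega⟩
    rw [hj] at h1 ⊢
    have h2 : (j + 2) ^ 2 - 1 = (j + 2 + 1) * (j + 2 - 1) := by
      have : (j + 2) ^ 2 = (j + 2 + 1) * (j + 1) + 1 := by ring
      rw [this]
      simp
    exact Nat.eq_of_mul_eq_mul_right (by omega) (h1.trans h2)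
  refine ⟨m, {r | IsRefl V r}, ?_, by rw [hV, hm], fun r hr => IsRefl.mul_self hO.bin hr,
    fun h1 => h1.1 rfl, by rw [hR, hm], hfix, hfixed, ?_, fun a ha b hb => hnot a b ha hb⟩
  · rcases Nat.eq_zero_or_pos m with rfl | hm1
    · rw [pow_zero] at hm
      omega
    · exact hm1
  intro g hg a ha
  change IsRefl V (g * a)
  by_cases hg1 : g = 1
  · rwa [hg1, one_mul]
  by_cases hall : ∀ v ∈ (fx a : AddSubgroup V), v + g • v = 0
  · -- `g` negates the fixed space of `a`
    obtain ⟨v, hv0, hv⟩ := hfixed a ha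
    obtain ⟨b, hb, hvb⟩ := hcover v hv0
    have hne : a ≠ b := fun e => hv0 (hO.eq_zero_of_mem_fx_rg hb (e ▸ hv) hvb)
    have hc : Commute a b := IsRefl.commute_of_mem_fx hO.bin hb hv0 hvb hv
    have hle : rg b ≤ (fx a : AddSubgroup V) := hO.rg_le_fx ha hb hne hc
    have hab : rg b = (fx a : AddSubgroup V) := eq_of_le_of_card_le hle (by
      rw [hWcard a ha, hO.card_rg_eq hb hh])
    have hfa : fx a ≤ (fx ((a * b)⁻¹ * g) : AddSubgroup V) := fun x hx => by
      rw [mem_fx, mul_smul, inv_smul_eq_iff, mul_smul, IsRefl.smul_rg hO.bin hb (hab ▸ hx), smul_neg,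
        mem_fx.1 hx]
      exact eq_neg_of_add_eq_zero_right (hall x hx)
    by_cases hx : (a * b)⁻¹ * g = 1
    · rw [← inv_mul_eq_one.1 hx, hc.eq, mul_assoc, ha.mul_self hO.bin, mul_one]
      exact hb
    · exfalso
      obtain ⟨x, hx0, hxa⟩ := hfixed a ha
      have hr := hfix _ hx x hx0 (hfa hxa)
      have h1 : (a * b)⁻¹ * g = a := by
        by_contra hne'
        have h2 : (fx ((a * b)⁻¹ * g) ⊓ fx a : AddSubgroup V) = ⊥ := hbot _ _ hr ha hne'
        exact hx0 (AddSubgroup.mem_bot.1 (h2.le (AddSubgroup.mem_inf.2 ⟨hfa hxa, hxa⟩)))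
      have h2 : g = a * b * a := by
        rw [← eq_inv_mul_iff_mul_eq.1 h1.symm]
      rw [hc.eq, mul_assoc, ha.mul_self hO.bin, mul_one] at h2
      exact hg (h2 ▸ hb)
  push Not at hall
  obtain ⟨v, hv, hvg⟩ := hall
  obtain ⟨s, hs1, hs2⟩ := hO.bin.exists_swap (v := v) (w := g • v) ⟨g, rfl⟩
  have hsne : s ≠ 1 := fun c => by
    rw [c, one_smul] at hs1
    exact hg (hfix g hg1 v (fun e => hvg (by rw [e, smul_zero, add_zero])) hs1.symm)
  have hsr : IsRefl V s := hfix s hsne (v + g • v) hvg (by rw [smul_add, hs1, hs2, add_comm])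
  have hne : g⁻¹ * s ≠ 1 := fun c => hg (inv_mul_eq_one.1 c ▸ hsr)
  have hv0 : v ≠ 0 := fun e => hvg (by rw [e, smul_zero, add_zero])
  have hfv : (g⁻¹ * s) • v = v := by rw [mul_smul, hs1, inv_smul_smul]
  have hr := hfix _ hne v hv0 hfv
  have h1 : g⁻¹ * s = a := by
    by_contra hne'
    exact hv0 (AddSubgroup.mem_bot.1 ((hbot _ _ hr ha hne').le (AddSubgroup.mem_inf.2 ⟨hfv, hv⟩)))
  rw [← h1, mul_inv_cancel_left]
  exact hsr

end CfsgLib.BinaryAffine
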