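import Cfsg.Agent.Lib.BinaryAffine.OddBasic

/-!
# Binary affine groups in odd characteristic: two non-commuting reflections
-/

set_option linter.unusedSectionVars false

namespace CfsgLib.BinaryAffine

variable {V : Type} [AddCommGroup V] [Finite V] {H : Type*} [Group H] [DistribMulAction H V]
  [FaithfulSMul H V]

/-- `(h, k)` is a non-commuting pair of reflections with common fixed space of largest order. -/
structure MaxPair (V : Type) [AddCommGroup V] [DistribMulAction H V] (h k : H) : Prop where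
  hh : IsRefl V h
  hk : IsRefl V k
  hnc : ¬ Commute h k
  hmax : ∀ a b : H, IsRefl V a → IsRefl V b → ¬ Commute a b →
    Nat.card (fx a ⊓ fx b : AddSubgroup V) ≤ Nat.card (fx h ⊓ fx k : AddSubgroup V)

namespace OddHyp

variable {p : ℕ} (hO : OddHyp H V p)
include hO

variable {h k : H} (hh : IsRefl V h) (hk : IsRefl V k)
include hh hk

theorem card_fx_le_mul_inf :
    Nat.card (fx h : AddSubgroup V)
      ≤ Nat.card (rg h : AddSubgroup V) * Nat.card (fx h ⊓ fx k : AddSubgroup V) := by
  refine Nat.le_of_mul_le_mul_left ?_ (Nat.card_pos (α := (rg h : AddSubgroup V)))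
  rw [hO.card_rg_mul_card_fx hh]
  exact (hO.card_le_card_inf hh hk).trans_eq (by ring)

variable (hnc : ¬ Commute h k)
include hnc

/-- An involution fixing more than the common fixed space is a reflection. -/
theorem isRefl_of_involution [Finite H] {g : H} (hg : g * g = 1) (hg1 : g ≠ 1)
    (hD : fx h ⊓ fx k < (fx g : AddSubgroup V)) : IsRefl V g := by
  by_contra hnr
  have hlt : Nat.card (fx g : AddSubgroup V) < Nat.card (fx h : AddSubgroup V) := by
    refine lt_of_le_of_ne (hh.2 g hg1) fun e => hnr ⟨hg1, fun l hl => ?_⟩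
    rw [e]
    exact hh.2 l hl
  set D : AddSubgroup V := fx h ⊓ fx k with hDdef
  -- such an involution commutes with no reflection fixing `D`
  have hA : ∀ {g : H}, g * g = 1 → g ≠ 1 → D ≤ fx g →
      Nat.card (fx g : AddSubgroup V) < Nat.card (fx h : AddSubgroup V) →
      D ≠ fx g → ∀ r : H, IsRefl V r → D ≤ fx r → ¬ Commute g r := by
    intro g hg hg1 hDg hlt hDne r hr hDr hc
    have hDlt : Nat.card D < Nat.card (fx g : AddSubgroup V) := by
      refine lt_of_le_of_ne (Nat.card_le_card_of_injective _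
        (AddSubgroup.inclusion_injective hDg)) fun e => hDne ?_
      exact eq_of_le_of_card_le hDg e.ge
    have hrq : Nat.card (rg r : AddSubgroup V) = Nat.card (rg h : AddSubgroup V) :=
      hO.card_rg_eq hr hh
    have hWle := hO.card_fx_le_mul_inf hh hk
    obtain ⟨e, he, he0⟩ := hO.exists_ne_zero_rg hr
    rcases hr.smul_rg_commute hO.bin hc he with hge | hge
    · -- `rg r ≤ fx g`
      have hle : rg r ≤ (fx g : AddSubgroup V) := by
        intro x hx
        rcases hr.smul_rg_commute hO.bin hc hx with h1 | h1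
        · exact h1
        · rcases hr.smul_rg_commute hO.bin hc ((rg r).add_mem he hx) with h2 | h2
          · rw [smul_add, hge] at h2
            exact mem_fx.2 (add_left_cancel h2)
          · rw [smul_add, hge, h1] at h2
            exact absurd (hO.eq_zero_of_eq_neg (v := e)
              (by linear_combination (norm := abel) h2)) he0
      have hb : Nat.card (rg r : AddSubgroup V) * Nat.card D
          ≤ Nat.card (fx g : AddSubgroup V) :=
        card_mul_le_of_inf_eq_bot hle hDg fun x hx hx' =>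
          hO.eq_zero_of_mem_fx_rg hr (hDr hx') hx
      rw [hrq] at hb
      rw [← hDdef] at hWle
      omega
    · -- `g` negates `e`, hence `fx g ≤ fx r`
      have hne : r • e ≠ e := fun c => he0 (hO.eq_zero_of_mem_fx_rg hr c he)
      have hle : fx g ≤ (fx r : AddSubgroup V) :=
        hr.fx_le hO.bin hne (by rw [hge, hr.smul_rg hO.bin he])
      have hrg : ∀ x ∈ (rg r : AddSubgroup V), g • x = -x := by
        intro x hx
        rcases hr.smul_rg_commute hO.bin hc hx with h1 | h1
        · rw [hO.eq_zero_of_mem_fx_rg hr (hle h1) hx, smul_zero, neg_zero]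
        · exact h1
      have hne1 : r * g ≠ 1 := fun c => by
        have hgr : g = r := by
          rw [← inv_eq_of_mul_eq_one_right c, hr.inv_eq hO.bin]
        exact (hr.card_fx_eq hh).not_lt (hgr ▸ hlt)
      have hb : Nat.card (rg r : AddSubgroup V) * Nat.card (fx g : AddSubgroup V)
          ≤ Nat.card (fx (r * g) : AddSubgroup V) := by
        refine card_mul_le_of_inf_eq_bot (fun x hx => ?_) (fun x hx => ?_)
          fun x hx hx' => hO.eq_zero_of_mem_fx_rg hr (hle hx') hx
        · rw [mem_fx, mul_smul, hrg x hx, smul_neg, hr.smul_rg hO.bin hx, neg_neg]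
        · exact fx_le_fx_mul_inter (hle hx) hx
      have h2 := hh.2 _ hne1
      rw [hrq] at hb
      have h3 : Nat.card (rg h : AddSubgroup V) * Nat.card D
          < Nat.card (rg h : AddSubgroup V) * Nat.card (fx g : AddSubgroup V) :=
        Nat.mul_lt_mul_of_pos_left hDlt Nat.card_pos
      rw [← hDdef] at hWle
      omega
  have hDh : D ≤ fx h := inf_le_left
  have hnh := hA hg hg1 hD.le hlt hD.ne h hh hDh
  set x := h * g with hxdef
  have hinv : h * x * h⁻¹ = x⁻¹ := by
    rw [hxdef, mul_inv_rev, hh.inv_eq hO.bin, inv_eq_of_mul_eq_one_right hg, ← mul_assoc,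
      hh.mul_self hO.bin, one_mul]
  have hinvpow : ∀ n : ℕ, h * x ^ n * h⁻¹ = (x ^ n)⁻¹ := fun n => by
    rw [← conj_pow, hinv, inv_pow]
  have hxD : ∀ n : ℕ, D ≤ fx (x ^ n) := by
    intro n d hd
    induction n with
    | zero => rw [mem_fx, pow_zero, one_smul]
    | succ n ih =>
      rw [mem_fx, pow_succ, mul_smul, hxdef, mul_smul, hD.le hd, hDh hd, ← hxdef, ih]
  rcases Nat.even_or_odd (orderOf x) with ⟨j, hj⟩ | ⟨j, hj⟩
  · have hj0 : 0 < orderOf x := orderOf_pos x
    set z := x ^ j with hzdef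
    have hz1 : z ≠ 1 := pow_ne_one_of_lt_orderOf (by omega) (by omega)
    have hz2 : z * z = 1 := by rw [hzdef, ← pow_add, ← hj, pow_orderOf_eq_one]
    have hzinv : z⁻¹ = z := inv_eq_of_mul_eq_one_right hz2
    have hzh : Commute z h := by
      have h1 := hinvpow j
      rw [← hzdef, hzinv] at h1
      calc z * h = h * z * h⁻¹ * h := by rw [h1]
        _ = h * z := by rw [inv_mul_cancel_right]
    have hzg : Commute z g := by
      have h1 : g = h * x := by rw [hxdef, ← mul_assoc, hh.mul_self hO.bin, one_mul]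
      rw [h1]
      exact hzh.mul_right ((Commute.refl x).pow_left j)
    have hzD : fx z = D := by
      by_contra hne
      by_cases hzr : IsRefl V z
      · exact hA hg hg1 hD.le hlt hD.ne z hzr (hxD j) hzg.symm
      · have hlt' : Nat.card (fx z : AddSubgroup V) < Nat.card (fx h : AddSubgroup V) := by
          refine lt_of_le_of_ne (hh.2 z hz1) fun e => hzr ⟨hz1, fun l hl => ?_⟩
          rw [e]
          exact hh.2 l hl
        exact hA hz2 hz1 (hxD j) hlt' (fun e => hne e.symm) h hh hDh hzh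
    have hneg : ∀ y ∈ (rg g : AddSubgroup V), g • y = -y ∧ z • y = -y := by
      intro y hy
      obtain ⟨w, rfl⟩ := mem_rg.1 hy
      have hgy : g • (g • w - w) = -(g • w - w) := by
        rw [smul_sub, ← mul_smul, hg, one_smul, neg_sub]
      refine ⟨hgy, ?_⟩
      set y := g • w - w
      have h1 : y + z • y ∈ fx z := by
        rw [mem_fx, smul_add, ← mul_smul, hz2, one_smul, add_comm]
      rw [hzD] at h1
      have h2 : g • (y + z • y) = y + z • y := hD.le h1
      have h3 : g • (z • y) = -(z • y) := by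
        rw [← mul_smul, ← hzg.eq, mul_smul, hgy, smul_neg]
      rw [smul_add, hgy, h3] at h2
      exact eq_neg_of_add_eq_zero_right
        (hO.eq_zero_of_eq_neg (by linear_combination (norm := abel) -h2))
    have hk1 : g * z = 1 := by
      by_contra hne
      have h1 := hh.2 _ hne
      have hb : Nat.card (rg g : AddSubgroup V) * Nat.card D
          ≤ Nat.card (fx (g * z) : AddSubgroup V) :=
        card_mul_le_of_inf_eq_bot
          (fun y hy => by rw [mem_fx, mul_smul, (hneg y hy).2, smul_neg, (hneg y hy).1, neg_neg])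
          (fun y hy => fx_le_fx_mul_inter (hD.le hy) (hzD.symm ▸ hy))
          fun y hy hy' => hO.eq_zero_of_eq_neg ((mem_fx.1 (hD.le hy')).symm.trans (hneg y hy).1)
      have hcard : Nat.card (rg g : AddSubgroup V) * Nat.card (fx g : AddSubgroup V)
          = Nat.card (rg h : AddSubgroup V) * Nat.card (fx h : AddSubgroup V) := by
        rw [hO.card_rg_mul_card_fx hh, card_rg_eq_index, AddSubgroup.index_mul_card]
      have hgt : Nat.card (rg h : AddSubgroup V) < Nat.card (rg g : AddSubgroup V) := by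
        by_contra hle
        push Not at hle
        exact (Nat.mul_lt_mul_of_le_of_lt hle hlt Nat.card_pos).ne hcard
      have hWle := hO.card_fx_le_mul_inf hh hk
      have h3 : Nat.card (rg h : AddSubgroup V) * Nat.card D
          < Nat.card (rg g : AddSubgroup V) * Nat.card D :=
        Nat.mul_lt_mul_of_pos_right hgt Nat.card_pos
      rw [← hDdef] at hWle
      omega
    have hgz : g = z := by rw [← inv_eq_of_mul_eq_one_left hk1, hzinv]
    exact hnh (hgz ▸ hzh)
  · -- odd order: `g` is conjugate to `h`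
    refine hnr ?_
    have h1 : g = x ^ j * h * (x ^ j)⁻¹ := by
      have h2 := hinvpow j
      have h3 : h * (x ^ j)⁻¹ = x ^ j * h := by
        rw [← h2, hh.inv_eq hO.bin, ← mul_assoc, ← mul_assoc, hh.mul_self hO.bin, one_mul]
      calc g = h * x := by rw [hxdef, ← mul_assoc, hh.mul_self hO.bin, one_mul]
        _ = h * (x ^ (j + j))⁻¹ := congrArg (h * ·) (eq_inv_of_mul_eq_one_left
            (by rw [← pow_succ', ← two_mul, ← hj, pow_orderOf_eq_one]))
        _ = x ^ j * h * (x ^ j)⁻¹ := by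
          rw [pow_add, mul_inv_rev, ← mul_assoc, h3]
    rw [h1]
    exact hh.conj _

end OddHyp

namespace OddHyp

variable {p : ℕ} (hO : OddHyp H V p) {h k : H} (hP : MaxPair V h k)
include hO hP

/-- An element fixing more than the common fixed space has order at most 2. -/
theorem mul_self_of_lt [Finite H] {g : H} (hg : fx h ⊓ fx k < (fx g : AddSubgroup V)) :
    g * g = 1 := by
  by_contra hbad
  obtain ⟨g, ⟨hgD, hgne⟩, hmax⟩ := Set.Finite.exists_maximalFor
    (fun g : H => Nat.card (fx g : AddSubgroup V))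
    {g : H | fx h ⊓ fx k < (fx g : AddSubgroup V) ∧ g * g ≠ 1} (Set.toFinite _) ⟨g, hg, hbad⟩
  have hbig : ∀ l : H, fx g < (fx l : AddSubgroup V) → l * l = 1 := fun l hl => by
    by_contra hc
    have h1 : Nat.card (fx g : AddSubgroup V) ≤ Nat.card (fx l : AddSubgroup V) :=
      Nat.card_le_card_of_injective _ (AddSubgroup.inclusion_injective hl.le)
    exact hl.ne (eq_of_le_of_card_le hl.le (hmax ⟨hgD.trans hl, hc⟩ h1))
  obtain ⟨v, hv⟩ : ∃ v : V, v + g • v ∉ fx g := by
    by_contra hc
    push Not at hc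
    refine hgne (eq_one_of_fx_top (V := V) fun v => ?_)
    have h1 := mem_fx.1 (hc v)
    rw [smul_add] at h1
    rw [mul_smul]
    linear_combination (norm := abel) h1
  obtain ⟨s0, hs0, hs0'⟩ := hO.bin.exists_swap (v := v) (w := g • v) ⟨g, rfl⟩
  obtain ⟨s, hs1, hs2⟩ := hO.bin.exists_move (v := v) (w := g • v)
    (insert (v + g • v) ((fx g : AddSubgroup V) : Set V)) ⟨g, rfl⟩ (by
    rintro x (rfl | hx)
    · exact ⟨s0, by rw [add_sub_cancel_left, add_sub_cancel_right, hs0']⟩
    · exact ⟨g, by rw [smul_sub, mem_fx.1 hx]⟩)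
  have hgs : fx g < (fx s : AddSubgroup V) :=
    lt_of_le_not_ge (fun x hx => hs2 x (Or.inr hx)) fun hle => hv (hle (hs2 _ (Or.inl rfl)))
  have hsD := hgD.trans hgs
  have hss := hbig s hgs
  have hvg : g • v ≠ v := fun c => hv (by rw [c]; exact (fx g).add_mem c c)
  have hsne : s ≠ 1 := fun c => hvg (by rw [← hs1, c, one_smul])
  have hsr : IsRefl V s := hO.isRefl_of_involution hP.hh hP.hk hP.hnc hss hsne hsD
  have hgr : fx g < (fx (g⁻¹ * s) : AddSubgroup V) := by
    refine lt_of_le_not_ge
      (fun x hx => fx_le_fx_mul_inter (by rwa [fx_inv]) (hgs.le hx)) fun hle => hvg (hle ?_)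
    rw [mem_fx, mul_smul, hs1, inv_smul_smul]
  have hrne : g⁻¹ * s ≠ 1 := fun c => hgne (by rw [inv_mul_eq_one.1 c, hss])
  have hrr := hbig _ hgr
  have hrr' : IsRefl V (g⁻¹ * s) :=
    hO.isRefl_of_involution hP.hh hP.hk hP.hnc hrr hrne (hgD.trans hgr)
  have hnc : ¬ Commute s (g⁻¹ * s) := by
    intro hc
    refine hgne ?_
    have h1 : g = s * (g⁻¹ * s) := by
      calc g = g * (g⁻¹ * s * (g⁻¹ * s)) := by rw [hrr, mul_one]
        _ = s * (g⁻¹ * s) := by group
    calc g * g = s * (g⁻¹ * s) * (s * (g⁻¹ * s)) := by rw [← h1]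
      _ = s * s * (g⁻¹ * s * (g⁻¹ * s)) := by
        rw [mul_assoc, mul_assoc s s, ← mul_assoc (g⁻¹ * s) s, ← hc.eq, mul_assoc]
      _ = 1 := by rw [hss, hrr, one_mul]
  have h1 : fx g ≤ (fx s ⊓ fx (g⁻¹ * s) : AddSubgroup V) := le_inf hgs.le hgr.le
  exact hgD.ne (eq_of_le_of_card_le hgD.le
    ((Nat.card_le_card_of_injective _ (AddSubgroup.inclusion_injective h1)).trans
      (hP.hmax _ _ hsr hrr' hnc)))

theorem isRefl_of_lt [Finite H] {g : H} (hg1 : g ≠ 1)
    (hg : fx h ⊓ fx k < (fx g : AddSubgroup V)) : IsRefl V g :=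
  hO.isRefl_of_involution hP.hh hP.hk hP.hnc (hO.mul_self_of_lt hP hg) hg1 hg

/-- Every vector is fixed by a reflection fixing the common fixed space. -/
theorem exists_refl_fx [Finite H] {v : V} (hv : v ∉ (fx h ⊓ fx k : AddSubgroup V)) :
    ∃ r : H, IsRefl V r ∧ fx h ⊓ fx k ≤ (fx r : AddSubgroup V) ∧ v ∈ fx r := by
  have hhk : h ≠ k := fun e => hP.hnc (e ▸ Commute.refl h)
  have hfx : fx (h * k) = (fx h ⊓ fx k : AddSubgroup V) := hO.fx_mul_eq hP.hh hP.hk hhk
  set t := h * k with htdef
  have htt : t * t ≠ 1 := fun c => hP.hnc (by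
    have h1 : t⁻¹ = t := inv_eq_of_mul_eq_one_right c
    rw [htdef, mul_inv_rev, hP.hh.inv_eq hO.bin, hP.hk.inv_eq hO.bin] at h1
    exact h1.symm)
  by_cases hx : v + t • v ∈ fx t
  · have h1 : (t * t) • v = v := by
      have h1 := mem_fx.1 hx
      rw [smul_add] at h1
      rw [mul_smul]
      linear_combination (norm := abel) h1
    refine ⟨t * t, ?_, ?_, h1⟩
    · refine hO.isRefl_of_lt hP htt (lt_of_le_not_ge
        (hfx ▸ fun x hx => fx_le_fx_mul_inter hx hx) fun hle => hv (hle h1))
    · exact hfx ▸ fun x hx => fx_le_fx_mul_inter hx hx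
  obtain ⟨s0, hs0, hs0'⟩ := hO.bin.exists_swap (v := v) (w := t • v) ⟨t, rfl⟩
  obtain ⟨s, hs1, hs2⟩ := hO.bin.exists_move (v := v) (w := t • v)
    (insert (v + t • v) ((fx t : AddSubgroup V) : Set V)) ⟨t, rfl⟩ (by
    rintro x (rfl | hx)
    · exact ⟨s0, by rw [add_sub_cancel_left, add_sub_cancel_right, hs0']⟩
    · exact ⟨t, by rw [smul_sub, mem_fx.1 hx]⟩)
  have hts : fx h ⊓ fx k < (fx s : AddSubgroup V) :=
    hfx ▸ lt_of_le_not_ge (fun x hx => hs2 x (Or.inr hx)) fun hle => hx (hle (hs2 _ (Or.inl rfl)))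
  have hle : fx h ⊓ fx k ≤ (fx (t⁻¹ * s) : AddSubgroup V) := fun y hy =>
    fx_le_fx_mul_inter (by rw [fx_inv, hfx]; exact hy) (hts.le hy)
  have hvr : v ∈ fx (t⁻¹ * s) := by rw [mem_fx, mul_smul, hs1, inv_smul_smul]
  have hne : t⁻¹ * s ≠ 1 := fun c => htt (by
    rw [inv_mul_eq_one.1 c, hO.mul_self_of_lt hP hts])
  exact ⟨t⁻¹ * s, hO.isRefl_of_lt hP hne (lt_of_le_not_ge hle fun hle' => hv (hle' hvr)), hle, hvr⟩

/-- The fixed spaces of two reflections fixing `D` meet in `D`. -/
theorem inf_eq [Finite H] {a b : H} (ha : IsRefl V a) (hb : IsRefl V b) (hne : a ≠ b)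
    (hDa : fx h ⊓ fx k ≤ (fx a : AddSubgroup V)) (hDb : fx h ⊓ fx k ≤ (fx b : AddSubgroup V)) :
    fx a ⊓ fx b = (fx h ⊓ fx k : AddSubgroup V) := by
  refine (eq_of_le_of_card_le (le_inf hDa hDb) ?_).symm
  by_cases hc : Commute a b
  · have h1 := hO.card_inf_commute ha hb hne hc
    have h2 := hO.card_fx_le_mul_inf hP.hh hP.hk
    rw [ha.card_fx_eq hP.hh, hO.card_rg_eq ha hP.hh] at h1
    rw [← h1] at h2
    exact Nat.le_of_mul_le_mul_left h2 Nat.card_pos
  · exact hP.hmax a b ha hb hc

end OddHyp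

end CfsgLib.BinaryAffine
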