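import Cfsg.Agent.Lib.BinaryAffine.OddPair

/-!
# Binary affine groups in odd characteristic: the plane of a pair of reflections
-/

set_option linter.unusedSectionVars false

namespace CfsgLib.BinaryAffine

variable {V : Type} [AddCommGroup V] [Finite V] {H : Type*} [Group H] [DistribMulAction H V]
  [FaithfulSMul H V]

/-- The reflections fixing the subgroup `D`. -/
def reflOver (H : Type*) [Group H] [DistribMulAction H V] (D : AddSubgroup V) : Set H :=
  {r | IsRefl V r ∧ D ≤ fx r}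

namespace OddHyp

variable {p : ℕ} (hO : OddHyp H V p) {h k : H} (hP : MaxPair V h k)
include hO hP

/-- Moved spaces of reflections fixing `D` are independent modulo `D`. -/
theorem eq_of_rg_sub_mem [Finite H] {a b : H} (ha : IsRefl V a) (hb : IsRefl V b) (hne : a ≠ b)
    (hDa : fx h ⊓ fx k ≤ (fx a : AddSubgroup V)) (hDb : fx h ⊓ fx k ≤ (fx b : AddSubgroup V))
    {e e' : V} (he : e ∈ rg a) (he' : e' ∈ rg b) (hd : e - e' ∈ (fx h ⊓ fx k : AddSubgroup V)) :
    e = 0 ∧ e' = 0 := by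
  set d := e - e' with hddef
  have hbd : b • d = d := hDb hd
  have had : a • d = d := hDa hd
  have h1 : b • e = e' + d + (-(e' + e')) := by
    have : e = e' + d := by rw [hddef]; abel
    conv_lhs => rw [this, smul_add, hb.smul_rg hO.bin he', hbd]
    abel
  have h2 : a • b • e = e + (d + d) := by
    have : e' + d + -(e' + e') = d + d - e := by rw [hddef]; abel
    rw [h1, this, smul_sub, smul_add, had, ha.smul_rg hO.bin he]
    abel
  have h3 : (a * b) • e = e := by
    refine hO.smul_eq_of_sq ?_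
    simp only [mul_smul, h2, add_sub_cancel_left, smul_add, hbd, had]
  rw [mul_smul, h2] at h3
  have hd0 : d = 0 := hO.two d (by simpa using h3)
  have hee : e = e' := sub_eq_zero.1 hd0
  refine ⟨?_, ?_⟩ <;> by_contra hne'
  · exact hne (ha.eq_of_mem_rg hO.bin hb hne' he (hee ▸ he'))
  · exact hne (ha.eq_of_mem_rg hO.bin hb hne' (hee ▸ he) he')

/-- `(e, d) ↦ e + d` on moved vectors of reflections over `D`. -/
theorem card_eq_and_exists_rg [Finite H] :
    Nat.card V = Nat.card (rg h : AddSubgroup V) ^ 2 * Nat.card (fx h ⊓ fx k : AddSubgroup V) ∧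
    ∀ v : V, v ∉ (fx h ⊓ fx k : AddSubgroup V) →
      ∃ r : H, IsRefl V r ∧ fx h ⊓ fx k ≤ (fx r : AddSubgroup V) ∧
        ∃ e ∈ rg r, v - e ∈ (fx h ⊓ fx k : AddSubgroup V) := by
  classical
  set D : AddSubgroup V := fx h ⊓ fx k with hDdef
  let R := reflOver (V := V) H D
  letI : Fintype R := Fintype.ofFinite R
  have hcardV : Nat.card (rg h : AddSubgroup V) * Nat.card (fx h : AddSubgroup V) = Nat.card V :=
    hO.card_rg_mul_card_fx hP.hh
  -- fixed spaces cover `V \ D` once
  let f₁ : (Σ r : R, {v : V // v ∈ fx (r : H) ∧ v ∉ D}) → {v : V // v ∉ D} :=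
    fun x => ⟨x.2.1, x.2.2.2⟩
  have hf₁ : Function.Bijective f₁ := by
    refine ⟨?_, fun v => ?_⟩
    · rintro ⟨⟨a, ha⟩, v, hva, hvD⟩ ⟨⟨b, hb⟩, w, hwb, hwD⟩ heq
      obtain rfl : v = w := congrArg Subtype.val heq
      have hab : a = b := by
        by_contra hne
        exact hvD ((hO.inf_eq hP ha.1 hb.1 hne ha.2 hb.2).le (AddSubgroup.mem_inf.2 ⟨hva, hwb⟩))
      subst hab
      rfl
    · obtain ⟨r, hr, hrD, hv⟩ := hO.exists_refl_fx hP v.2
      exact ⟨⟨⟨r, hr, hrD⟩, v.1, hv, v.2⟩, rfl⟩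
  -- moved spaces, translated by `D`
  let f₂ : (Σ r : R, {e : V // e ∈ rg (r : H) ∧ e ≠ 0} × D) → {v : V // v ∉ D} :=
    fun x => ⟨x.2.1.1 + x.2.2, fun hc => x.2.1.2.2 (hO.eq_zero_of_mem_fx_rg x.1.2.1
      (x.1.2.2 ((add_mem_cancel_right x.2.2.2).1 hc)) x.2.1.2.1)⟩
  have hf₂ : Function.Injective f₂ := by
    rintro ⟨⟨a, ha⟩, ⟨e, he, he0⟩, d, hd⟩ ⟨⟨b, hb⟩, ⟨e', he', he0'⟩, d', hd'⟩ heq
    have h1 : e + d = e' + d' := congrArg Subtype.val heq
    have h2 : e - e' ∈ D := by
      have : e - e' = d' - d := by linear_combination (norm := abel) h1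
      rw [this]
      exact D.sub_mem hd' hd
    have hab : a = b := by
      by_contra hne
      exact he0 (hO.eq_of_rg_sub_mem hP ha.1 hb.1 hne ha.2 hb.2 he he' h2).1
    subst hab
    have h3 : e - e' = 0 :=
      hO.eq_zero_of_mem_fx_rg ha.1 (ha.2 h2) ((rg a).sub_mem he he')
    obtain rfl := sub_eq_zero.1 h3
    obtain rfl := add_left_cancel h1
    rfl
  have hleft : ∀ r : R, Nat.card {v : V // v ∈ fx (r : H) ∧ v ∉ D}
      = Nat.card (fx h : AddSubgroup V) - Nat.card D := fun r => by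
    change ((fx (r : H) : AddSubgroup V) \ (D : Set V) : Set V).ncard = _
    rw [Set.ncard_sdiff (fun x hx => r.2.2 hx), ← Nat.card_coe_set_eq, ← Nat.card_coe_set_eq,
      ← r.2.1.card_fx_eq hP.hh]
    rfl
  have hright : ∀ r : R, Nat.card ({e : V // e ∈ rg (r : H) ∧ e ≠ 0} × D)
      = (Nat.card (rg h : AddSubgroup V) - 1) * Nat.card D := fun r => by
    rw [Nat.card_prod]
    congr 1
    change ((rg (r : H) : AddSubgroup V) \ ({0} : Set V) : Set V).ncard = _
    rw [Set.ncard_sdiff (Set.singleton_subset_iff.2 (rg (r : H)).zero_mem), Set.ncard_singleton,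
      ← Nat.card_coe_set_eq, ← hO.card_rg_eq r.2.1 hP.hh]
    rfl
  have c1 : Nat.card (Σ r : R, {v : V // v ∈ fx (r : H) ∧ v ∉ D})
      = Nat.card R * (Nat.card (fx h : AddSubgroup V) - Nat.card D) := by
    rw [Nat.card_sigma, Finset.sum_congr rfl fun r _ => hleft r, Finset.sum_const, Finset.card_univ,
      ← Nat.card_eq_fintype_card (α := R), smul_eq_mul]
  have c2 : Nat.card (Σ r : R, {e : V // e ∈ rg (r : H) ∧ e ≠ 0} × D)
      = Nat.card R * ((Nat.card (rg h : AddSubgroup V) - 1) * Nat.card D) := by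
    rw [Nat.card_sigma, Finset.sum_congr rfl fun r _ => hright r, Finset.sum_const, Finset.card_univ,
      ← Nat.card_eq_fintype_card (α := R), smul_eq_mul]
  have hsame := Nat.card_eq_of_bijective f₁ hf₁
  have hle := Nat.card_le_card_of_injective f₂ hf₂
  rw [← hsame, c1, c2] at hle
  have hRpos : 0 < Nat.card R := by
    haveI : Nonempty R := ⟨⟨h, hP.hh, inf_le_left⟩⟩
    exact Nat.card_pos
  have hle' := Nat.le_of_mul_le_mul_left hle hRpos
  have hup := hO.card_fx_le_mul_inf hP.hh hP.hk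
  rw [← hDdef] at hup
  have hDW : Nat.card D ≤ Nat.card (fx h : AddSubgroup V) :=
    Nat.card_le_card_of_injective _ (AddSubgroup.inclusion_injective inf_le_left)
  have hq : Nat.card D ≤ Nat.card (rg h : AddSubgroup V) * Nat.card D :=
    Nat.le_mul_of_pos_left _ Nat.card_pos
  have hW : Nat.card (fx h : AddSubgroup V) = Nat.card (rg h : AddSubgroup V) * Nat.card D := by
    rw [Nat.sub_mul, one_mul] at hle'
    omega
  refine ⟨by rw [← hcardV, hW]; ring, fun v hv => ?_⟩
  have hcount : Nat.card (Σ r : R, {e : V // e ∈ rg (r : H) ∧ e ≠ 0} × D)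
      = Nat.card {v : V // v ∉ D} := by
    rw [← hsame, c1, c2, hW, Nat.sub_mul, one_mul]
  obtain ⟨⟨⟨r, hr⟩, ⟨e, he, he0⟩, d, hd⟩, heq⟩ :=
    (hf₂.bijective_of_nat_card_le hcount.ge).2 ⟨v, hv⟩
  have h1 : e + d = v := congrArg Subtype.val heq
  exact ⟨r, hr.1, hr.2, e, he, by rwa [← h1, add_sub_cancel_left]⟩

/-- Sums of moved vectors of reflections over `D` are again moved by one reflection. -/
theorem exists_rg_add [Finite H] {a b : H} (ha : IsRefl V a) (hb : IsRefl V b)
    (hDa : fx h ⊓ fx k ≤ (fx a : AddSubgroup V)) (hDb : fx h ⊓ fx k ≤ (fx b : AddSubgroup V))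
    {x y : V} (hx : x ∈ rg a) (hy : y ∈ rg b) :
    ∃ r : H, IsRefl V r ∧ fx h ⊓ fx k ≤ (fx r : AddSubgroup V) ∧ x + y ∈ rg r := by
  classical
  haveI := Fintype.ofFinite H
  set D : AddSubgroup V := fx h ⊓ fx k with hDdef
  haveI : Nontrivial V := by
    obtain ⟨e, -, he0⟩ := hO.exists_ne_zero_rg hP.hh
    exact ⟨e, 0, he0⟩
  let L : Subgroup H :=
    { carrier := {g | ∀ d ∈ D, g • d = d}
      mul_mem' := fun {g g'} hg hg' d hd => by rw [mul_smul, hg' d hd, hg d hd]
      one_mem' := fun d _ => one_smul H d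
      inv_mem' := fun {g} hg d hd => by rw [inv_smul_eq_iff, hg d hd] }
  let P : V →+ V := ∑ g : L, DistribSMul.toAddMonoidHom V (g : H)
  have hPd : ∀ d ∈ D, P d = Nat.card L • d := fun d hd => by
    rw [AddMonoidHom.finsetSum_apply, Finset.sum_congr rfl (g := fun _ => d) fun g _ => g.2 d hd,
      Finset.sum_const, Finset.card_univ, Nat.card_eq_fintype_card]
  have hP0 : ∀ r : H, IsRefl V r → D ≤ fx r → ∀ e ∈ (rg r : AddSubgroup V), P e = 0 := by
    intro r hr hrD e he
    have hrL : r ∈ L := fun d hd => hrD hd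
    refine hO.eq_zero_of_eq_neg ?_
    conv_rhs => rw [← map_neg, ← hr.smul_rg hO.bin he]
    simp only [P, AddMonoidHom.finsetSum_apply, DistribSMul.toAddMonoidHom_apply]
    refine (Fintype.sum_equiv (Equiv.mulRight (⟨r, hrL⟩ : L)) _ _ fun g => ?_).symm
    change (g : H) • r • e = ((g : H) * r) • e
    rw [mul_smul]
  have hzero : ∀ d ∈ D, P d = 0 → d = 0 := by
    intro d hd h0
    rw [hPd d hd] at h0
    have hcop : (Nat.card L).Coprime p :=
      ((hO.prime.coprime_iff_not_dvd).2 fun hdvd => hO.not_dvd_card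
        (hdvd.trans L.card_subgroup_dvd_card)).symm
    have h1 := Nat.dvd_gcd (addOrderOf_dvd_of_nsmul_eq_zero h0)
      (addOrderOf_dvd_of_nsmul_eq_zero (hO.exp d))
    rw [hcop.gcd_eq_one, Nat.dvd_one] at h1
    exact AddMonoid.addOrderOf_eq_one_iff.1 h1
  have hPxy : P (x + y) = 0 := by
    rw [map_add, hP0 a ha hDa x hx, hP0 b hb hDb y hy, add_zero]
  by_cases hD : x + y ∈ D
  · exact ⟨a, ha, hDa, by rw [hzero _ hD hPxy]; exact (rg a).zero_mem⟩
  obtain ⟨r, hr, hrD, e, he, hd⟩ := (hO.card_eq_and_exists_rg hP).2 _ hD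
  refine ⟨r, hr, hrD, ?_⟩
  rwa [sub_eq_zero.1 (hzero _ hd (by rw [map_sub, hPxy, hP0 r hr hrD e he, sub_zero]))]

end OddHyp

namespace OddHyp

variable {p : ℕ} (hO : OddHyp H V p)
include hO

/-- All pairs of non-commuting reflections are alike. -/
theorem maxPair [Finite H] {h k : H} (hh : IsRefl V h) (hk : IsRefl V k) (hnc : ¬ Commute h k) :
    MaxPair V h k := by
  classical
  haveI := Fintype.ofFinite H
  let F : H × H → ℕ := fun x => Nat.card (fx x.1 ⊓ fx x.2 : AddSubgroup V)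
  let S : Finset (H × H) :=
    Finset.univ.filter fun x => IsRefl V x.1 ∧ IsRefl V x.2 ∧ ¬ Commute x.1 x.2
  obtain ⟨x, hxS, hmax⟩ := Finset.exists_max_image S F
    ⟨(h, k), Finset.mem_filter.2 ⟨Finset.mem_univ _, hh, hk, hnc⟩⟩
  obtain ⟨-, ha, hb, hab⟩ := Finset.mem_filter.1 hxS
  obtain ⟨a, b⟩ := x
  have hP : MaxPair V a b := ⟨ha, hb, hab, fun c d hc hd hcd =>
    hmax (c, d) (Finset.mem_filter.2 ⟨Finset.mem_univ _, hc, hd, hcd⟩)⟩
  refine ⟨hh, hk, hnc, fun c d hc hd hcd => (hP.hmax c d hc hd hcd).trans ?_⟩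
  refine Nat.le_of_mul_le_mul_left ?_ (pow_pos (Nat.card_pos (α := (rg a : AddSubgroup V))) 2)
  rw [← (hO.card_eq_and_exists_rg hP).1, hO.card_rg_eq ha hh]
  exact hO.card_le_card_inf hh hk

/-- Either `H` has order at most two or two reflections do not commute. -/
theorem exists_noncommute [Finite H]
    (hirr : ∀ U : AddSubgroup V, (∀ g : H, ∀ v ∈ U, g • v ∈ U) → U = ⊥ ∨ U = ⊤) :
    Nat.card H ≤ 2 ∨ ∃ h k : H, IsRefl V h ∧ IsRefl V k ∧ ¬ Commute h k := by
  by_cases hne : ∃ g : H, g ≠ 1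
  · obtain ⟨h, hh, hmax⟩ := Set.Finite.exists_maximalFor
      (fun g : H => Nat.card (fx g : AddSubgroup V)) {g : H | g ≠ 1} (Set.toFinite _) hne
    have hr : IsRefl V h := ⟨hh, fun g hg => by
      by_contra hlt
      exact hlt (hmax hg (le_of_not_ge hlt))⟩
    by_cases hbot : (fx h : AddSubgroup V) = ⊥
    · left
      have hneg : ∀ g : H, g ≠ 1 → ∀ v : V, g • v = -v := fun g hg v => by
        have hgr : IsRefl V g := ⟨hg, fun l hl => (hr.2 l hl).trans (by
          rw [hbot, AddSubgroup.card_bot]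
          exact Nat.card_pos)⟩
        have h1 := hgr.add_smul_mem hO.bin v
        have hb : (fx g : AddSubgroup V) = ⊥ := AddSubgroup.eq_bot_of_card_eq _ (by
          rw [hgr.card_fx_eq hr, hbot, AddSubgroup.card_bot])
        rw [hb, AddSubgroup.mem_bot] at h1
        exact eq_neg_of_add_eq_zero_right h1
      calc Nat.card H ≤ Nat.card Bool := by
            classical
            refine Nat.card_le_card_of_injective (fun g : H => decide (g = 1)) fun a b hab => ?_
            simp only [decide_eq_decide] at hab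
            by_cases ha : a = 1
            · rw [ha, hab.1 ha]
            · exact eq_of_smul_eq_smul (α := V) fun v => by
                rw [hneg a ha, hneg b (fun hb => ha (hab.2 hb))]
        _ = 2 := by simp
    right
    by_cases hc : ∀ g : H, g * h * g⁻¹ = h
    · exfalso
      have hinv : ∀ g : H, ∀ v ∈ (rg h : AddSubgroup V), g • v ∈ rg h := fun g v hv =>
        hc g ▸ smul_mem_rg_conj hv
      rcases hirr _ hinv with h1 | h1
      · obtain ⟨e, he, he0⟩ := hO.exists_ne_zero_rg hr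
        exact he0 (by rwa [h1, AddSubgroup.mem_bot] at he)
      · exact hbot (eq_bot_iff.2 fun x hx => AddSubgroup.mem_bot.2
          (hO.eq_zero_of_mem_fx_rg hr hx (h1 ▸ AddSubgroup.mem_top x)))
    push Not at hc
    obtain ⟨g, hg⟩ := hc
    by_cases hcm : Commute h (g * h * g⁻¹)
    · obtain ⟨l, hl, hl1, -⟩ := hO.exists_neighbour_conj hr rfl (Ne.symm hg) hcm
      exact ⟨l, h, hl, hr, hl1⟩
    · exact ⟨h, _, hr, hr.conj g, hcm⟩
  · left
    push Not at hne
    haveI : Subsingleton H := ⟨fun a b => by rw [hne a, hne b]⟩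
    exact Finite.card_le_one_iff_subsingleton.2 ‹_› |>.trans (by norm_num)

end OddHyp

end CfsgLib.BinaryAffine
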